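import Cfsg.Agent.CubicThree.Basic

/-!
Abelian moved subgroups: the moved space has dimension three, the subgroup has order `4` or `13`.
-/

set_option autoImplicit false
set_option linter.style.haveILetI false
set_option linter.unusedSectionVars false

namespace CfsgLib.CubicThree

open scoped commutatorElement

variable {S : Type*} [Group S] [Finite S]
variable {E : Type*} [AddCommGroup E] [Module (ZMod 3) E] [Finite E]
variable {ρ : Representation (ZMod 3) S E}

theorem zpowers_cases {b : S} (hb : orderOf b = 3) {y : S} (hy : y ∈ Subgroup.zpowers b) :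
    y = 1 ∨ y = b ∨ y = b * b := by
  rw [← mem_powers_iff_mem_zpowers] at hy
  obtain ⟨n, rfl⟩ := hy
  dsimp only
  rw [← pow_mod_orderOf, hb]
  rcases (show n % 3 = 0 ∨ n % 3 = 1 ∨ n % 3 = 2 by omega) with h | h | h <;> rw [h]
  · exact Or.inl (pow_zero b)
  · exact Or.inr (Or.inl (pow_one b))
  · exact Or.inr (Or.inr (pow_two b))

variable {b : S} {A : Subgroup S}

/-- The map `a ↦ ⁅a, b⁆` of a commutative moved subgroup. -/
theorem Moved.exists_phi (h : Moved b A) (hb : orderOf b = 3)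
    (hc : ∀ x ∈ A, ∀ y ∈ A, x * y = y * x) :
    ∃ φ : A →* A, Function.Bijective φ ∧ ∀ a : A, (φ a : S) = a * (b * (a : S)⁻¹ * b⁻¹) := by
  let φ : A →* A :=
    { toFun := fun a => ⟨a * (b * (a : S)⁻¹ * b⁻¹), mul_mem a.2 (h.inv _ (inv_mem a.2))⟩
      map_one' := Subtype.ext (by simp)
      map_mul' := fun a a' => Subtype.ext (by
        simp only [Subgroup.coe_mul]
        have h1 := hc _ (h.inv _ (inv_mem a.2)) _ (mul_mem a'.2 (h.inv _ (inv_mem a'.2)))
        calc (a : S) * a' * (b * ((a : S) * a')⁻¹ * b⁻¹)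
            = a * (((a' : S) * (b * (a' : S)⁻¹ * b⁻¹)) * (b * (a : S)⁻¹ * b⁻¹)) := by group
          _ = a * ((b * (a : S)⁻¹ * b⁻¹) * ((a' : S) * (b * (a' : S)⁻¹ * b⁻¹))) := by rw [h1]
          _ = a * (b * (a : S)⁻¹ * b⁻¹) * ((a' : S) * (b * (a' : S)⁻¹ * b⁻¹)) := by group) }
  refine ⟨φ, ?_, fun a => rfl⟩
  have hsurj : Function.Surjective φ := by
    have hle : A ≤ φ.range.map A.subtype := by
      refine h.le_of fun x hx y hy => ?_
      rcases zpowers_cases hb hy with hy' | hy' | hy' <;> rw [hy']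
      · rw [commutatorElement_def]; simp
      · refine ⟨φ ⟨x, hx⟩, ⟨⟨x, hx⟩, rfl⟩, ?_⟩
        show x * (b * x⁻¹ * b⁻¹) = _
        rw [commutatorElement_def]; group
      · refine ⟨φ (⟨x, hx⟩ * ⟨b * x * b⁻¹, h.inv x hx⟩), ⟨_, rfl⟩, ?_⟩
        rw [map_mul]
        show x * (b * x⁻¹ * b⁻¹) * (b * x * b⁻¹ * (b * (b * x * b⁻¹)⁻¹ * b⁻¹)) = _
        rw [commutatorElement_def]; group
    intro a
    obtain ⟨c, ⟨d, hd⟩, hc'⟩ := hle a.2
    exact ⟨d, hd.trans (Subtype.ext hc')⟩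
  exact ⟨Finite.injective_iff_surjective.2 hsurj, hsurj⟩

theorem Moved.fixed_eq_one (h : Moved b A) (hb : orderOf b = 3)
    (hc : ∀ x ∈ A, ∀ y ∈ A, x * y = y * x) {a : S} (ha : a ∈ A) (hab : b * a = a * b) : a = 1 := by
  obtain ⟨φ, hbij, hφ⟩ := h.exists_phi hb hc
  have h1 : φ ⟨a, ha⟩ = φ 1 := by
    refine Subtype.ext ?_
    rw [hφ, map_one]
    have h2 : b * a⁻¹ = a⁻¹ * b := (Commute.inv_right (show Commute b a from hab)).eq
    simp [h2]
  exact congrArg Subtype.val (hbij.1 h1)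

/-- The averaging identity. -/
theorem Cubic.frob (hb : Cubic ρ b) (h : Moved b A) (hc : ∀ x ∈ A, ∀ y ∈ A, x * y = y * x)
    [Fintype A] {v : E} (hv : v ∈ Com ρ A) :
    (Nat.card A : ZMod 3) • v
      = ∑ a : A, ρ (a : S) (du ρ b (du ρ b (ρ (a : S)⁻¹ v))) := by
  obtain ⟨φ, hbij, hφ⟩ := h.exists_phi hb.ord hc
  have hA0 : ∀ w ∈ Com ρ A, ∑ a : A, ρ (a : S) w = 0 := fun w hw => by
    rw [← sumMap_apply]; exact hw
  have hbv : ∀ w ∈ Com ρ A, ρ b w ∈ Com ρ A := fun w hw => rho_mem_Com ρ h.normalizer hw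
  have e1 : ∑ a : A, ρ (a : S) (ρ b (ρ (a : S)⁻¹ v)) = 0 := by
    rw [← hA0 _ (hbv v hv)]
    refine Fintype.sum_bijective φ hbij _ _ fun a => ?_
    rw [hφ, ← rho_mul, ← rho_mul, ← rho_mul]
    congr 2
    group
  have e2 : ∑ a : A, ρ (a : S) (ρ (b * b) (ρ (a : S)⁻¹ v)) = 0 := by
    rw [← hA0 _ (rho_mem_Com ρ (mul_mem h.normalizer h.normalizer) hv)]
    let ψ : A →* A := MonoidHom.mk' (fun a => φ a * φ ⟨b * a * b⁻¹, h.inv _ a.2⟩) fun a a' => by
      have e : (⟨b * ↑(a * a') * b⁻¹, h.inv _ (a * a').2⟩ : A)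
          = ⟨b * a * b⁻¹, h.inv _ a.2⟩ * ⟨b * a' * b⁻¹, h.inv _ a'.2⟩ := by
        refine Subtype.ext ?_
        simp only [Subgroup.coe_mul]
        group
      rw [e, map_mul, map_mul]
      refine Subtype.ext ?_
      simp only [Subgroup.coe_mul]
      rw [mul_assoc (φ a : S), ← mul_assoc (φ a' : S), hc _ (φ a').2 _ (φ _).2, mul_assoc,
        ← mul_assoc (φ a : S)]
    have hψ : ∀ a : A, (ψ a : S) = a * (b * b * (a : S)⁻¹ * (b * b)⁻¹) := fun a => by
      show ((φ a : S)) * (φ ⟨b * a * b⁻¹, h.inv _ a.2⟩ : S) = _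
      rw [hφ, hφ]
      group
    have hψi : Function.Injective ψ := by
      rw [injective_iff_map_eq_one]
      intro a ha
      have h1 := congrArg Subtype.val ha
      rw [hψ, Subgroup.coe_one, mul_eq_one_iff_eq_inv] at h1
      have h2 : Commute (b * b) (a : S) := by
        refine mul_inv_eq_iff_eq_mul.1 ?_
        calc b * b * (a : S) * (b * b)⁻¹ = (b * b * (a : S)⁻¹ * (b * b)⁻¹)⁻¹ := by
              rw [conj_inv, inv_inv]
          _ = a := h1.symm
      have h3 : Commute b (a : S) := by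
        have h4 := h2.mul_left h2
        rwa [show b * b * (b * b) = b by rw [← mul_assoc, hb.pow3, one_mul]] at h4
      exact Subtype.ext (h.fixed_eq_one hb.ord hc a.2 h3.eq)
    refine Fintype.sum_bijective ψ ⟨hψi, Finite.injective_iff_surjective.1 hψi⟩ _ _ fun a => ?_
    rw [hψ, ← rho_mul, ← rho_mul, ← rho_mul]
    congr 2
    group
  simp only [du_sq, map_add, rho_self_inv, Finset.sum_add_distrib, e1, e2, zero_add,
    Finset.sum_const, Finset.card_univ, Nat.card_eq_fintype_card, Nat.cast_smul_eq_nsmul]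

theorem smul_cancel_card (h : Moved b A) {N : Submodule (ZMod 3) E} {v : E}
    (hv : (Nat.card A : ZMod 3) • v ∈ N) : v ∈ N := by
  have h1 := N.smul_mem ((Nat.card A : ZMod 3))⁻¹ hv
  rwa [inv_smul_smul₀ (card_ne_zero h.cop)] at h1

/-- The data extracted from a commutative moved subgroup. -/
structure AbData (ρ : Representation (ZMod 3) S E) (b : S) (A : Subgroup S) (l : E) : Prop where
  ne : l ≠ 0
  mem : l ∈ Com ρ A
  fixed : ρ b l = l
  span : ∀ v ∈ Com ρ A, v ∈ Submodule.span (ZMod 3) (Set.range fun a : A => ρ (a : S) l)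
  image : ∃ w ∈ Com ρ A, du ρ b (du ρ b w) = l
  sq : ∀ v, ∃ c : ZMod 3, du ρ b (du ρ b v) = c • l

theorem Cubic.exists_abData (hb : Cubic ρ b) (hf : Function.Injective ρ) (h : Moved b A)
    (hne : A ≠ ⊥) (hc : ∀ x ∈ A, ∀ y ∈ A, x * y = y * x) : ∃ l, AbData ρ b A l := by
  obtain ⟨l, hl0, ⟨w, hw⟩, hl⟩ := hb.exists_line
  refine ⟨l, hl0, hw ▸ hb.du_mem_Com hf h hne _, ?_, fun v hv => ?_, ?_, hl⟩
  · exact (du_eq_zero ρ).1 (hw ▸ hb.cube w)
  · haveI := Fintype.ofFinite A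
    refine smul_cancel_card h ?_
    rw [hb.frob h hc hv]
    refine Submodule.sum_mem _ fun a _ => ?_
    obtain ⟨c, hc'⟩ := hl (ρ (a : S)⁻¹ v)
    rw [hc', map_smul]
    exact Submodule.smul_mem _ _ (Submodule.subset_span ⟨a, rfl⟩)
  · have hmem : w ∈ Fix ρ A ⊔ Com ρ A := by rw [Fix_sup_Com ρ h.cop]; exact Submodule.mem_top
    obtain ⟨x, hx, y, hy, rfl⟩ := Submodule.mem_sup.1 hmem
    refine ⟨y, hy, ?_⟩
    rw [← hw, map_add, (du_eq_zero ρ).2 (hb.fix_trivial hf h hne x hx), zero_add]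

variable {l : E}

theorem AbData.eq_on (d : AbData ρ b A l) {G₁ G₂ : E →ₗ[ZMod 3] E}
    (h₁ : ∀ a ∈ A, G₁ (ρ a l) = ρ a (G₁ l)) (h₂ : ∀ a ∈ A, G₂ (ρ a l) = ρ a (G₂ l))
    (heq : G₁ l = G₂ l) {v : E} (hv : v ∈ Com ρ A) : G₁ v = G₂ v := by
  have hle : Submodule.span (ZMod 3) (Set.range fun a : A => ρ (a : S) l) ≤
      LinearMap.eqLocus G₁ G₂ := by
    rw [Submodule.span_le]
    rintro _ ⟨a, rfl⟩
    show G₁ (ρ (a : S) l) = G₂ (ρ (a : S) l)
    rw [h₁ a a.2, h₂ a a.2, heq]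
  exact hle (d.span v hv)

theorem AbData.exists_comb (d : AbData ρ b A l) (hc : ∀ x ∈ A, ∀ y ∈ A, x * y = y * x) {x : E}
    (hx : x ∈ Com ρ A) : ∃ F : E →ₗ[ZMod 3] E, F l = x ∧
      (∀ v ∈ Com ρ A, F v ∈ Com ρ A) ∧ (∀ a ∈ A, ∀ v, F (ρ a v) = ρ a (F v)) ∧
      ∀ G : E →ₗ[ZMod 3] E, ∀ v, (∀ a ∈ A, G (ρ a v) = ρ a (G v)) → G (F v) = F (G v) := by
  haveI := Fintype.ofFinite A
  obtain ⟨c, hc'⟩ := (Submodule.mem_span_range_iff_exists_fun (ZMod 3)).1 (d.span x hx)
  refine ⟨∑ a : A, c a • ρ (a : S), ?_, fun v hv => ?_, fun a ha v => ?_, fun G v hG => ?_⟩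
  · rw [← hc']; simp
  · simp only [LinearMap.coe_sum, Finset.sum_apply, LinearMap.smul_apply]
    exact Submodule.sum_mem _ fun a _ =>
      Submodule.smul_mem _ _ (rho_mem_Com ρ (Subgroup.le_normalizer a.2) hv)
  · simp only [LinearMap.coe_sum, Finset.sum_apply, LinearMap.smul_apply, map_sum, map_smul,
      ← rho_mul, hc a ha]
    refine Finset.sum_congr rfl fun i _ => ?_
    rw [hc _ i.2 a ha]
  · simp only [LinearMap.coe_sum, Finset.sum_apply, LinearMap.smul_apply, map_sum, map_smul]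
    exact Finset.sum_congr rfl fun i _ => by rw [hG i i.2]

theorem AbData.line (hb : Cubic ρ b) (h : Moved b A) (d : AbData ρ b A l)
    (hc : ∀ x ∈ A, ∀ y ∈ A, x * y = y * x) {x : E} (hx : x ∈ Com ρ A) (hbx : ρ b x = x) :
    ∃ c : ZMod 3, x = c • l := by
  obtain ⟨F, hFl, hFC, hFA, -⟩ := d.exists_comb hc hx
  have hbl' : ρ b⁻¹ l = l := rho_inv_fix ρ d.fixed
  have key : ∀ v ∈ Com ρ A, F (ρ b v) = ρ b (F v) := by
    intro v hv
    have e := d.eq_on (G₁ := ρ b ∘ₗ F ∘ₗ ρ b⁻¹) (G₂ := F) (fun a ha => ?_) (fun a ha => hFA a ha l)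
      (by rw [LinearMap.comp_apply, LinearMap.comp_apply, hbl', hFl, hbx])
      (rho_mem_Com ρ h.normalizer hv)
    · rw [← e, LinearMap.comp_apply, LinearMap.comp_apply, rho_inv_self]
    · have ha' : b⁻¹ * a * b ∈ A := by
        have h1 := (Subgroup.mem_normalizer_iff.1 (inv_mem h.normalizer) a).1 ha
        rwa [inv_inv] at h1
      simp only [LinearMap.comp_apply]
      rw [← rho_mul, show b⁻¹ * a = (b⁻¹ * a * b) * b⁻¹ by group, rho_mul, hFA _ ha', ← rho_mul,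
        ← rho_mul ρ a b]
      congr 2
      group
  obtain ⟨w, hw, hwl⟩ := d.image
  have hdu : ∀ v ∈ Com ρ A, F (du ρ b v) = du ρ b (F v) := fun v hv => by
    rw [du_apply, du_apply, map_sub, key v hv]
  obtain ⟨c, hc'⟩ := d.sq (F w)
  refine ⟨c, ?_⟩
  rw [← hFl, ← hwl, hdu _ (du_mem ρ (fun v hv => rho_mem_Com ρ h.normalizer hv) hw), hdu _ hw, hc']
  rw [hwl]

theorem AbData.finrank (hb : Cubic ρ b) (hf : Function.Injective ρ) (h : Moved b A) (hne : A ≠ ⊥)
    (d : AbData ρ b A l) (hc : ∀ x ∈ A, ∀ y ∈ A, x * y = y * x) :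
    Module.finrank (ZMod 3) (Com ρ A) = 3 := by
  set f := (du ρ b).domRestrict (Com ρ A) with hfd
  have h1 := LinearMap.finrank_range_add_finrank_ker f
  have hr : LinearMap.range f = LinearMap.range (du ρ b) := by
    refine le_antisymm ?_ ?_
    · rintro _ ⟨v, rfl⟩; exact ⟨v, rfl⟩
    · rintro _ ⟨v, rfl⟩
      have hmem : v ∈ Fix ρ A ⊔ Com ρ A := by rw [Fix_sup_Com ρ h.cop]; exact Submodule.mem_top
      obtain ⟨x, hx, y, hy, rfl⟩ := Submodule.mem_sup.1 hmem
      exact ⟨⟨y, hy⟩, by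
        rw [map_add, (du_eq_zero ρ).2 (hb.fix_trivial hf h hne x hx), zero_add]; rfl⟩
  have hk : Module.finrank (ZMod 3) (LinearMap.ker f) = 1 := by
    rw [← Submodule.finrank_map_subtype_eq]
    have e : (LinearMap.ker f).map (Com ρ A).subtype = (ZMod 3) ∙ l := by
      refine le_antisymm ?_ ?_
      · rintro _ ⟨v, hv, rfl⟩
        obtain ⟨c, hc'⟩ := d.line hb h hc v.2 ((du_eq_zero ρ).1 hv)
        exact Submodule.mem_span_singleton.2 ⟨c, hc'.symm⟩
      · rw [Submodule.span_singleton_le_iff_mem]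
        exact ⟨⟨l, d.mem⟩, (du_eq_zero ρ).2 d.fixed, rfl⟩
    rw [e, finrank_span_singleton d.ne]
  rw [hr, hb.rank, hk] at h1
  exact h1.symm

theorem AbData.commutant (d : AbData ρ b A l) (hc : ∀ x ∈ A, ∀ y ∈ A, x * y = y * x)
    {G₁ G₂ : E →ₗ[ZMod 3] E} (hC₁ : ∀ v ∈ Com ρ A, G₁ v ∈ Com ρ A)
    (hC₂ : ∀ v ∈ Com ρ A, G₂ v ∈ Com ρ A)
    (h₁ : ∀ a ∈ A, ∀ v ∈ Com ρ A, G₁ (ρ a v) = ρ a (G₁ v))
    (h₂ : ∀ a ∈ A, ∀ v ∈ Com ρ A, G₂ (ρ a v) = ρ a (G₂ v)) {v : E} (hv : v ∈ Com ρ A) :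
    G₁ (G₂ v) = G₂ (G₁ v) := by
  obtain ⟨F, hFl, -, hFA, hFG⟩ := d.exists_comb hc (hC₂ l d.mem)
  have e : ∀ w ∈ Com ρ A, G₂ w = F w := fun w hw =>
    d.eq_on (fun a ha => h₂ a ha l d.mem) (fun a ha => hFA a ha l) hFl.symm hw
  rw [e v hv, e _ (hC₁ v hv), hFG G₁ v fun a ha => h₁ a ha v hv]

theorem AbData.scalar (hb : Cubic ρ b) (h : Moved b A) (d : AbData ρ b A l)
    (hc : ∀ x ∈ A, ∀ y ∈ A, x * y = y * x) {G : E →ₗ[ZMod 3] E}
    (hC : ∀ v ∈ Com ρ A, G v ∈ Com ρ A) (hA : ∀ a ∈ A, G (ρ a l) = ρ a (G l))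
    (hGb : G (ρ b l) = ρ b (G l)) : ∃ c : ZMod 3, ∀ v ∈ Com ρ A, G v = c • v := by
  obtain ⟨c, hc'⟩ := d.line hb h hc (hC l d.mem) (by rw [← hGb, d.fixed])
  refine ⟨c, fun v hv => ?_⟩
  exact d.eq_on (G₂ := c • LinearMap.id) hA (fun a _ => by simp) (by simpa using hc') hv

theorem AbData.irreducible (hb : Cubic ρ b) (h : Moved b A) (d : AbData ρ b A l)
    (hc : ∀ x ∈ A, ∀ y ∈ A, x * y = y * x) {N : Submodule (ZMod 3) E} (hN : N ≤ Com ρ A)
    (hA : ∀ a ∈ A, ∀ v ∈ N, ρ a v ∈ N) (hNb : ∀ v ∈ N, ρ b v ∈ N) (h0 : N ≠ ⊥) :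
    N = Com ρ A := by
  haveI := Fintype.ofFinite A
  have hl : l ∈ N := by
    by_contra hl
    refine h0 (eq_bot_iff.2 fun v hv => ?_)
    refine smul_cancel_card h ?_
    rw [hb.frob h hc (hN hv)]
    refine Submodule.sum_mem _ fun a _ => ?_
    obtain ⟨c, hc'⟩ := d.sq (ρ (a : S)⁻¹ v)
    have hmem : du ρ b (du ρ b (ρ (a : S)⁻¹ v)) ∈ N :=
      du_mem ρ hNb (du_mem ρ hNb (hA _ (inv_mem a.2) v hv))
    rcases eq_or_ne c 0 with h1 | h1
    · rw [hc', h1, zero_smul, map_zero]; exact Submodule.zero_mem _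
    · exfalso
      apply hl
      rw [hc'] at hmem
      have h2 := N.smul_mem c⁻¹ hmem
      rwa [inv_smul_smul₀ h1] at h2
  refine le_antisymm hN fun v hv => ?_
  exact Submodule.span_le.2 (by rintro _ ⟨a, rfl⟩; exact hA a a.2 l hl) (d.span v hv)

/-- The order of a commutative moved `q`-group. -/
theorem AbData.card (hb : Cubic ρ b) (hf : Function.Injective ρ) (h : Moved b A) (hne : A ≠ ⊥)
    (d : AbData ρ b A l) (hc : ∀ x ∈ A, ∀ y ∈ A, x * y = y * x) {q : ℕ} [Fact q.Prime]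
    (hq : IsPGroup q A) :
    (Nat.card A = 4 ∧ (∀ a ∈ A, a * a = 1) ∧ q = 2) ∨ (Nat.card A = 13 ∧ q = 13) := by
  have hE3 : Nat.card (Com ρ A) = 27 := by
    rw [Module.natCard_eq_pow_finrank (K := ZMod 3), Nat.card_zmod,
      d.finrank hb hf h hne hc]
    norm_num
  -- orbits of `A` on the moved space
  have hmod : Nat.card (Com ρ A) ≡ 1 [MOD q] := by
    letI : MulAction A (Com ρ A) :=
      { smul := fun a v => ⟨ρ (a : S) v, rho_mem_Com ρ (Subgroup.le_normalizer a.2) v.2⟩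
        one_smul := fun v => Subtype.ext (rho_one ρ (v : E))
        mul_smul := fun a a' v => Subtype.ext (rho_mul ρ (a : S) a' v) }
    have h1 := hq.card_modEq_card_fixedPoints (Com ρ A)
    have h2 : Nat.card (MulAction.fixedPoints A (Com ρ A)) = 1 := by
      rw [Nat.card_eq_one_iff_unique]
      refine ⟨⟨fun v w => ?_⟩, ⟨⟨0, fun a => Subtype.ext (map_zero (ρ (a : S)))⟩⟩⟩
      have key : ∀ u : MulAction.fixedPoints A (Com ρ A), ((u : Com ρ A) : E) = 0 := fun u => by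
        have h3 : ((u : Com ρ A) : E) ∈ Fix ρ A ⊓ Com ρ A :=
          ⟨fun a ha => congrArg Subtype.val (u.2 ⟨a, ha⟩), (u : Com ρ A).2⟩
        rwa [Fix_inf_Com ρ h.cop, Submodule.mem_bot] at h3
      exact Subtype.ext (Subtype.ext ((key v).trans (key w).symm))
    rwa [h2] at h1
  -- the size
  have hfix : ∀ a ∈ A, ρ a l = l → a = 1 := fun a ha hal =>
    eq_one_of_fix ρ hf h.cop (fun v hv => hv a ha) fun v hv => by
      have e := d.eq_on (G₁ := ρ a) (G₂ := LinearMap.id)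
        (fun a' ha' => by rw [← rho_mul, ← rho_mul, hc a ha a' ha']) (fun a' _ => rfl) hal hv
      exact e
  have hneg : ∀ a ∈ A, ρ a l ≠ -l := fun a ha hal => by
    have e : ∀ v ∈ Com ρ A, ρ a v = -v := fun v hv =>
      d.eq_on (G₁ := ρ a) (G₂ := -LinearMap.id)
        (fun a' ha' => by rw [← rho_mul, ← rho_mul, hc a ha a' ha'])
        (fun a' _ => by simp) (by simpa using hal) hv
    have hba : Commute b a := commute_of_fix ρ hf h.cop
      (fun v hv => by rw [hv a ha, hb.fix_trivial hf h hne v hv, hv a ha])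
      (fun v hv => by rw [e v hv, map_neg, e _ (rho_mem_Com ρ h.normalizer hv)])
    have ha1 := h.fixed_eq_one hb.ord hc ha hba.eq
    rw [ha1, rho_one] at hal
    have h2 : (2 : ZMod 3) • l = 0 := by rw [two_smul]; nth_rw 2 [hal]; exact add_neg_cancel l
    rcases smul_eq_zero.1 h2 with h3 | h3
    · exact absurd h3 (by decide)
    · exact d.ne h3
  have hinj : ∀ a a' : A, ρ (a : S) l = ρ (a' : S) l → a = a' := fun a a' he => Subtype.ext (by
    have h1 := hfix ((a' : S)⁻¹ * a) (mul_mem (inv_mem a'.2) a.2)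
      (by rw [rho_mul, he, rho_inv_self])
    exact (inv_mul_eq_one.1 h1).symm)
  have hsize : 2 * Nat.card A + 1 ≤ 27 := by
    let g : A ⊕ A ⊕ Unit → Com ρ A := fun s => match s with
      | Sum.inl a => ⟨ρ (a : S) l, rho_mem_Com ρ (Subgroup.le_normalizer a.2) d.mem⟩
      | Sum.inr (Sum.inl a) => ⟨-ρ (a : S) l,
          Submodule.neg_mem _ (rho_mem_Com ρ (Subgroup.le_normalizer a.2) d.mem)⟩
      | Sum.inr (Sum.inr _) => 0
    have hn0 : ∀ a : A, ρ (a : S) l ≠ 0 := fun a he =>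
      d.ne (rho_injective ρ _ (he.trans (map_zero (ρ (a : S))).symm))
    have hn1 : ∀ a a' : A, ρ (a : S) l ≠ -ρ (a' : S) l := fun a a' he =>
      hneg ((a' : S)⁻¹ * a) (mul_mem (inv_mem a'.2) a.2)
        (by rw [rho_mul, he, map_neg, rho_inv_self])
    have hg : Function.Injective g := by
      rintro (a | a | ⟨⟩) (a' | a' | ⟨⟩) he <;> replace he := congrArg Subtype.val he <;>
        dsimp [g] at he
      · exact congrArg Sum.inl (hinj a a' he)
      · exact absurd he (hn1 a a')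
      · exact absurd he (hn0 a)
      · exact absurd he.symm (hn1 a' a)
      · exact congrArg (fun x => Sum.inr (Sum.inl x)) (hinj a a' (neg_injective he))
      · exact absurd (neg_eq_zero.1 he) (hn0 a)
      · exact absurd he.symm (hn0 a')
      · exact absurd (neg_eq_zero.1 he.symm) (hn0 a')
      · rfl
    have h1 := Nat.card_le_card_of_injective g hg
    rw [hE3, Nat.card_sum, Nat.card_sum, Nat.card_unique (α := Unit)] at h1
    omega
  -- fixed points of `b`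
  have hmod3 : Nat.card A ≡ 1 [MOD 3] := by
    let φ : Subgroup.zpowers b →* MulAut A :=
      A.normalizerMonoidHom.comp (Subgroup.inclusion (conj_mem_iff_of_inv A h.inv))
    letI : MulAction (Subgroup.zpowers b) A := MulAction.compHom _ φ
    haveI : Fact (Nat.Prime 3) := ⟨Nat.prime_three⟩
    have hp : IsPGroup 3 (Subgroup.zpowers b) :=
      IsPGroup.of_card (n := 1) (by rw [Nat.card_zpowers, hb.ord, pow_one])
    have h1 := hp.card_modEq_card_fixedPoints A
    have h2 : Nat.card (MulAction.fixedPoints (Subgroup.zpowers b) A) = 1 := by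
      rw [Nat.card_eq_one_iff_unique]
      refine ⟨⟨fun v w => ?_⟩, ⟨⟨1, fun y => map_one (φ y)⟩⟩⟩
      have key : ∀ u : MulAction.fixedPoints (Subgroup.zpowers b) A, (u : A) = 1 := fun u => by
        refine Subtype.ext (h.fixed_eq_one hb.ord hc (u : A).2 ?_)
        have h3 : b * ((u : A) : S) * b⁻¹ = ((u : A) : S) :=
          congrArg Subtype.val (u.2 ⟨b, Subgroup.mem_zpowers b⟩)
        exact mul_inv_eq_iff_eq_mul.1 h3
      exact Subtype.ext ((key v).trans (key w).symm)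
    rwa [h2] at h1
  obtain ⟨k, hk⟩ := IsPGroup.iff_card.1 hq
  have hk0 : k ≠ 0 := fun h0 => hne (Subgroup.eq_bot_of_card_eq _ (by rw [hk, h0, pow_zero]))
  have hq26 : q ∣ 26 := by
    rw [hE3] at hmod
    exact (Nat.modEq_iff_dvd' (by norm_num : 1 ≤ 27)).1 hmod.symm
  have hqle : q ≤ 26 := Nat.le_of_dvd (by norm_num) hq26
  have hqp : q.Prime := Fact.out
  have hq' : q = 2 ∨ q = 13 := by
    interval_cases q <;> first | omega | norm_num at hqp
  have hkq : q ^ k ≤ 13 := by rw [← hk]; omega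
  rw [hk] at hmod3
  rcases hq' with rfl | rfl
  · left
    have hk4 : k < 4 := by
      by_contra h4
      have := Nat.pow_le_pow_right two_pos (not_lt.1 h4)
      omega
    have hcard : Nat.card A = 4 := by
      rw [hk]
      interval_cases k <;> first | omega | exact absurd hmod3 (by decide) | norm_num
    refine ⟨hcard, fun a ha => ?_, rfl⟩
    by_contra ha2
    have ho : orderOf a = 4 := by
      have h1 : orderOf a ∣ 2 ^ 2 := by
        rw [show 2 ^ 2 = Nat.card A by rw [hcard]; norm_num]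
        exact A.orderOf_dvd_natCard ha
      obtain ⟨i, hi, hio⟩ := (Nat.dvd_prime_pow Nat.prime_two).1 h1
      interval_cases i
      · exact absurd (by rw [orderOf_eq_one_iff.1 (hio.trans (pow_zero 2))]; simp) ha2
      · exact absurd (by rw [← pow_two]; exact orderOf_dvd_iff_pow_eq_one.1 hio.dvd) ha2
      · rw [hio]; norm_num
    have hA : A = Subgroup.zpowers a := (Subgroup.eq_of_le_of_card_ge
      (Subgroup.zpowers_le.2 ha) (by rw [Nat.card_zpowers, ho, hcard])).symm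
    have hb2 : b * (a * a) * b⁻¹ = a * a := by
      obtain ⟨i, hi⟩ := Subgroup.mem_zpowers_iff.1 (hA ▸ h.inv a ha)
      have e : b * (a * a) * b⁻¹ = a ^ (2 * i) := by
        rw [two_mul, zpow_add, hi]; group
      rcases Int.even_or_odd' i with ⟨j, rfl | rfl⟩
      · exfalso
        have e1 : a ^ (2 * (2 * j)) = 1 := by
          rw [← mul_assoc, zpow_mul]
          norm_num
          rw [← ho, pow_orderOf_eq_one, one_zpow]
        exact ha2 (conj_eq_one_iff.1 (e.trans e1))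
      · rw [e, show 2 * (2 * j + 1) = 4 * j + 2 by ring, zpow_add, zpow_mul,
          show a ^ (4 : ℤ) = a ^ (4 : ℕ) from zpow_natCast a 4, ← ho, pow_orderOf_eq_one,
          one_zpow, one_mul, show a ^ (2 : ℤ) = a * a from zpow_two a]
    exact ha2 (h.fixed_eq_one hb.ord hc (mul_mem ha ha) (mul_inv_eq_iff_eq_mul.1 hb2))
  · right
    have hk1 : k = 1 := by
      by_contra h1
      have := Nat.pow_le_pow_right (show 0 < 13 by norm_num) (show 2 ≤ k by omega)
      omega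
    exact ⟨by rw [hk, hk1, pow_one], rfl⟩

end CfsgLib.CubicThree
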