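import Mathlib
import Cfsg.Agent.Coprime.Basic

/-!
An element of order three acting on a module over the field with three elements with a single
non-trivial Jordan block, of size three, and subgroups of order prime to three that it normalises.
-/

set_option autoImplicit false
set_option linter.style.haveILetI false
set_option linter.unusedSectionVars false

namespace CfsgLib.CubicThree

open scoped commutatorElement

variable {S : Type*} [Group S] [Finite S]
variable {E : Type*} [AddCommGroup E] [Module (ZMod 3) E] [Finite E]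
variable (ρ : Representation (ZMod 3) S E)

theorem rho_mul (x y : S) (v : E) : ρ (x * y) v = ρ x (ρ y v) := by
  rw [map_mul, Module.End.mul_apply]

theorem rho_one (v : E) : ρ 1 v = v := by
  rw [map_one, Module.End.one_apply]

theorem rho_inv_self (x : S) (v : E) : ρ x⁻¹ (ρ x v) = v := by
  rw [← rho_mul, inv_mul_cancel, rho_one]

theorem rho_self_inv (x : S) (v : E) : ρ x (ρ x⁻¹ v) = v := by
  rw [← rho_mul, mul_inv_cancel, rho_one]

theorem rho_injective (x : S) : Function.Injective (ρ x) := fun a c h => by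
  rw [← rho_inv_self ρ x a, h, rho_inv_self]

theorem rho_inv_fix {x : S} {v : E} (h : ρ x v = v) : ρ x⁻¹ v = v := by
  conv_lhs => rw [← h]
  exact rho_inv_self ρ x v

theorem rho_ext (hf : Function.Injective ρ) {x y : S} (h : ∀ v, ρ x v = ρ y v) : x = y :=
  hf (LinearMap.ext h)

/-- The common fixed space. -/
def Fix (X : Subgroup S) : Submodule (ZMod 3) E where
  carrier := {v | ∀ x ∈ X, ρ x v = v}
  zero_mem' := fun x _ => map_zero (ρ x)
  add_mem' := fun {v w} hv hw x hx => by rw [map_add, hv x hx, hw x hx]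
  smul_mem' := fun c v hv x hx => by rw [map_smul, hv x hx]

theorem mem_Fix {X : Subgroup S} {v : E} : v ∈ Fix ρ X ↔ ∀ x ∈ X, ρ x v = v := Iff.rfl

theorem Fix_anti {X Y : Subgroup S} (h : X ≤ Y) : Fix ρ Y ≤ Fix ρ X := fun _ hv x hx => hv x (h hx)

/-- The sum over a subgroup. -/
noncomputable def sumMap (X : Subgroup S) : E →ₗ[ZMod 3] E :=
  letI := Fintype.ofFinite X
  ∑ x : X, ρ x

theorem sumMap_apply (X : Subgroup S) [Fintype X] (v : E) :
    sumMap ρ X v = ∑ x : X, ρ (x : S) v := by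
  rw [sumMap, LinearMap.coe_sum, Finset.sum_apply]
  congr 1
  exact Finset.ext fun x => by simp

/-- The moved space. -/
noncomputable def Com (X : Subgroup S) : Submodule (ZMod 3) E := LinearMap.ker (sumMap ρ X)

theorem rho_sumMap (X : Subgroup S) {y : S} (hy : y ∈ X) (v : E) :
    ρ y (sumMap ρ X v) = sumMap ρ X v := by
  haveI := Fintype.ofFinite X
  rw [sumMap_apply, map_sum]
  refine Fintype.sum_equiv (Equiv.mulLeft ⟨y, hy⟩) _ _ fun x => ?_
  rw [← rho_mul]
  rfl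

theorem sumMap_conj {X : Subgroup S} {g : S} (hg : g ∈ Subgroup.normalizer (X : Set S)) (v : E) :
    sumMap ρ X (ρ g v) = ρ g (sumMap ρ X v) := by
  haveI := Fintype.ofFinite X
  rw [sumMap_apply, sumMap_apply, map_sum]
  refine Fintype.sum_equiv
    { toFun := fun x : X => (⟨g⁻¹ * (x : S) * g, by
        have h := (Subgroup.mem_normalizer_iff.1 (inv_mem hg) x).1 x.2
        rwa [inv_inv] at h⟩ : X)
      invFun := fun x : X => (⟨g * (x : S) * g⁻¹, (Subgroup.mem_normalizer_iff.1 hg x).1 x.2⟩ : X)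
      left_inv := fun x => Subtype.ext (show g * (g⁻¹ * (x : S) * g) * g⁻¹ = (x : S) by group)
      right_inv := fun x => Subtype.ext (show g⁻¹ * (g * (x : S) * g⁻¹) * g = (x : S) by group) }
    _ _ fun x => ?_
  rw [← rho_mul, ← rho_mul]
  congr 2
  show (x : S) * g = g * (g⁻¹ * (x : S) * g)
  group

theorem rho_mem_Com {X : Subgroup S} {g : S} (hg : g ∈ Subgroup.normalizer (X : Set S)) {v : E}
    (hv : v ∈ Com ρ X) : ρ g v ∈ Com ρ X := by
  rw [Com, LinearMap.mem_ker, sumMap_conj ρ hg, LinearMap.mem_ker.1 hv, map_zero]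

theorem rho_mem_Fix {X : Subgroup S} {g : S} (hg : g ∈ Subgroup.normalizer (X : Set S)) {v : E}
    (hv : v ∈ Fix ρ X) : ρ g v ∈ Fix ρ X := fun x hx => by
  have h := (Subgroup.mem_normalizer_iff.1 (inv_mem hg) x).1 hx
  rw [inv_inv] at h
  calc ρ x (ρ g v) = ρ g (ρ (g⁻¹ * x * g) v) := by
        rw [← rho_mul, ← rho_mul]; congr 2; group
    _ = ρ g v := by rw [hv _ h]

theorem sumMap_of_mem_Fix {X : Subgroup S} {v : E} (hv : v ∈ Fix ρ X) :
    sumMap ρ X v = (Nat.card X : ZMod 3) • v := by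
  haveI := Fintype.ofFinite X
  rw [sumMap_apply, Finset.sum_congr rfl (fun (x : X) _ => hv (x : S) x.2), Finset.sum_const, Finset.card_univ,
    Nat.card_eq_fintype_card, Nat.cast_smul_eq_nsmul]

theorem card_ne_zero {X : Subgroup S} (hX : (Nat.card X).Coprime 3) :
    (Nat.card X : ZMod 3) ≠ 0 := fun h => by
  rw [ZMod.natCast_eq_zero_iff] at h
  exact absurd (Nat.eq_one_of_dvd_coprimes hX h dvd_rfl) (by norm_num)

theorem Fix_inf_Com {X : Subgroup S} (hX : (Nat.card X).Coprime 3) :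
    Fix ρ X ⊓ Com ρ X = ⊥ := by
  rw [eq_bot_iff]
  rintro v ⟨hv, hv'⟩
  have h : (Nat.card X : ZMod 3) • v = 0 := (sumMap_of_mem_Fix ρ hv).symm.trans hv'
  rcases smul_eq_zero.1 h with h1 | h1
  · exact absurd h1 (card_ne_zero hX)
  · exact (Submodule.mem_bot _).2 h1

theorem Fix_sup_Com {X : Subgroup S} (hX : (Nat.card X).Coprime 3) :
    Fix ρ X ⊔ Com ρ X = ⊤ := by
  rw [eq_top_iff]
  intro v _
  set w := ((Nat.card X : ZMod 3))⁻¹ • sumMap ρ X v with hw
  have hwF : w ∈ Fix ρ X := Submodule.smul_mem _ _ fun x hx => rho_sumMap ρ X hx v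
  have hvC : v - w ∈ Com ρ X := by
    rw [Com, LinearMap.mem_ker, map_sub, sumMap_of_mem_Fix ρ hwF, hw, smul_inv_smul₀ (card_ne_zero hX),
      sub_self]
  exact Submodule.mem_sup.2 ⟨w, hwF, v - w, hvC, by abel⟩

/-- A map agreeing with the identity on both parts is the identity. -/
theorem eq_one_of_fix (hf : Function.Injective ρ) {X : Subgroup S} (hX : (Nat.card X).Coprime 3)
    {g : S} (h1 : ∀ v ∈ Fix ρ X, ρ g v = v) (h2 : ∀ v ∈ Com ρ X, ρ g v = v) : g = 1 := by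
  refine rho_ext ρ hf fun v => ?_
  have hv : v ∈ Fix ρ X ⊔ Com ρ X := by rw [Fix_sup_Com ρ hX]; exact Submodule.mem_top
  obtain ⟨a, ha, c, hc, rfl⟩ := Submodule.mem_sup.1 hv
  rw [map_add, h1 a ha, h2 c hc, rho_one]

theorem commute_of_fix (hf : Function.Injective ρ) {X : Subgroup S} (hX : (Nat.card X).Coprime 3)
    {g g' : S} (h1 : ∀ v ∈ Fix ρ X, ρ g (ρ g' v) = ρ g' (ρ g v))
    (h2 : ∀ v ∈ Com ρ X, ρ g (ρ g' v) = ρ g' (ρ g v)) : Commute g g' := by
  refine rho_ext ρ hf fun v => ?_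
  have hv : v ∈ Fix ρ X ⊔ Com ρ X := by rw [Fix_sup_Com ρ hX]; exact Submodule.mem_top
  obtain ⟨a, ha, c, hc, rfl⟩ := Submodule.mem_sup.1 hv
  rw [rho_mul, rho_mul]
  simp only [map_add]
  rw [h1 a ha, h2 c hc]

/-- `b - 1`. -/
def du (b : S) : E →ₗ[ZMod 3] E := ρ b - 1

theorem du_apply (b : S) (v : E) : du ρ b v = ρ b v - v := rfl

theorem du_eq_zero {b : S} {v : E} : du ρ b v = 0 ↔ ρ b v = v := by rw [du_apply, sub_eq_zero]

theorem du_mem {b : S} {P : Submodule (ZMod 3) E} (hP : ∀ v ∈ P, ρ b v ∈ P) {v : E} (hv : v ∈ P) :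
    du ρ b v ∈ P := Submodule.sub_mem _ (hP v hv) hv

theorem du_sq (b : S) (v : E) : du ρ b (du ρ b v) = ρ (b * b) v + ρ b v + v := by
  have h3 : (3 : ZMod 3) = 0 := rfl
  rw [rho_mul, du_apply, du_apply, map_sub]
  have h : (ρ b (ρ b v) - ρ b v - (ρ b v - v)) + (3 : ZMod 3) • ρ b v
      = ρ b (ρ b v) + ρ b v + v := by
    rw [show (3 : ZMod 3) = 1 + 1 + 1 from rfl, add_smul, add_smul, one_smul]
    abel
  rwa [h3, zero_smul, add_zero] at h

/-- The hypotheses on the element of order three. -/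
structure Cubic (b : S) : Prop where
  ord : orderOf b = 3
  cube : ∀ v, du ρ b (du ρ b (du ρ b v)) = 0
  sq_ne : ∃ v, du ρ b (du ρ b v) ≠ 0
  rank : Module.finrank (ZMod 3) (LinearMap.range (du ρ b)) = 2
  line : Module.finrank (ZMod 3) (LinearMap.range (du ρ b ∘ₗ du ρ b)) = 1

variable {ρ}

theorem Cubic.pow3 {b : S} (hb : Cubic ρ b) : b * b * b = 1 := by
  have h := pow_orderOf_eq_one b
  rwa [hb.ord, pow_succ, pow_two] at h

/-- A vector spanning the image of `(b - 1) ^ 2`. -/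
theorem Cubic.exists_line {b : S} (hb : Cubic ρ b) :
    ∃ l : E, l ≠ 0 ∧ (∃ w, du ρ b (du ρ b w) = l) ∧
      ∀ v, ∃ c : ZMod 3, du ρ b (du ρ b v) = c • l := by
  obtain ⟨w, hw⟩ := hb.sq_ne
  refine ⟨_, hw, ⟨w, rfl⟩, fun v => ?_⟩
  have h := (finrank_eq_one_iff_of_nonzero' (⟨_, ⟨w, rfl⟩⟩ :
    LinearMap.range (du ρ b ∘ₗ du ρ b)) (fun h => hw (congrArg Subtype.val h))).1 hb.line
  obtain ⟨c, hc⟩ := h ⟨_, ⟨v, rfl⟩⟩
  exact ⟨c, (congrArg Subtype.val hc).symm⟩

/-- In an invariant decomposition `b` moves only one of the summands. -/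
theorem Cubic.split {b : S} (hb : Cubic ρ b) {P Q : Submodule (ZMod 3) E}
    (hP : ∀ v ∈ P, ρ b v ∈ P) (hQ : ∀ v ∈ Q, ρ b v ∈ Q) (hd : P ⊓ Q = ⊥) (hs : P ⊔ Q = ⊤) :
    (∀ v ∈ P, ρ b v = v) ∨ (∀ v ∈ Q, ρ b v = v) := by
  set u := du ρ b with hu
  have hrange : LinearMap.range u = P.map u ⊔ Q.map u := by
    rw [← Submodule.map_sup, hs, Submodule.map_top]
  have hPu : P.map u ≤ P := Submodule.map_le_iff_le_comap.2 fun v hv => du_mem ρ hP hv
  have hQu : Q.map u ≤ Q := Submodule.map_le_iff_le_comap.2 fun v hv => du_mem ρ hQ hv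
  have hsum : Module.finrank (ZMod 3) (P.map u) + Module.finrank (ZMod 3) (Q.map u) = 2 := by
    have h := Submodule.finrank_sup_add_finrank_inf_eq (P.map u) (Q.map u)
    rw [← hrange, hb.rank, show P.map u ⊓ Q.map u = ⊥ from eq_bot_iff.2
      (le_trans (inf_le_inf hPu hQu) hd.le), finrank_bot, add_zero] at h
    exact h.symm
  -- a part moved in dimension one is killed by `u²`
  have key : ∀ R : Submodule (ZMod 3) E, Module.finrank (ZMod 3) (R.map u) ≤ 1 →
      ∀ v ∈ R, R.map u ≤ R → u (u v) = 0 := by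
    intro R hR v hv hRu
    by_contra hne
    have hle : (R.map u).map u ≤ R.map u := Submodule.map_mono hRu
    have hmem : u (u v) ∈ (R.map u).map u := ⟨u v, ⟨v, hv, rfl⟩, rfl⟩
    have hpos : 1 ≤ Module.finrank (ZMod 3) ((R.map u).map u) := by
      by_contra h0
      have : (R.map u).map u = ⊥ := Submodule.finrank_eq_zero.1 (by omega)
      rw [this, Submodule.mem_bot] at hmem
      exact hne hmem
    have heq : (R.map u).map u = R.map u :=
      Submodule.eq_of_le_of_finrank_le hle (by omega)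
    have h2 : ((R.map u).map u).map u = R.map u := by rw [heq, heq]
    have h3 : ((R.map u).map u).map u = ⊥ := by
      rw [eq_bot_iff]
      rintro _ ⟨_, ⟨_, ⟨z, -, rfl⟩, rfl⟩, rfl⟩
      exact (Submodule.mem_bot _).2 (hb.cube z)
    have h4 : u v ∈ R.map u := ⟨v, hv, rfl⟩
    rw [← h2, h3, Submodule.mem_bot] at h4
    exact hne (by rw [h4, map_zero])
  by_cases h0 : Module.finrank (ZMod 3) (P.map u) = 0
  · left
    intro v hv
    have h1 : u v ∈ P.map u := ⟨v, hv, rfl⟩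
    rw [Submodule.finrank_eq_zero.1 h0, Submodule.mem_bot] at h1
    exact (du_eq_zero ρ).1 h1
  by_cases h0' : Module.finrank (ZMod 3) (Q.map u) = 0
  · right
    intro v hv
    have h1 : u v ∈ Q.map u := ⟨v, hv, rfl⟩
    rw [Submodule.finrank_eq_zero.1 h0', Submodule.mem_bot] at h1
    exact (du_eq_zero ρ).1 h1
  exfalso
  obtain ⟨w, hw⟩ := hb.sq_ne
  have hv : w ∈ P ⊔ Q := by rw [hs]; exact Submodule.mem_top
  obtain ⟨x, hx, y, hy, rfl⟩ := Submodule.mem_sup.1 hv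
  apply hw
  rw [map_add, map_add, key P (by omega) x hx hPu, key Q (by omega) y hy hQu, add_zero]

/-- `X` is normalised by `b`, of order prime to three, and `X = ⁅X, ⟨b⟩⁆`. -/
structure Moved (b : S) (X : Subgroup S) : Prop where
  inv : ∀ x ∈ X, b * x * b⁻¹ ∈ X
  cop : (Nat.card X).Coprime 3
  gen : X ≤ ⁅X, Subgroup.zpowers b⁆

theorem conj_mem_iff_of_inv {b : S} (X : Subgroup S) (h : ∀ x ∈ X, b * x * b⁻¹ ∈ X) :
    Subgroup.zpowers b ≤ Subgroup.normalizer (X : Set S) := by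
  rw [Subgroup.zpowers_le, Subgroup.mem_normalizer_iff_map_conj_eq]
  refine Subgroup.eq_of_le_of_card_ge ?_
    (Subgroup.card_map_of_injective (f := (MulAut.conj b).toMonoidHom) (MulAut.conj b).injective).ge
  rintro _ ⟨x, hx, rfl⟩
  exact h x hx

theorem Moved.normalizer {b : S} {X : Subgroup S} (h : Moved b X) :
    b ∈ Subgroup.normalizer (X : Set S) :=
  conj_mem_iff_of_inv X h.inv (Subgroup.mem_zpowers b)

theorem Moved.le_of {b : S} {X L : Subgroup S} (h : Moved b X)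
    (hL : ∀ x ∈ X, ∀ y ∈ Subgroup.zpowers b, ⁅x, y⁆ ∈ L) : X ≤ L :=
  h.gen.trans (Subgroup.commutator_le.2 hL)

/-- `⁅X, b⁆` is again moved. -/
theorem moved_commutator {b : S} (hb3 : orderOf b = 3) {X : Subgroup S}
    (hinv : ∀ x ∈ X, b * x * b⁻¹ ∈ X) (hc : (Nat.card X).Coprime 3) :
    Moved b ⁅X, Subgroup.zpowers b⁆ ∧ ⁅X, Subgroup.zpowers b⁆ ≤ X := by
  have hN := conj_mem_iff_of_inv X hinv
  have hle := CfsgLib.Coprime.commutator_le_of_le_normalizer hN
  have hcop : (Nat.card (Subgroup.zpowers b)).Coprime (Nat.card X) := by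
    rw [Nat.card_zpowers, hb3]; exact hc.symm
  refine ⟨⟨fun x hx => ?_, hc.coprime_dvd_left (Subgroup.card_dvd_of_le hle), ?_⟩, hle⟩
  · exact (Subgroup.mem_normalizer_iff.1
      (Subgroup.normalizer_commutator_ge_right X (Subgroup.zpowers b) (Subgroup.mem_zpowers b)) x).1 hx
  · exact (CfsgLib.Coprime.commutator_commutator_eq hN hcop
      (Or.inl (CfsgLib.Coprime.isSolvable_zpowers b))).ge

theorem Moved.trivial_on {b : S} {X : Subgroup S} (h : Moved b X) {P : Submodule (ZMod 3) E}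
    (hP : ∀ x ∈ X, ∀ v ∈ P, ρ x v ∈ P) (hb : ∀ v ∈ P, ρ b v = v) :
    ∀ x ∈ X, ∀ v ∈ P, ρ x v = v := by
  let L : Subgroup S :=
    { carrier := {g | ∀ v ∈ P, ρ g v = v}
      one_mem' := fun v _ => rho_one ρ v
      mul_mem' := fun {g g'} hg hg' v hv => by rw [rho_mul, hg' v hv, hg v hv]
      inv_mem' := fun {g} hg v hv => rho_inv_fix ρ (hg v hv) }
  refine h.le_of (L := L) fun x hx y hy v hv => ?_
  have hy' : ∀ w ∈ P, ρ y w = w := fun w hw =>
    (Subgroup.zpowers_le.2 (show b ∈ L from hb) hy) w hw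
  rw [commutatorElement_def, rho_mul, rho_mul, rho_mul, rho_inv_fix ρ (hy' v hv),
    hy' _ (hP x⁻¹ (inv_mem hx) v hv), rho_self_inv]

/-- If `b` centralises a set normalised by `X`, so does `X`. -/
theorem Moved.centralize {b : S} {X A : Subgroup S} (h : Moved b X)
    (hn : ∀ x ∈ X, ∀ a ∈ A, x * a * x⁻¹ ∈ A) (hb : ∀ a ∈ A, b * a = a * b) :
    ∀ x ∈ X, ∀ a ∈ A, x * a = a * x := by
  intro x hx a ha
  have hy : ∀ y ∈ Subgroup.zpowers b, ∀ c ∈ A, y * c * y⁻¹ = c := fun y hy c hc => by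
    have h1 : b ∈ Subgroup.centralizer (A : Set S) :=
      Subgroup.mem_centralizer_iff.2 fun d hd => (hb d hd).symm
    rw [← Subgroup.mem_centralizer_iff.1 (Subgroup.zpowers_le.2 h1 hy) c hc,
      mul_inv_cancel_right]
  have h2 : X ≤ Subgroup.centralizer (A : Set S) := by
    refine h.le_of fun x hx y hyb => Subgroup.mem_centralizer_iff.2 fun c hc => ?_
    have h3 : x⁻¹ * c * x ∈ A := by simpa using hn x⁻¹ (inv_mem hx) c hc
    have e : ⁅x, y⁆ * c * ⁅x, y⁆⁻¹ = c := by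
      calc ⁅x, y⁆ * c * ⁅x, y⁆⁻¹ = x * (y * (x⁻¹ * (y⁻¹ * c * y⁻¹⁻¹) * x) * y⁻¹) * x⁻¹ := by
            rw [commutatorElement_def]; group
        _ = x * (x⁻¹ * c * x) * x⁻¹ := by rw [hy y⁻¹ (inv_mem hyb) c hc, hy y hyb _ h3]
        _ = c := by group
    exact (mul_inv_eq_iff_eq_mul.1 e).symm
  exact (Subgroup.mem_centralizer_iff.1 (h2 hx) a ha).symm

/-- `b` fixes the fixed space of a non-trivial moved subgroup. -/
theorem Cubic.fix_trivial {b : S} (hb : Cubic ρ b) (hf : Function.Injective ρ) {X : Subgroup S}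
    (h : Moved b X) (hne : X ≠ ⊥) : ∀ v ∈ Fix ρ X, ρ b v = v := by
  rcases hb.split (fun v hv => rho_mem_Fix ρ h.normalizer hv)
    (fun v hv => rho_mem_Com ρ h.normalizer hv) (Fix_inf_Com ρ h.cop) (Fix_sup_Com ρ h.cop) with h1 | h1
  · exact h1
  exfalso
  apply hne
  rw [eq_bot_iff]
  intro x hx
  rw [Subgroup.mem_bot]
  exact eq_one_of_fix ρ hf h.cop (fun v hv => hv x hx)
    (h.trivial_on (fun y hy v hv => rho_mem_Com ρ (Subgroup.le_normalizer hy) hv) h1 x hx)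

theorem Cubic.du_mem_Com {b : S} (hb : Cubic ρ b) (hf : Function.Injective ρ) {X : Subgroup S}
    (h : Moved b X) (hne : X ≠ ⊥) (v : E) : du ρ b v ∈ Com ρ X := by
  have hv : v ∈ Fix ρ X ⊔ Com ρ X := by rw [Fix_sup_Com ρ h.cop]; exact Submodule.mem_top
  obtain ⟨a, ha, c, hc, rfl⟩ := Submodule.mem_sup.1 hv
  rw [map_add, (du_eq_zero ρ).2 (hb.fix_trivial hf h hne a ha), zero_add]
  exact du_mem ρ (fun w hw => rho_mem_Com ρ h.normalizer hw) hc

/-- The moved space does not decompose. -/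
theorem Cubic.indecomposable {b : S} (hb : Cubic ρ b) (hf : Function.Injective ρ) {X : Subgroup S}
    (h : Moved b X) (hne : X ≠ ⊥) {P Q : Submodule (ZMod 3) E}
    (hPC : P ≤ Com ρ X) (hd : P ⊓ Q = ⊥) (hQC : Q ≤ Com ρ X) (hs : Com ρ X ≤ P ⊔ Q)
    (hP : ∀ g ∈ X ⊔ Subgroup.zpowers b, ∀ v ∈ P, ρ g v ∈ P)
    (hQ : ∀ g ∈ X ⊔ Subgroup.zpowers b, ∀ v ∈ Q, ρ g v ∈ Q) : P = ⊥ ∨ Q = ⊥ := by
  have hbm : b ∈ X ⊔ Subgroup.zpowers b := le_sup_right (a := X) (Subgroup.mem_zpowers b)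
  have hbot : ∀ R : Submodule (ZMod 3) E, R ≤ Com ρ X → (∀ g ∈ X ⊔ Subgroup.zpowers b, ∀ v ∈ R,
      ρ g v ∈ R) → (∀ v ∈ R, ρ b v = v) → R = ⊥ := fun R hR hR' hRb => by
    rw [eq_bot_iff, ← Fix_inf_Com ρ h.cop]
    exact fun v hv => ⟨fun x hx => h.trivial_on (fun y hy w hw => hR' y (le_sup_left (b :=
      Subgroup.zpowers b) hy) w hw) hRb x hx v hv, hR hv⟩
  have hF := fun v (hv : v ∈ Fix ρ X) => rho_mem_Fix ρ h.normalizer hv
  have hd' : P ⊓ (Fix ρ X ⊔ Q) = ⊥ := by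
    rw [eq_bot_iff]
    rintro v ⟨hvP, hv⟩
    obtain ⟨a, ha, c, hc, rfl⟩ := Submodule.mem_sup.1 hv
    have haC : a ∈ Com ρ X := by
      have h1 := Submodule.sub_mem _ (hPC hvP) (hQC hc)
      rwa [add_sub_cancel_right] at h1
    have ha0 : a ∈ Fix ρ X ⊓ Com ρ X := ⟨ha, haC⟩
    rw [Fix_inf_Com ρ h.cop, Submodule.mem_bot] at ha0
    rw [ha0, zero_add] at hvP ⊢
    rw [← hd]
    exact ⟨hvP, hc⟩
  have hs' : P ⊔ (Fix ρ X ⊔ Q) = ⊤ := by
    rw [eq_top_iff, ← Fix_sup_Com ρ h.cop]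
    exact sup_le (le_sup_left.trans le_sup_right) (hs.trans (sup_le le_sup_left
      (le_sup_right.trans le_sup_right)))
  have hbFQ : ∀ v ∈ Fix ρ X ⊔ Q, ρ b v ∈ Fix ρ X ⊔ Q := fun v hv => by
    obtain ⟨a, ha, c, hc, rfl⟩ := Submodule.mem_sup.1 hv
    rw [map_add]
    exact Submodule.add_mem_sup (hF a ha) (hQ b hbm c hc)
  rcases hb.split (hP b hbm) hbFQ hd' hs' with h1 | h1
  · exact Or.inl (hbot P hPC hP h1)
  · exact Or.inr (hbot Q hQC hQ fun v hv => h1 v (Submodule.mem_sup_right hv))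

/-- An element of order prime to three commuting with `X` and `b` is `±1` on the moved space. -/
theorem Cubic.central {b : S} (hb : Cubic ρ b) (hf : Function.Injective ρ) {X : Subgroup S}
    (h : Moved b X) (hne : X ≠ ⊥) {z : S} (hz3 : (orderOf z).Coprime 3)
    (hzX : ∀ x ∈ X, z * x = x * z) (hzb : z * b = b * z) :
    (∀ v ∈ Com ρ X, ρ z v = v) ∨ ∀ v ∈ Com ρ X, ρ z v = -v := by
  have hzN : z ∈ Subgroup.normalizer (X : Set S) := by
    refine Subgroup.centralizer_le_normalizer _ (Subgroup.mem_centralizer_iff.2 fun x hx => ?_)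
    exact (hzX x hx).symm
  obtain ⟨l, hl0, ⟨w, hw⟩, hl⟩ := hb.exists_line
  have hcomm : ∀ g, g * b = b * g → ∀ v, du ρ b (ρ g v) = ρ g (du ρ b v) := fun g hg v => by
    rw [du_apply, du_apply, map_sub, ← rho_mul, ← hg, rho_mul]
  have hlC : l ∈ Com ρ X := hw ▸ hb.du_mem_Com hf h hne _
  have hzl : ρ (z * z) l = l := by
    obtain ⟨c, hc⟩ := hl (ρ z w)
    rw [hcomm z hzb, hcomm z hzb, hw] at hc
    rw [rho_mul, hc, map_smul, hc, smul_smul]
    have hcc : ∀ c : ZMod 3, c = 0 ∨ c * c = 1 := by decide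
    rcases hcc c with h1 | h1
    · exfalso
      rw [h1, zero_smul] at hc
      exact hl0 (rho_injective ρ z (hc.trans (map_zero (ρ z)).symm))
    · rw [h1, one_smul]
  set Y := Subgroup.zpowers (z * z) with hY
  have hYc : (Nat.card Y).Coprime 3 := by
    rw [hY, Nat.card_zpowers]
    refine hz3.coprime_dvd_left ?_
    rw [← pow_two]
    exact orderOf_pow_dvd 2
  have hXb : ∀ g ∈ X ⊔ Subgroup.zpowers b, z * g = g * z := by
    have h1 : X ⊔ Subgroup.zpowers b ≤ Subgroup.centralizer {z} :=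
      sup_le (fun x hx => Subgroup.mem_centralizer_iff.2 fun v hv => by
          rw [Set.mem_singleton_iff.1 hv]; exact hzX x hx)
        (Subgroup.zpowers_le.2 (Subgroup.mem_centralizer_iff.2 fun v hv => by
          rw [Set.mem_singleton_iff.1 hv]; exact hzb))
    exact fun g hg => Subgroup.mem_centralizer_iff.1 (h1 hg) z rfl
  have hXbN : X ⊔ Subgroup.zpowers b ≤ Subgroup.normalizer (Y : Set S) := fun g hg => by
    refine Subgroup.centralizer_le_normalizer _ (Subgroup.mem_centralizer_iff.2 fun y hy => ?_)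
    obtain ⟨i, rfl⟩ := Subgroup.mem_zpowers_iff.1 hy
    have h1 : Commute (z * z) g := (show Commute z g from hXb g hg).mul_left (hXb g hg)
    exact (h1.zpow_left i).eq
  have hXbN' : X ⊔ Subgroup.zpowers b ≤ Subgroup.normalizer (X : Set S) :=
    sup_le Subgroup.le_normalizer (Subgroup.zpowers_le.2 h.normalizer)
  have hYX : Y ≤ Subgroup.normalizer (X : Set S) := Subgroup.zpowers_le.2 (mul_mem hzN hzN)
  -- `z²` is trivial on the moved space
  have hz2 : ∀ v ∈ Com ρ X, ρ (z * z) v = v := by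
    have hs : Com ρ X ≤ (Com ρ X ⊓ Fix ρ Y) ⊔ (Com ρ X ⊓ Com ρ Y) := by
      intro v hv
      set a := ((Nat.card Y : ZMod 3))⁻¹ • sumMap ρ Y v with ha
      haveI := Fintype.ofFinite Y
      have hsum : sumMap ρ Y v ∈ Com ρ X := by
        rw [sumMap_apply]
        exact Submodule.sum_mem _ fun y _ => rho_mem_Com ρ (hYX y.2) hv
      have haF : a ∈ Fix ρ Y := Submodule.smul_mem _ _ fun y hy => rho_sumMap ρ Y hy v
      have haC : v - a ∈ Com ρ Y := by
        rw [Com, LinearMap.mem_ker, map_sub, sumMap_of_mem_Fix ρ haF, ha,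
          smul_inv_smul₀ (card_ne_zero hYc), sub_self]
      refine Submodule.mem_sup.2 ⟨a, ⟨Submodule.smul_mem _ _ hsum, haF⟩, v - a,
        ⟨Submodule.sub_mem _ hv (Submodule.smul_mem _ _ hsum), haC⟩, by abel⟩
    have hd : (Com ρ X ⊓ Fix ρ Y) ⊓ (Com ρ X ⊓ Com ρ Y) = ⊥ :=
      eq_bot_iff.2 (le_trans (inf_le_inf inf_le_right inf_le_right) (Fix_inf_Com ρ hYc).le)
    rcases hb.indecomposable hf h hne inf_le_left hd inf_le_left hs
      (fun g hg v hv => ⟨rho_mem_Com ρ (hXbN' hg) hv.1, rho_mem_Fix ρ (hXbN hg) hv.2⟩)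
      (fun g hg v hv => ⟨rho_mem_Com ρ (hXbN' hg) hv.1, rho_mem_Com ρ (hXbN hg) hv.2⟩) with h1 | h1
    · exfalso
      have hlF : l ∈ Com ρ X ⊓ Fix ρ Y := ⟨hlC, fun y hy => by
        let L : Subgroup S :=
          { carrier := {g | ρ g l = l}
            one_mem' := rho_one ρ l
            mul_mem' := fun {g g'} (hg : ρ g l = l) (hg' : ρ g' l = l) => by
              show ρ (g * g') l = l
              rw [rho_mul, hg', hg]
            inv_mem' := fun {g} (hg : ρ g l = l) => rho_inv_fix ρ hg }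
        exact (Subgroup.zpowers_le.2 (show z * z ∈ L from hzl)) hy⟩
      rw [h1, Submodule.mem_bot] at hlF
      exact hl0 hlF
    · intro v hv
      have h2 := hs hv
      rw [h1, sup_bot_eq] at h2
      exact h2.2 _ (Subgroup.mem_zpowers _)
  -- the two eigenspaces
  let P : Submodule (ZMod 3) E := Com ρ X ⊓ LinearMap.ker (ρ z - 1)
  let Q : Submodule (ZMod 3) E := Com ρ X ⊓ LinearMap.ker (ρ z + 1)
  have hPmem : ∀ v, v ∈ P ↔ v ∈ Com ρ X ∧ ρ z v = v := fun v => by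
    simp [P, sub_eq_zero]
  have hQmem : ∀ v, v ∈ Q ↔ v ∈ Com ρ X ∧ ρ z v = -v := fun v => by
    simp [Q, add_eq_zero_iff_eq_neg]
  have hd : P ⊓ Q = ⊥ := by
    rw [eq_bot_iff]
    rintro v ⟨hv1, hv2⟩
    have e := ((hPmem v).1 hv1).2.symm.trans ((hQmem v).1 hv2).2
    have e2 : (2 : ZMod 3) • v = 0 := by rw [two_smul]; nth_rw 2 [e]; exact add_neg_cancel v
    rcases smul_eq_zero.1 e2 with h1 | h1
    · exact absurd h1 (by decide)
    · exact (Submodule.mem_bot _).2 h1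
  have hs : Com ρ X ≤ P ⊔ Q := fun v hv => by
    have hzv := rho_mem_Com ρ hzN hv
    have hz' : ρ z (ρ z v) = v := by rw [← rho_mul]; exact hz2 v hv
    refine Submodule.mem_sup.2 ⟨(2 : ZMod 3) • (v + ρ z v), (hPmem _).2 ⟨Submodule.smul_mem _ _
      (Submodule.add_mem _ hv hzv), by rw [map_smul, map_add, hz', add_comm]⟩,
      (2 : ZMod 3) • (v - ρ z v), (hQmem _).2 ⟨Submodule.smul_mem _ _ (Submodule.sub_mem _ hv hzv),
        by rw [map_smul, map_sub, hz', ← smul_neg, neg_sub]⟩, ?_⟩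
    rw [← smul_add, add_add_sub_cancel, ← two_smul (ZMod 3) v, smul_smul,
      show (2 : ZMod 3) * 2 = 1 by decide, one_smul]
  have hzg : ∀ g ∈ X ⊔ Subgroup.zpowers b, ∀ v, ρ z (ρ g v) = ρ g (ρ z v) := fun g hg v => by
    rw [← rho_mul, hXb g hg, rho_mul]
  rcases hb.indecomposable hf h hne inf_le_left hd inf_le_left hs
    (fun g hg v hv => (hPmem _).2 ⟨rho_mem_Com ρ (hXbN' hg) ((hPmem v).1 hv).1, by
      rw [hzg g hg, ((hPmem v).1 hv).2]⟩)
    (fun g hg v hv => (hQmem _).2 ⟨rho_mem_Com ρ (hXbN' hg) ((hQmem v).1 hv).1, by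
      rw [hzg g hg, ((hQmem v).1 hv).2, map_neg]⟩) with h1 | h1
  · right
    intro v hv
    have h2 := hs hv
    rw [show P = ⊥ from h1, bot_sup_eq] at h2
    exact ((hQmem v).1 h2).2
  · left
    intro v hv
    have h2 := hs hv
    rw [show Q = ⊥ from h1, sup_bot_eq] at h2
    exact ((hPmem v).1 h2).2

end CfsgLib.CubicThree
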