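import Cfsg.Agent.CubicThree.Abelian
import Cfsg.Agent.NoAbEight.Tools

/-!
Moved non-abelian subgroups: the centre, determinants, eigenspaces of involutions.
-/

set_option autoImplicit false
set_option linter.style.haveILetI false
set_option linter.unusedSectionVars false

namespace CfsgLib.CubicThree

open scoped commutatorElement

variable {S : Type*} [Group S] [Finite S]
variable {E : Type*} [AddCommGroup E] [Module (ZMod 3) E] [Finite E]
variable {ρ : Representation (ZMod 3) S E} {b : S}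

/-- The centre, as a subgroup of the ambient group. -/
def Zc (X : Subgroup S) : Subgroup S := X ⊓ Subgroup.centralizer (X : Set S)

theorem mem_Zc {X : Subgroup S} {c : S} : c ∈ Zc X ↔ c ∈ X ∧ ∀ x ∈ X, x * c = c * x :=
  ⟨fun h => ⟨h.1, Subgroup.mem_centralizer_iff.1 h.2⟩,
    fun h => ⟨h.1, Subgroup.mem_centralizer_iff.2 h.2⟩⟩

/-- Non-commutative. -/
def NonAb (X : Subgroup S) : Prop := ∃ x ∈ X, ∃ y ∈ X, x * y ≠ y * x

theorem conj_mem_Zc {X : Subgroup S} {g : S} (hg : g ∈ Subgroup.normalizer (X : Set S)) {c : S}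
    (hc : c ∈ Zc X) : g * c * g⁻¹ ∈ Zc X := by
  rw [mem_Zc] at hc ⊢
  refine ⟨(Subgroup.mem_normalizer_iff.1 hg c).1 hc.1, fun x hx => ?_⟩
  have hx' : g⁻¹ * x * g ∈ X := by
    have h1 := (Subgroup.mem_normalizer_iff.1 (inv_mem hg) x).1 hx
    rwa [inv_inv] at h1
  calc x * (g * c * g⁻¹) = g * ((g⁻¹ * x * g) * c) * g⁻¹ := by group
    _ = g * (c * (g⁻¹ * x * g)) * g⁻¹ := by rw [hc.2 _ hx']
    _ = g * c * g⁻¹ * x := by group

theorem mem_of_conj_normalizer {X : Subgroup S} {g : S} (hg : g ∈ Subgroup.normalizer (X : Set S))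
    {x : S} (hx : x ∈ X) : g⁻¹ * x * g ∈ X := by
  have h1 := (Subgroup.mem_normalizer_iff.1 (inv_mem hg) x).1 hx
  rwa [inv_inv] at h1

/-- The centre of a non-abelian moved subgroup is centralised by `b`. -/
theorem Moved.center_fixed {X : Subgroup S} (h : Moved b X) (hb : Cubic ρ b)
    (hf : Function.Injective ρ) (hn : NonAb X) {c : S} (hc : c ∈ Zc X) : b * c = c * b := by
  obtain ⟨hA, hAle⟩ := moved_commutator hb.ord (X := Zc X)
    (fun x hx => conj_mem_Zc h.normalizer hx)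
    (h.cop.coprime_dvd_left (Subgroup.card_dvd_of_le inf_le_left))
  set A := ⁅Zc X, Subgroup.zpowers b⁆
  by_cases hA0 : A = ⊥
  · have h1 : ⁅c, b⁆ ∈ A := Subgroup.commutator_mem_commutator hc (Subgroup.mem_zpowers b)
    rw [hA0, Subgroup.mem_bot, commutatorElement_eq_one_iff_mul_comm] at h1
    exact h1.symm
  exfalso
  have hAc : ∀ x ∈ A, ∀ y ∈ A, x * y = y * x := fun x hx y hy =>
    (mem_Zc.1 (hAle hy)).2 x (mem_Zc.1 (hAle hx)).1
  obtain ⟨l, d⟩ := hb.exists_abData hf hA hA0 hAc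
  have hXA : ∀ x ∈ X, ∀ a ∈ A, x * a = a * x := fun x hx a ha => (mem_Zc.1 (hAle ha)).2 x hx
  have hXN : X ≤ Subgroup.normalizer (A : Set S) := fun x hx =>
    Subgroup.centralizer_le_normalizer _ (Subgroup.mem_centralizer_iff.2 fun a ha => (hXA x hx a ha).symm)
  have hFix : ∀ x ∈ X, ∀ v ∈ Fix ρ A, ρ x v = v :=
    h.trivial_on (fun x hx v hv => rho_mem_Fix ρ (hXN hx) hv) (hb.fix_trivial hf hA hA0)
  obtain ⟨x, hx, y, hy, hxy⟩ := hn
  apply hxy
  refine (commute_of_fix ρ hf hA.cop (fun v hv => ?_) fun v hv => ?_).eq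
  · rw [hFix y hy v hv, hFix x hx v hv, hFix y hy v hv]
  · exact d.commutant hAc (fun w hw => rho_mem_Com ρ (hXN hx) hw)
      (fun w hw => rho_mem_Com ρ (hXN hy) hw)
      (fun a ha w _ => by rw [← rho_mul, ← rho_mul, hXA x hx a ha])
      (fun a ha w _ => by rw [← rho_mul, ← rho_mul, hXA y hy a ha]) hv

theorem Moved.ne_bot_of_nonAb {X : Subgroup S} (hn : NonAb X) : X ≠ ⊥ := fun h => by
  obtain ⟨x, hx, y, hy, hxy⟩ := hn
  rw [h, Subgroup.mem_bot] at hx
  exact hxy (by rw [hx, one_mul, mul_one])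

theorem Moved.center_pm {X : Subgroup S} (h : Moved b X) (hb : Cubic ρ b)
    (hf : Function.Injective ρ) (hn : NonAb X) {c : S} (hc : c ∈ Zc X) :
    (∀ v ∈ Com ρ X, ρ c v = v) ∨ ∀ v ∈ Com ρ X, ρ c v = -v :=
  hb.central hf h (Moved.ne_bot_of_nonAb hn)
    (h.cop.coprime_dvd_left (X.orderOf_dvd_natCard (mem_Zc.1 hc).1))
    (fun x hx => ((mem_Zc.1 hc).2 x hx).symm) (h.center_fixed hb hf hn hc).symm

theorem Moved.center_sq {X : Subgroup S} (h : Moved b X) (hb : Cubic ρ b)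
    (hf : Function.Injective ρ) (hn : NonAb X) {c : S} (hc : c ∈ Zc X) : c * c = 1 := by
  refine eq_one_of_fix ρ hf h.cop (fun v hv => ?_) fun v hv => ?_
  · rw [rho_mul, hv c hc.1, hv c hc.1]
  · rcases h.center_pm hb hf hn hc with h1 | h1
    · rw [rho_mul, h1 v hv, h1 v hv]
    · rw [rho_mul, h1 v hv, map_neg, h1 v hv, neg_neg]

theorem Moved.center_cases {X : Subgroup S} (h : Moved b X) (hb : Cubic ρ b)
    (hf : Function.Injective ρ) (hn : NonAb X) {z : S} (hz : z ∈ Zc X) (hz1 : z ≠ 1) :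
    (∀ v ∈ Com ρ X, ρ z v = -v) ∧ ∀ c ∈ Zc X, c = 1 ∨ c = z := by
  have hneg : ∀ c ∈ Zc X, c ≠ 1 → ∀ v ∈ Com ρ X, ρ c v = -v := fun c hc hc1 =>
    (h.center_pm hb hf hn hc).resolve_left fun h1 =>
      hc1 (eq_one_of_fix ρ hf h.cop (fun v hv => hv c hc.1) h1)
  refine ⟨hneg z hz hz1, fun c hc => (em (c = 1)).imp_right fun hc1 => ?_⟩
  have h2 : z⁻¹ * c = 1 := eq_one_of_fix ρ hf h.cop
    (fun v hv => hv _ (Subgroup.mul_mem _ (Subgroup.inv_mem _ hz.1) hc.1)) fun v hv => by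
      rw [rho_mul, hneg c hc hc1 v hv, ← hneg z hz hz1 v hv, rho_inv_self]
  exact (inv_mul_eq_one.1 h2).symm

theorem center_exists_ne_one {q : ℕ} [Fact q.Prime] {X : Subgroup S} (hq : IsPGroup q X)
    (hX : X ≠ ⊥) : ∃ z ∈ Zc X, z ≠ 1 := by
  haveI : Nontrivial X := (Subgroup.nontrivial_iff_ne_bot X).2 hX
  haveI := hq.center_nontrivial
  obtain ⟨z, hz⟩ := exists_ne (1 : Subgroup.center X)
  refine ⟨((z : X) : S), mem_Zc.2 ⟨(z : X).2, fun x hx => ?_⟩, fun h => hz (Subtype.ext (Subtype.ext h))⟩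
  exact congrArg Subtype.val (Subgroup.mem_center_iff.1 z.2 ⟨x, hx⟩)

/-- Moved `q`-subgroups for odd `q` are cyclic of order `13`. -/
theorem Moved.odd_case {X : Subgroup S} (h : Moved b X) (hb : Cubic ρ b)
    (hf : Function.Injective ρ) (hne : X ≠ ⊥) {q : ℕ} [Fact q.Prime] (hq : IsPGroup q X)
    (hq2 : q ≠ 2) : (∀ x ∈ X, ∀ y ∈ X, x * y = y * x) ∧ Nat.card X = 13 ∧ q = 13 := by
  have hab : ∀ x ∈ X, ∀ y ∈ X, x * y = y * x := by
    by_contra hn
    push Not at hn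
    obtain ⟨z, hz, hz1⟩ := center_exists_ne_one hq hne
    have h2 := h.center_sq hb hf hn hz
    obtain ⟨n, hn'⟩ := IsPGroup.iff_card.1 hq
    have h3 : orderOf z ∣ q ^ n := hn' ▸ X.orderOf_dvd_natCard hz.1
    refine hz1 (orderOf_eq_one_iff.1 (Nat.eq_one_of_dvd_coprimes
      (((Nat.coprime_primes Nat.prime_two Fact.out).2 (Ne.symm hq2)).pow_right n)
      (orderOf_dvd_of_pow_eq_one (by rw [pow_two]; exact h2)) h3))
  refine ⟨hab, ?_⟩
  obtain ⟨l, d⟩ := hb.exists_abData hf h hne hab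
  rcases d.card hb hf h hne hab hq with ⟨-, -, h2⟩ | ⟨h13, hq13⟩
  · exact absurd h2 hq2
  · exact ⟨h13, hq13⟩

/-- Elements of a moved subgroup have determinant one. -/
theorem Moved.det_one {X : Subgroup S} (h : Moved b X) {x : S} (hx : x ∈ X) :
    LinearMap.det (ρ x) = 1 := by
  let f : S →* (ZMod 3)ˣ := (LinearMap.det.comp (ρ : S →* Module.End (ZMod 3) E)).toHomUnits
  have hle : X ≤ f.ker := by
    refine h.le_of fun x _ y _ => ?_
    rw [MonoidHom.mem_ker, map_commutatorElement, commutatorElement_eq_one_iff_mul_comm]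
    exact mul_comm _ _
  have h1 : f x = 1 := hle hx
  exact congrArg Units.val h1

/-- Determinant of a map that is scalar on a subspace and trivial on a complement. -/
theorem det_of_scalar {W Q : Submodule (ZMod 3) E} (hs : W ⊔ Q = ⊤) {g : E →ₗ[ZMod 3] E}
    {κ : ZMod 3} (hW : ∀ v ∈ W, g v = κ • v) (hQ : ∀ v ∈ Q, g v = v) :
    LinearMap.det g = κ ^ Module.finrank (ZMod 3) W := by
  have he : W ≤ W.comap g := fun v hv => by
    show g v ∈ W
    rw [hW v hv]; exact W.smul_mem κ hv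
  rw [LinearMap.det_eq_det_mul_det W g he]
  have h1 : W.mapQ W g he = LinearMap.id := by
    refine Submodule.linearMap_qext _ (LinearMap.ext fun v => ?_)
    simp only [LinearMap.comp_apply, Submodule.mkQ_apply, Submodule.mapQ_apply, LinearMap.id_apply]
    rw [Submodule.Quotient.eq]
    have hv : v ∈ W ⊔ Q := by rw [hs]; exact Submodule.mem_top
    obtain ⟨a, ha, c, hc, rfl⟩ := Submodule.mem_sup.1 hv
    rw [map_add, hW a ha, hQ c hc, add_sub_add_right_eq_sub]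
    exact W.sub_mem (W.smul_mem κ ha) ha
  have h2 : g.restrict he = κ • LinearMap.id :=
    LinearMap.ext fun v => Subtype.ext (hW v v.2)
  rw [h1, LinearMap.det_id, h2, LinearMap.det_smul, LinearMap.det_id]
  simp

theorem even_of_det {n : ℕ} (h : ((-1 : ZMod 3)) ^ n = 1) : Even n :=
  (neg_one_pow_eq_one_iff_even (by decide)).1 h

/-- The two eigenspaces of an involution on an invariant subspace. -/
def eigP (ρ : Representation (ZMod 3) S E) (N : Submodule (ZMod 3) E) (a : S) :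
    Submodule (ZMod 3) E := N ⊓ LinearMap.ker (ρ a - 1)

/-- The second eigenspace. -/
def eigN (ρ : Representation (ZMod 3) S E) (N : Submodule (ZMod 3) E) (a : S) :
    Submodule (ZMod 3) E := N ⊓ LinearMap.ker (ρ a + 1)

theorem mem_eigP {N : Submodule (ZMod 3) E} {a : S} {v : E} :
    v ∈ eigP ρ N a ↔ v ∈ N ∧ ρ a v = v := by simp [eigP, sub_eq_zero]

theorem mem_eigN {N : Submodule (ZMod 3) E} {a : S} {v : E} :
    v ∈ eigN ρ N a ↔ v ∈ N ∧ ρ a v = -v := by simp [eigN, add_eq_zero_iff_eq_neg]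

theorem eq_zero_of_eq_neg {v : E} (h : v = -v) : v = 0 := by
  have h2 : (2 : ZMod 3) • v = 0 := by rw [two_smul]; nth_rw 2 [h]; exact add_neg_cancel v
  rcases smul_eq_zero.1 h2 with h3 | h3
  · exact absurd h3 (by decide)
  · exact h3

theorem involution_split {N : Submodule (ZMod 3) E} {a : S} (ha : a * a = 1)
    (hN : ∀ v ∈ N, ρ a v ∈ N) :
    Module.finrank (ZMod 3) (eigP ρ N a) + Module.finrank (ZMod 3) (eigN ρ N a) =
      Module.finrank (ZMod 3) N := by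
  have h1 := Submodule.finrank_sup_add_finrank_inf_eq (eigP ρ N a) (eigN ρ N a)
  have hd : eigP ρ N a ⊓ eigN ρ N a = ⊥ := by
    rw [eq_bot_iff]
    rintro v ⟨hv, hv'⟩
    exact (Submodule.mem_bot _).2
      (eq_zero_of_eq_neg (((mem_eigP.1 hv).2).symm.trans (mem_eigN.1 hv').2))
  have hs : eigP ρ N a ⊔ eigN ρ N a = N := by
    refine le_antisymm (sup_le inf_le_left inf_le_left) fun v hv => ?_
    have hav := hN v hv
    have hz' : ρ a (ρ a v) = v := by rw [← rho_mul, ha, rho_one]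
    refine Submodule.mem_sup.2 ⟨(2 : ZMod 3) • (v + ρ a v), mem_eigP.2 ⟨Submodule.smul_mem _ _
      (Submodule.add_mem _ hv hav), by rw [map_smul, map_add, hz', add_comm]⟩,
      (2 : ZMod 3) • (v - ρ a v), mem_eigN.2 ⟨Submodule.smul_mem _ _ (Submodule.sub_mem _ hv hav),
        by rw [map_smul, map_sub, hz', ← smul_neg, neg_sub]⟩, ?_⟩
    rw [← smul_add, add_add_sub_cancel, ← two_smul (ZMod 3) v, smul_smul,
      show (2 : ZMod 3) * 2 = 1 by decide, one_smul]
  rw [hd, hs, finrank_bot, add_zero] at h1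
  exact h1.symm

/-- An involution conjugate to its product with an element acting as `-1` has eigenspaces of equal
dimension. -/
theorem involution_swap {N : Submodule (ZMod 3) E} {a r z : S} (ha : a * a = 1)
    (hNa : ∀ v ∈ N, ρ a v ∈ N) (hNr : ∀ v ∈ N, ρ r v ∈ N) (hNr' : ∀ v ∈ N, ρ r⁻¹ v ∈ N)
    (hr : r * a * r⁻¹ = a * z) (hz : ∀ v ∈ N, ρ z v = -v) :
    Module.finrank (ZMod 3) N = 2 * Module.finrank (ZMod 3) (eigN ρ N a) := by
  have key : ∀ v ∈ N, ρ a (ρ r v) = -ρ r (ρ a v) := fun v hv => by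
    have e : r * a = (a * z) * r := by rw [← hr]; group
    rw [← rho_mul ρ r a, e, rho_mul, rho_mul, hz _ (hNr v hv), map_neg, neg_neg]
  have h1 : (eigP ρ N a).map (ρ r) = eigN ρ N a := by
    refine le_antisymm ?_ fun w hw => ?_
    · rintro _ ⟨v, hv, rfl⟩
      obtain ⟨hv1, hv2⟩ := mem_eigP.1 hv
      exact mem_eigN.2 ⟨hNr v hv1, by rw [key v hv1, hv2]⟩
    · obtain ⟨hw1, hw2⟩ := mem_eigN.1 hw
      refine ⟨ρ r⁻¹ w, mem_eigP.2 ⟨hNr' w hw1, rho_injective ρ r ?_⟩, rho_self_inv ρ r w⟩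
      have h3 := key _ (hNr' w hw1)
      rw [rho_self_inv, hw2] at h3
      rw [rho_self_inv, neg_injective h3.symm]
  have h2 := involution_split (ρ := ρ) ha hNa
  have h3 : Module.finrank (ZMod 3) ((eigP ρ N a).map (ρ r)) =
      Module.finrank (ZMod 3) (eigP ρ N a) :=
    (Submodule.equivMapOfInjective (ρ r) (rho_injective ρ r) _).symm.finrank_eq
  rw [h1] at h3
  omega

theorem Com_mono {X Y : Subgroup S} (hYX : Y ≤ X) (hX : (Nat.card X).Coprime 3) :
    Com ρ Y ≤ Com ρ X := by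
  intro v hv
  have hY : (Nat.card Y).Coprime 3 := hX.coprime_dvd_left (Subgroup.card_dvd_of_le hYX)
  have hmem : v ∈ Fix ρ X ⊔ Com ρ X := by rw [Fix_sup_Com ρ hX]; exact Submodule.mem_top
  obtain ⟨f, hf, c, hc, rfl⟩ := Submodule.mem_sup.1 hmem
  haveI := Fintype.ofFinite Y
  set c' := c - ((Nat.card Y : ZMod 3))⁻¹ • sumMap ρ Y c with hc'
  have hc'X : c' ∈ Com ρ X := by
    refine Submodule.sub_mem _ hc (Submodule.smul_mem _ _ ?_)
    rw [sumMap_apply]
    exact Submodule.sum_mem _ fun y _ =>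
      rho_mem_Com ρ (Subgroup.le_normalizer (hYX y.2)) hc
  have hF : f + (c - c') ∈ Fix ρ Y := by
    refine Submodule.add_mem _ (Fix_anti ρ hYX hf) ?_
    rw [hc', sub_sub_cancel]
    exact Submodule.smul_mem _ _ fun y hy => rho_sumMap ρ Y hy c
  have hC : c' ∈ Com ρ Y := by
    have hwF : ((Nat.card Y : ZMod 3))⁻¹ • sumMap ρ Y c ∈ Fix ρ Y :=
      Submodule.smul_mem _ _ fun y hy => rho_sumMap ρ Y hy c
    rw [Com, LinearMap.mem_ker, hc', map_sub, sumMap_of_mem_Fix ρ hwF,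
      smul_inv_smul₀ (card_ne_zero hY), sub_self]
  have h0 : f + (c - c') ∈ Fix ρ Y ⊓ Com ρ Y := ⟨hF, by
    have e : f + (c - c') = (f + c) - c' := by abel
    rw [e]
    exact Submodule.sub_mem _ hv hC⟩
  rw [Fix_inf_Com ρ hY, Submodule.mem_bot] at h0
  have e : f + c = c' := by
    have e : f + c = f + (c - c') + c' := by abel
    rw [e, h0, zero_add]
  exact e ▸ hc'X

/-- The set of elements commuting with `X` modulo its centre. -/
def Ztwo (X : Subgroup S) : Subgroup S where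
  carrier := {c | c ∈ X ∧ ∀ x ∈ X, ⁅c, x⁆ ∈ Zc X}
  one_mem' := ⟨one_mem X, fun x _ => by rw [commutatorElement_one_left]; exact one_mem _⟩
  mul_mem' := by
    rintro c c' ⟨hc, hc2⟩ ⟨hc', hc2'⟩
    refine ⟨mul_mem hc hc', fun x hx => ?_⟩
    have e : ⁅c * c', x⁆ = c * ⁅c', x⁆ * c⁻¹ * ⁅c, x⁆ := by
      simp only [commutatorElement_def]; group
    rw [e]
    exact mul_mem (conj_mem_Zc (Subgroup.le_normalizer hc) (hc2' x hx)) (hc2 x hx)
  inv_mem' := by
    rintro c ⟨hc, hc2⟩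
    refine ⟨inv_mem hc, fun x hx => ?_⟩
    have e : ⁅c⁻¹, x⁆ = c⁻¹ * ⁅c, x⁆⁻¹ * c⁻¹⁻¹ := by simp only [commutatorElement_def]; group
    rw [e]
    exact conj_mem_Zc (Subgroup.le_normalizer (inv_mem hc)) (inv_mem (hc2 x hx))

theorem conj_mem_Ztwo {X : Subgroup S} {g : S} (hg : g ∈ Subgroup.normalizer (X : Set S)) {c : S}
    (hc : c ∈ Ztwo X) : g * c * g⁻¹ ∈ Ztwo X := by
  refine ⟨(Subgroup.mem_normalizer_iff.1 hg c).1 hc.1, fun x hx => ?_⟩
  have e : ⁅g * c * g⁻¹, x⁆ = g * ⁅c, g⁻¹ * x * g⁆ * g⁻¹ := by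
    simp only [commutatorElement_def]; group
  rw [e]
  exact conj_mem_Zc hg (hc.2 _ (mem_of_conj_normalizer hg hx))

theorem exists_Ztwo_not_Zc {q : ℕ} [Fact q.Prime] {X : Subgroup S} (hq : IsPGroup q X)
    (hn : NonAb X) : ∃ c ∈ Ztwo X, c ∉ Zc X := by
  haveI : Nontrivial (X ⧸ Subgroup.center X) := by
    rw [QuotientGroup.nontrivial_iff]
    intro htop
    obtain ⟨x, hx, y, hy, hxy⟩ := hn
    exact hxy (congrArg Subtype.val
      (Subgroup.mem_center_iff.1 (htop ▸ Subgroup.mem_top (⟨y, hy⟩ : X)) ⟨x, hx⟩))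
  haveI := (hq.to_quotient (Subgroup.center X)).center_nontrivial
  obtain ⟨c, hc⟩ := exists_ne (1 : Subgroup.center (X ⧸ Subgroup.center X))
  obtain ⟨c', hc'⟩ := QuotientGroup.mk'_surjective (Subgroup.center X) (c : X ⧸ Subgroup.center X)
  have hcen : ∀ w : X, w ∈ Subgroup.center X ↔ (w : S) ∈ Zc X := fun w => by
    rw [mem_Zc, Subgroup.mem_center_iff]
    exact ⟨fun h => ⟨w.2, fun x hx => congrArg Subtype.val (h ⟨x, hx⟩)⟩,
      fun h y => Subtype.ext (h.2 y y.2)⟩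
  refine ⟨(c' : S), ⟨c'.2, fun x hx => ?_⟩, fun h => hc (Subtype.ext ?_)⟩
  · have h1 : (⁅c', (⟨x, hx⟩ : X)⁆ : X) ∈ Subgroup.center X := by
      rw [← QuotientGroup.eq_one_iff, ← QuotientGroup.mk'_apply, map_commutatorElement,
        commutatorElement_eq_one_iff_mul_comm, hc']
      exact (Subgroup.mem_center_iff.1 c.2 _).symm
    exact (hcen _).1 h1
  · rw [← hc']
    exact (QuotientGroup.eq_one_iff c').2 ((hcen c').2 h)

end CfsgLib.CubicThree
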