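import Cfsg.Agent.CubicThree.Center

/-!
Moved `2`-subgroups have class at most two.
-/

set_option autoImplicit false
set_option linter.style.haveILetI false
set_option linter.unusedSectionVars false

namespace CfsgLib.CubicThree

open scoped commutatorElement

variable {S : Type*} [Group S] [Finite S]
variable {E : Type*} [AddCommGroup E] [Module (ZMod 3) E] [Finite E]
variable {ρ : Representation (ZMod 3) S E} {b : S}

/-- All commutators are central. -/
def ClassTwo (X : Subgroup S) : Prop := ∀ x ∈ X, ∀ y ∈ X, ⁅x, y⁆ ∈ Zc X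

theorem classTwo_of_abelian {X : Subgroup S} (h : ∀ x ∈ X, ∀ y ∈ X, x * y = y * x) :
    ClassTwo X := fun x hx y hy => by
  rw [commutatorElement_eq_one_iff_mul_comm.2 (h x hx y hy)]
  exact one_mem _

theorem classTwo_of_le {X : Subgroup S} (h : X ≤ Ztwo X) : ClassTwo X :=
  fun x hx y hy => (h hx).2 y hy

/-- In the pairing with a central subgroup `{1, z}`, centralisers have small index. -/
theorem card_pairing {X H : Subgroup S} {z : S} (hHX : H ≤ X) (hz : z ∈ H)
    (hzc : ∀ x ∈ X, x * z = z * x) (hz2 : z * z = 1) (hz1 : z ≠ 1)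
    (hcomm : ∀ x ∈ X, ∀ y ∈ H, ⁅x, y⁆ = 1 ∨ ⁅x, y⁆ = z) :
    Nat.card X * 2 ≤ Nat.card H * Nat.card (X ⊓ Subgroup.centralizer (H : Set S) : Subgroup S) := by
  let P : Subgroup S → Prop := fun Y => z ∈ Y ∧ Y ≤ H ∧
    Nat.card X * 2 ≤ Nat.card Y * Nat.card (X ⊓ Subgroup.centralizer (Y : Set S) : Subgroup S)
  have h0 : P (Subgroup.zpowers z) := by
    refine ⟨Subgroup.mem_zpowers z, Subgroup.zpowers_le.2 hz, ?_⟩
    have e : X ⊓ Subgroup.centralizer (Subgroup.zpowers z : Set S) = X := by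
      refine inf_eq_left.2 fun x hx => Subgroup.mem_centralizer_iff.2 fun y hy => ?_
      obtain ⟨i, rfl⟩ := Subgroup.mem_zpowers_iff.1 hy
      exact ((show Commute z x from (hzc x hx).symm).zpow_left i).eq
    rw [e, Nat.card_zpowers, orderOf_eq_prime (by rw [pow_two]; exact hz2) hz1, mul_comm]
  obtain ⟨Y, hY, hmax⟩ := (Set.toFinite {Y : Subgroup S | P Y}).exists_maximal ⟨_, h0⟩
  obtain ⟨hzY, hYH, hYc⟩ : P Y := hY
  suffices hYeq : Y = H by rw [hYeq] at hYc; exact hYc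
  by_contra hne
  obtain ⟨h, hh, hhY⟩ : ∃ h ∈ H, h ∉ Y := by
    by_contra hcon
    push Not at hcon
    exact hne (le_antisymm hYH hcon)
  set Y' := Y ⊔ Subgroup.zpowers h with hY'
  have hlt : Y < Y' :=
    lt_of_le_of_ne le_sup_left fun e => hhY (e ▸ (le_sup_right : _ ≤ Y') (Subgroup.mem_zpowers h))
  have hcard : 2 * Nat.card Y ≤ Nat.card Y' := by
    obtain ⟨k, hk⟩ := Subgroup.card_dvd_of_le (le_sup_left : Y ≤ Y')
    have hk1 : k ≠ 1 := fun e => hlt.ne (Subgroup.eq_of_le_of_card_ge le_sup_left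
      (by rw [hk, e, mul_one]))
    have hk0 : k ≠ 0 := fun e => by
      rw [e, mul_zero] at hk
      exact (Nat.card_pos (α := Y')).ne' hk
    rw [hk, mul_comm 2]
    exact Nat.mul_le_mul_left _ (by omega)
  set C := X ⊓ Subgroup.centralizer (Y : Set S) with hC
  set C' := X ⊓ Subgroup.centralizer (Y' : Set S) with hC'
  have hmem : ∀ x, x ∈ C → x * h = h * x → x ∈ C' := fun x hx hxh => ⟨hx.1, by
    have h1 : Y' ≤ Subgroup.centralizer {x} := sup_le (fun y hy => Subgroup.mem_centralizer_iff.2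
      fun v hv => by
        rw [Set.mem_singleton_iff.1 hv]
        exact (Subgroup.mem_centralizer_iff.1 hx.2 y hy).symm)
      (Subgroup.zpowers_le.2 (Subgroup.mem_centralizer_iff.2 fun v hv => by
        rw [Set.mem_singleton_iff.1 hv]; exact hxh))
    exact Subgroup.mem_centralizer_iff.2 fun y hy =>
      (Subgroup.mem_centralizer_iff.1 (h1 hy) x rfl).symm⟩
  have hC2 : Nat.card C ≤ 2 * Nat.card C' := by
    refine CfsgLib.NoAbEight.card_le_two_mul
      (inf_le_inf le_rfl (Subgroup.centralizer_le (le_sup_left : Y ≤ Y'))) fun x hx hxC y hy hyC => ?_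
    refine hmem _ (Subgroup.mul_mem _ (Subgroup.inv_mem _ hx) hy) ?_
    have key : ∀ w ∈ C, w ∉ C' → w * h * w⁻¹ = z * h := fun w hw hwC => by
      rcases hcomm w hw.1 h hh with h1 | h1
      · exact absurd (hmem w hw (commutatorElement_eq_one_iff_mul_comm.1 h1)) hwC
      · rw [← h1, commutatorElement_def, inv_mul_cancel_right]
    calc x⁻¹ * y * h = x⁻¹ * (y * h * y⁻¹) * y := by group
      _ = x⁻¹ * (x * h * x⁻¹) * y := by rw [key y hy hyC, key x hx hxC]
      _ = h * (x⁻¹ * y) := by group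
  have hP : P Y' := ⟨(le_sup_left : Y ≤ Y') hzY, sup_le hYH (Subgroup.zpowers_le.2 hh), by
    calc Nat.card X * 2 ≤ Nat.card Y * Nat.card C := hYc
      _ ≤ Nat.card Y * (2 * Nat.card C') := Nat.mul_le_mul_left _ hC2
      _ = 2 * Nat.card Y * Nat.card C' := by ring
      _ ≤ Nat.card Y' * Nat.card C' := Nat.mul_le_mul_right _ hcard⟩
  exact hlt.not_ge (hmax hP le_sup_left)

theorem mem_or_mul_mem {X : Subgroup S} {z : S} (hzc : ∀ c ∈ Zc X, c = 1 ∨ c = z)
    {r a : S} (hr : r ∈ X) (ha : a ∈ Ztwo X) : r * a * r⁻¹ = a ∨ r * a * r⁻¹ = a * z := by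
  rcases hzc _ (ha.2 r hr) with h1 | h1
  · left
    rw [commutatorElement_eq_one_iff_mul_comm] at h1
    exact mul_inv_eq_iff_eq_mul.2 h1.symm
  · right
    have hz : z ∈ Zc X := h1 ▸ ha.2 r hr
    have h2 : r * a * r⁻¹ = ⁅a, r⁆⁻¹ * a := by rw [commutatorElement_def]; group
    have hzz : ⁅a, r⁆⁻¹ = z := by
      rcases hzc _ (inv_mem (ha.2 r hr)) with h3 | h3
      · rw [h3]; exact (inv_eq_one.1 h3).symm.trans h1
      · exact h3
    rw [h2, hzz, (mem_Zc.1 hz).2 a ha.1]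

/-- The case of an abelian `⁅Z₂(X), b⁆`. -/
theorem classTwo_abelian_case (hb : Cubic ρ b) (hf : Function.Injective ρ) {X : Subgroup S}
    (hX : Moved b X) (h2 : IsPGroup 2 X) (hn : NonAb X) {z : S} (hzZ : z ∈ Zc X) (hz1 : z ≠ 1)
    {H : Subgroup S} (hH : Moved b H) (hH0 : H ≠ ⊥) (hHZ : H ≤ Ztwo X)
    (hHc : ∀ x ∈ H, ∀ y ∈ H, x * y = y * x) : ClassTwo X := by
  obtain ⟨l, d⟩ := hb.exists_abData hf hH hH0 hHc
  have hHX : H ≤ X := fun a ha => (hHZ ha).1
  haveI : Fact (Nat.Prime 2) := ⟨Nat.prime_two⟩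
  obtain ⟨hH4, hHsq⟩ : Nat.card H = 4 ∧ ∀ a ∈ H, a * a = 1 := by
    rcases d.card hb hf hH hH0 hHc (h2.to_le hHX) with ⟨h4, hsq, -⟩ | ⟨-, h13⟩
    · exact ⟨h4, hsq⟩
    · exact absurd h13 (by norm_num)
  obtain ⟨hneg, hzc⟩ := hX.center_cases hb hf hn hzZ hz1
  have hd3 := d.finrank hb hf hH hH0 hHc
  have hCom := Com_mono (ρ := ρ) hHX hX.cop
  have hXne : X ≠ ⊥ := Moved.ne_bot_of_nonAb hn
  -- the moved space of `X` has dimension four
  have hconj : ∀ r ∈ X, ∀ a ∈ H, r * a * r⁻¹ = a ∨ r * a * r⁻¹ = a * z :=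
    fun r hr a ha => mem_or_mul_mem hzc hr (hHZ ha)
  have hHZc : ∀ a ∈ H, a ∈ Zc X → a = 1 := fun a ha haZ =>
    hH.fixed_eq_one hb.ord hHc ha (hX.center_fixed hb hf hn haZ)
  have hd4 : Module.finrank (ZMod 3) (Com ρ X) = 4 := by
    obtain ⟨a, ha, ha1⟩ := (Subgroup.bot_or_exists_ne_one H).resolve_left hH0
    obtain ⟨r, hr, hra⟩ : ∃ r ∈ X, r * a * r⁻¹ = a * z := by
      by_contra hcon
      push Not at hcon
      refine ha1 (hHZc a ha (mem_Zc.2 ⟨hHX ha, fun r hr => ?_⟩))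
      exact mul_inv_eq_iff_eq_mul.1 ((hconj r hr a ha).resolve_right (hcon r hr))
    have hN : ∀ g ∈ X, ∀ v ∈ Com ρ X, ρ g v ∈ Com ρ X := fun g hg v hv =>
      rho_mem_Com ρ (Subgroup.le_normalizer hg) hv
    have h1 := involution_swap (ρ := ρ) (hHsq a ha) (hN a (hHX ha)) (hN r hr) (hN _ (inv_mem hr))
      hra hneg
    have hle : eigN ρ (Com ρ X) a < Com ρ H := by
      refine lt_of_le_of_ne (fun v hv => ?_) fun e => ?_
      · obtain ⟨hv1, hv2⟩ := mem_eigN.1 hv
        have hmem : v ∈ Fix ρ H ⊔ Com ρ H := by rw [Fix_sup_Com ρ hH.cop]; exact Submodule.mem_top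
        obtain ⟨x, hx, y, hy, rfl⟩ := Submodule.mem_sup.1 hmem
        have hay : ρ a y ∈ Com ρ H := rho_mem_Com ρ (Subgroup.le_normalizer ha) hy
        have h4 : x + x = -(ρ a y + y) := by
          rw [map_add, hx a ha] at hv2
          have h4 : x + ρ a y + (x + y) = 0 := by rw [hv2]; exact neg_add_cancel _
          refine eq_neg_of_add_eq_zero_left ?_
          rw [← h4]; abel
        have h5 : x ∈ Fix ρ H ⊓ Com ρ H := by
          refine ⟨hx, ?_⟩
          have h6 : x + x ∈ Com ρ H := h4 ▸ Submodule.neg_mem _ (Submodule.add_mem _ hay hy)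
          have h7 := Submodule.smul_mem (Com ρ H) (2 : ZMod 3) h6
          rwa [← two_smul (ZMod 3) x, smul_smul, show (2 : ZMod 3) * 2 = 1 by decide, one_smul] at h7
        rw [Fix_inf_Com ρ hH.cop, Submodule.mem_bot] at h5
        rw [h5, zero_add]; exact hy
      · have e' : ∀ v ∈ Com ρ H, ρ a v = -v := fun v hv => (mem_eigN.1 (e.symm ▸ hv)).2
        refine ha1 (hH.fixed_eq_one hb.ord hHc ha (commute_of_fix ρ hf hH.cop
          (fun v hv => ?_) fun v hv => ?_).eq)
        · rw [hv a ha, hb.fix_trivial hf hH hH0 v hv, hv a ha]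
        · rw [e' v hv, map_neg, e' _ (rho_mem_Com ρ hH.normalizer hv)]
    have h3 := Submodule.finrank_lt_finrank_of_lt hle
    have h4 := Submodule.finrank_mono hCom
    omega
  -- the line fixed by `H`
  set M := Com ρ X ⊓ Fix ρ H with hM
  have hM1 : Module.finrank (ZMod 3) M = 1 := by
    have hs : M ⊔ Com ρ H = Com ρ X := by
      refine le_antisymm (sup_le inf_le_left hCom) fun v hv => ?_
      have hmem : v ∈ Fix ρ H ⊔ Com ρ H := by rw [Fix_sup_Com ρ hH.cop]; exact Submodule.mem_top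
      obtain ⟨x, hx, y, hy, rfl⟩ := Submodule.mem_sup.1 hmem
      refine Submodule.add_mem_sup ⟨?_, hx⟩ hy
      have h1 := Submodule.sub_mem _ hv (hCom hy)
      rwa [add_sub_cancel_right] at h1
    have hd : M ⊓ Com ρ H = ⊥ :=
      eq_bot_iff.2 (le_trans (inf_le_inf inf_le_right le_rfl) (Fix_inf_Com ρ hH.cop).le)
    have h1 := Submodule.finrank_sup_add_finrank_inf_eq M (Com ρ H)
    rw [hs, hd, finrank_bot, hd4, hd3] at h1
    omega
  -- the centraliser of `H`
  set C := X ⊓ Subgroup.centralizer (H : Set S) with hC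
  have hCN : C ≤ Subgroup.normalizer (H : Set S) :=
    inf_le_right.trans (Subgroup.centralizer_le_normalizer _)
  have hCcomm : ∀ c ∈ C, ∀ a ∈ H, c * a = a * c := fun c hc a ha =>
    (Subgroup.mem_centralizer_iff.1 hc.2 a ha).symm
  have hCinv : ∀ x ∈ C, b * x * b⁻¹ ∈ C := fun c hc => ⟨hX.inv c hc.1,
    Subgroup.mem_centralizer_iff.2 fun a ha => by
      have ha' := mem_of_conj_normalizer hH.normalizer ha
      calc a * (b * c * b⁻¹) = b * ((b⁻¹ * a * b) * c) * b⁻¹ := by group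
        _ = b * (c * (b⁻¹ * a * b)) * b⁻¹ := by rw [hCcomm c hc _ ha']
        _ = b * c * b⁻¹ * a := by group⟩
  obtain ⟨hC0, hC0le⟩ := moved_commutator hb.ord hCinv
    (hX.cop.coprime_dvd_left (Subgroup.card_dvd_of_le inf_le_left))
  set C0 := ⁅C, Subgroup.zpowers b⁆ with hC0d
  have hHC : H ≤ C := fun a ha => ⟨hHX ha, Subgroup.mem_centralizer_iff.2 fun a' ha' => hHc a' ha' a ha⟩
  have hHC0 : H ≤ C0 := hH.gen.trans (Subgroup.commutator_mono hHC le_rfl)
  have hC0ne : C0 ≠ ⊥ := fun e => hH0 (eq_bot_iff.2 (e ▸ hHC0))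
  have hFixH : ∀ x ∈ C0, ∀ v ∈ Fix ρ H, ρ x v = v :=
    hC0.trivial_on (fun x hx v hv => rho_mem_Fix ρ (hCN (hC0le hx)) hv) (hb.fix_trivial hf hH hH0)
  have hC0ab : ∀ x ∈ C0, ∀ y ∈ C0, x * y = y * x := fun x hx y hy =>
    (commute_of_fix ρ hf hH.cop (fun v hv => by
      rw [hFixH y hy v hv, hFixH x hx v hv, hFixH y hy v hv])
      fun v hv => d.commutant hHc (fun w hw => rho_mem_Com ρ (hCN (hC0le hx)) hw)
        (fun w hw => rho_mem_Com ρ (hCN (hC0le hy)) hw)
        (fun a ha w _ => by rw [← rho_mul, ← rho_mul, hCcomm x (hC0le hx) a ha])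
        (fun a ha w _ => by rw [← rho_mul, ← rho_mul, hCcomm y (hC0le hy) a ha]) hv).eq
  obtain ⟨l', d'⟩ := hb.exists_abData hf hC0 hC0ne hC0ab
  have hC0eq : C0 = H := by
    rcases d'.card hb hf hC0 hC0ne hC0ab (h2.to_le (hC0le.trans inf_le_left)) with ⟨h4, -, -⟩ | ⟨-, h13⟩
    · exact (Subgroup.eq_of_le_of_card_ge hHC0 (by rw [h4, hH4])).symm
    · exact absurd h13 (by norm_num)
  have hzC : z ∈ C := ⟨hzZ.1, Subgroup.mem_centralizer_iff.2 fun a ha => (mem_Zc.1 hzZ).2 a (hHX ha)⟩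
  have hCfix : ∀ c ∈ C, b * c = c * b → c = 1 ∨ c = z := by
    intro c hc hcb
    have hcN := hCN hc
    obtain ⟨e, he⟩ := d.scalar hb hH hHc (G := ρ c) (fun v hv => rho_mem_Com ρ hcN hv)
      (fun a ha => by rw [← rho_mul, ← rho_mul, hCcomm c hc a ha]) (by rw [← rho_mul, ← rho_mul, hcb])
    have hcM : ∀ v ∈ M, ρ c v ∈ M := fun v hv =>
      ⟨rho_mem_Com ρ (Subgroup.le_normalizer hc.1) hv.1, rho_mem_Fix ρ hcN hv.2⟩
    obtain ⟨m, hm, hm0⟩ := Submodule.exists_mem_ne_zero_of_ne_bot (p := M) (fun h => by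
      rw [h, finrank_bot] at hM1; omega)
    have hspan : ∀ v ∈ M, ∃ k : ZMod 3, v = k • m := fun v hv => by
      obtain ⟨k, hk⟩ := (finrank_eq_one_iff_of_nonzero' (⟨m, hm⟩ : M)
        (fun h => hm0 (congrArg Subtype.val h))).1 hM1 ⟨v, hv⟩
      exact ⟨k, (congrArg Subtype.val hk).symm⟩
    obtain ⟨f, hf'⟩ := hspan _ (hcM m hm)
    have hcl : ∀ v ∈ M, ρ c v = f • v := fun v hv => by
      obtain ⟨k, rfl⟩ := hspan v hv
      rw [map_smul, hf', smul_comm]
    -- the whole space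
    have htop : Com ρ H ⊔ (Fix ρ X ⊔ M) = ⊤ := by
      rw [eq_top_iff]
      intro v _
      have hmem : v ∈ Fix ρ X ⊔ Com ρ X := by rw [Fix_sup_Com ρ hX.cop]; exact Submodule.mem_top
      obtain ⟨x, hx, y, hy, rfl⟩ := Submodule.mem_sup.1 hmem
      have hmem' : y ∈ Fix ρ H ⊔ Com ρ H := by rw [Fix_sup_Com ρ hH.cop]; exact Submodule.mem_top
      obtain ⟨u, hu, w, hw, rfl⟩ := Submodule.mem_sup.1 hmem'
      have huM : u ∈ M := ⟨by
        have h1 := Submodule.sub_mem _ hy (hCom hw)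
        rwa [add_sub_cancel_right] at h1, hu⟩
      rw [show x + (u + w) = w + (x + u) by abel]
      exact Submodule.add_mem_sup hw (Submodule.add_mem_sup hx huM)
    have huniq : ∀ g ∈ X, ∀ k : ZMod 3, (∀ v ∈ Com ρ H, ρ g v = k • v) → (∀ v ∈ M, ρ g v = v) →
        k ^ 3 = 1 := by
      intro g hg k hk hgM
      have h1 := det_of_scalar (g := ρ g) htop hk (fun v hv => by
        obtain ⟨x, hx, u, hu, rfl⟩ := Submodule.mem_sup.1 hv
        rw [map_add, hx g hg, hgM u hu])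
      rw [hX.det_one hg, hd3] at h1
      exact h1.symm
    have hone : ∀ g ∈ X, (∀ v ∈ Com ρ H, ρ g v = v) → (∀ v ∈ M, ρ g v = v) → g = 1 := by
      intro g hg hk hgM
      refine rho_ext ρ hf fun v => ?_
      have hv : v ∈ Com ρ H ⊔ (Fix ρ X ⊔ M) := by rw [htop]; exact Submodule.mem_top
      obtain ⟨w, hw, v', hv', rfl⟩ := Submodule.mem_sup.1 hv
      obtain ⟨x, hx, u, hu, rfl⟩ := Submodule.mem_sup.1 hv'
      rw [rho_one, map_add, map_add, hk w hw, hx g hg, hgM u hu]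
    have hcube : ∀ k : ZMod 3, k ^ 3 = 1 → k = 1 := by decide
    have hf0 : f = 1 ∨ f = -1 := by
      have hk : ∀ k : ZMod 3, k = 0 ∨ k = 1 ∨ k = -1 := by decide
      refine (hk f).resolve_left fun h0 => hm0 ?_
      refine rho_injective ρ c ?_
      rw [hf', h0, zero_smul, map_zero]
    rcases hf0 with hf1 | hf1
    · left
      have hM' : ∀ v ∈ M, ρ c v = v := fun v hv => by rw [hcl v hv, hf1, one_smul]
      have he1 := hcube e (huniq c hc.1 e he hM')
      exact hone c hc.1 (fun v hv => by rw [he v hv, he1, one_smul]) hM'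
    · right
      have hM' : ∀ v ∈ M, ρ (c * z) v = v := fun v hv => by
        rw [rho_mul, hneg v hv.1, map_neg, hcl v hv, hf1, neg_smul, one_smul, neg_neg]
      have hH' : ∀ v ∈ Com ρ H, ρ (c * z) v = (-e) • v := fun v hv => by
        rw [rho_mul, hneg v (hCom hv), map_neg, he v hv, neg_smul]
      have he1 := hcube (-e) (huniq (c * z) (mul_mem hc.1 hzZ.1) (-e) hH' hM')
      have hcz := hone (c * z) (mul_mem hc.1 hzZ.1) (fun v hv => by rw [hH' v hv, he1, one_smul]) hM'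
      rw [mul_eq_one_iff_eq_inv] at hcz
      rw [hcz, inv_eq_iff_mul_eq_one]
      exact hX.center_sq hb hf hn hzZ
  have hCmem : ∀ c ∈ C, ∃ h ∈ H, c = h ∨ c = h * z := by
    intro c hc
    have hcop : (Nat.card (Subgroup.zpowers b)).Coprime (Nat.card C) := by
      rw [Nat.card_zpowers, hb.ord]
      exact (hX.cop.coprime_dvd_left (Subgroup.card_dvd_of_le inf_le_left)).symm
    have e := CfsgLib.Coprime.eq_commutator_sup_centralizer (conj_mem_iff_of_inv C hCinv) hcop
      (Or.inl (CfsgLib.Coprime.isSolvable_zpowers b))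
    rw [← e, ← hC0d, hC0eq, ← SetLike.mem_coe,
      Subgroup.coe_mul_of_right_le_normalizer_left _ _ (inf_le_left.trans hCN)] at hc
    obtain ⟨h, hh, k, hk, rfl⟩ := hc
    refine ⟨h, hh, ?_⟩
    have hkb : b * k = k * b := Subgroup.mem_centralizer_iff.1 hk.2 b (Subgroup.mem_zpowers b)
    rcases hCfix k hk.1 hkb with h1 | h1
    · left; simp [h1]
    · right; simp [h1]
  have hCconj : ∀ x ∈ X, ∀ c ∈ C, x * c * x⁻¹ ∈ C := by
    intro x hx c hc
    refine ⟨Subgroup.mul_mem _ (Subgroup.mul_mem _ hx hc.1) (Subgroup.inv_mem _ hx), Subgroup.mem_centralizer_iff.2 fun a ha => ?_⟩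
    have e : (x⁻¹ * a * x) * c = c * (x⁻¹ * a * x) := by
      rcases hconj x⁻¹ (inv_mem hx) a ha with h1 | h1 <;> rw [inv_inv] at h1 <;> rw [h1]
      · exact (hCcomm c hc a ha).symm
      · rw [mul_assoc, ← (mem_Zc.1 hzZ).2 c hc.1, ← mul_assoc, ← hCcomm c hc a ha, mul_assoc]
    calc a * (x * c * x⁻¹) = x * ((x⁻¹ * a * x) * c) * x⁻¹ := by group
      _ = x * (c * (x⁻¹ * a * x)) * x⁻¹ := by rw [e]
      _ = x * c * x⁻¹ * a := by group
  have hCZ : ∀ c ∈ C, c ∈ Ztwo X := fun c hc => by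
    obtain ⟨h, hh, h1 | h1⟩ := hCmem c hc <;> rw [h1]
    · exact hHZ hh
    · refine mul_mem (hHZ hh) ⟨hzZ.1, fun x hx => ?_⟩
      rw [commutatorElement_eq_one_iff_mul_comm.2 ((mem_Zc.1 hzZ).2 x hx).symm]
      exact one_mem _
  by_cases hXC : X ≤ C
  · exact classTwo_of_le fun x hx => hCZ x (hXC hx)
  -- the index of `C`
  have hsq : ∀ x ∈ X, x * x ∈ C := fun x hx => ⟨mul_mem hx hx,
    Subgroup.mem_centralizer_iff.2 fun a ha => by
      have key : x * (x * a * x⁻¹) * x⁻¹ = a := by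
        rcases hconj x hx a ha with h1 | h1
        · rw [h1, h1]
        · rw [h1, ← conj_mul, h1, (mem_Zc.1 hzZ).2 x hx, mul_inv_cancel_right, mul_assoc,
            hX.center_sq hb hf hn hzZ, mul_one]
      calc a * (x * x) = x * (x * a * x⁻¹) * x⁻¹ * (x * x) := by rw [key]
        _ = x * x * a := by group⟩
  have hfpf : ∀ y ∈ X, y⁻¹ * (b * y * b⁻¹) ∈ C → y ∈ C := by
    intro y hy hyC
    have hcop : (Nat.card (Subgroup.zpowers b)).Coprime (Nat.card X) := by
      rw [Nat.card_zpowers, hb.ord]; exact hX.cop.symm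
    have hleC : C0 ≤ C := hC0le
    -- `b` would fix the coset of `y`
    by_contra hyn
    obtain ⟨k, hk, hkb⟩ : ∃ k ∈ X, b * k = k * b ∧ y⁻¹ * k ∈ C := by
      obtain ⟨n, hn', hn2⟩ := CfsgLib.Coprime.exists_mul_mem_centralizer (g := y)
        (conj_mem_iff_of_inv C hCinv) (hcop.coprime_dvd_right (Subgroup.card_dvd_of_le inf_le_left))
        (Or.inl (CfsgLib.Coprime.isSolvable_zpowers b)) (fun w hw => by
          rcases zpowers_cases hb.ord hw with rfl | rfl | rfl
          · rw [commutatorElement_one_right]; exact one_mem _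
          · have e : ⁅y, w⁆ = (y * (y⁻¹ * (w * y * w⁻¹)) * y⁻¹)⁻¹ := by
              rw [commutatorElement_def]; group
            rw [e]
            exact inv_mem (hCconj y hy _ hyC)
          · have e : ⁅y, b * b⁆ = ((b * (y * (y⁻¹ * (b * y * b⁻¹)) * y⁻¹) * b⁻¹) *
                (y * (y⁻¹ * (b * y * b⁻¹)) * y⁻¹))⁻¹ := by
              rw [commutatorElement_def]; simp [mul_assoc]
            rw [e]
            exact inv_mem (mul_mem (hCinv _ (hCconj y hy _ hyC)) (hCconj y hy _ hyC)))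
      refine ⟨n * y, mul_mem hn'.1 hy, Subgroup.mem_centralizer_iff.1 hn2 b (Subgroup.mem_zpowers b), ?_⟩
      have h1 := hCconj y⁻¹ (inv_mem hy) n hn'
      rw [inv_inv] at h1
      rwa [← mul_assoc]
    apply hyn
    -- elements centralised by `b` lie in `C`
    have hkC : k ∈ C := by
      refine ⟨hk, Subgroup.mem_centralizer_iff.2 fun a ha => ?_⟩
      rcases hconj k hk a ha with h1 | h1
      · exact ((mul_inv_eq_iff_eq_mul.1 h1)).symm
      exfalso
      have hw : ∀ a' ∈ H, k * a' * k⁻¹ = a' * z →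
          k * (b * a' * b⁻¹) * k⁻¹ = (b * a' * b⁻¹) * z := by
        intro a' _ h2
        calc k * (b * a' * b⁻¹) * k⁻¹ = (k * b) * a' * (k * b)⁻¹ := by group
          _ = (b * k) * a' * (b * k)⁻¹ := by rw [hkb.1]
          _ = b * (k * a' * k⁻¹) * b⁻¹ := by group
          _ = (b * a' * b⁻¹) * z := by
            have hbz : b * z * b⁻¹ = z := by
              rw [hX.center_fixed hb hf hn hzZ, mul_inv_cancel_right]
            rw [h2, ← conj_mul, hbz]
      have hb1 : b * a * b⁻¹ ∈ H := hH.inv a ha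
      have h3 := hw a ha h1
      have h4 := hw _ hb1 h3
      have hprod : a * (b * a * b⁻¹) * (b * (b * a * b⁻¹) * b⁻¹) = 1 := by
        refine hH.fixed_eq_one hb.ord hHc (mul_mem (mul_mem ha hb1) (hH.inv _ hb1)) ?_
        have e : b * (b * (b * a * b⁻¹) * b⁻¹) * b⁻¹ = a := by
          calc b * (b * (b * a * b⁻¹) * b⁻¹) * b⁻¹ = (b * b * b) * a * (b * b * b)⁻¹ := by group
            _ = a := by rw [hb.pow3]; simp
        refine mul_inv_eq_iff_eq_mul.1 ?_
        rw [← conj_mul, ← conj_mul, e]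
        rw [← hHc _ ha _ (mul_mem hb1 (hH.inv _ hb1))]
        group
      have h5 : (a * z) * ((b * a * b⁻¹) * z) * ((b * (b * a * b⁻¹) * b⁻¹) * z) = 1 := by
        rw [← h4, ← h3, ← h1, conj_mul, conj_mul, hprod, mul_one, mul_inv_cancel]
      have hzH : z * z * z = 1 := by
        have hzc' := fun w (hw : w ∈ H) => (mem_Zc.1 hzZ).2 w (hHX hw)
        calc z * z * z = (a * (b * a * b⁻¹) * (b * (b * a * b⁻¹) * b⁻¹)) * (z * z * z) := by
              rw [hprod, one_mul]
          _ = a * (b * a * b⁻¹) * ((b * (b * a * b⁻¹) * b⁻¹) * z) * z * z := by group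
          _ = a * (b * a * b⁻¹) * (z * (b * (b * a * b⁻¹) * b⁻¹)) * z * z := by
              rw [hzc' _ (hH.inv _ hb1)]
          _ = a * ((b * a * b⁻¹) * z) * ((b * (b * a * b⁻¹) * b⁻¹) * z) * z := by group
          _ = a * (z * (b * a * b⁻¹)) * ((b * (b * a * b⁻¹) * b⁻¹) * z) * z := by rw [hzc' _ hb1]
          _ = (a * z) * ((b * a * b⁻¹) * ((b * (b * a * b⁻¹) * b⁻¹) * z * z)) := by group
          _ = (a * z) * ((b * a * b⁻¹) * (z * (b * (b * a * b⁻¹) * b⁻¹) * z)) := by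
              rw [hzc' _ (hH.inv _ hb1)]
          _ = (a * z) * ((b * a * b⁻¹) * z) * ((b * (b * a * b⁻¹) * b⁻¹) * z) := by group
          _ = 1 := h5
      rw [hX.center_sq hb hf hn hzZ, one_mul] at hzH
      exact hz1 hzH
    have h6 := mul_mem hkC (inv_mem hkb.2)
    rwa [mul_inv_rev, inv_inv, mul_inv_cancel_left] at h6
  obtain ⟨r, hr, hrC⟩ : ∃ r ∈ X, r ∉ C := by
    by_contra hcon
    push Not at hcon
    exact hXC hcon
  set r' := b * r * b⁻¹ with hr'd
  set r'' := b * r' * b⁻¹ with hr''d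
  have hr' : r' ∈ X := hX.inv r hr
  have hr'' : r'' ∈ X := hX.inv r' hr'
  have hb3 : b * r'' * b⁻¹ = r := by
    calc b * r'' * b⁻¹ = (b * b * b) * r * (b * b * b)⁻¹ := by rw [hr''d, hr'd]; group
      _ = r := by rw [hb.pow3]; simp
  have hr'C : r' ∉ C := fun h => hrC (by
    have h1 := hCinv _ (hCinv _ h)
    rwa [← hr''d, hb3] at h1)
  -- four cosets
  have hle4 : ∀ x ∈ X, x ∈ C ∨ r⁻¹ * x ∈ C ∨ r'⁻¹ * x ∈ C ∨ (r * r')⁻¹ * x ∈ C := by
    intro x hx
    have hi2 : ∀ y ∈ X, ∀ w ∈ X, y⁻¹ * w ∈ C → w⁻¹ * y ∈ C := fun y _ w _ h => by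
      have := inv_mem h; rwa [mul_inv_rev, inv_inv] at this
    obtain ⟨a, ha, ha1⟩ := (Subgroup.bot_or_exists_ne_one H).resolve_left hH0
    set a' := b * a * b⁻¹ with ha'd
    have ha' : a' ∈ H := hH.inv a ha
    have haa : a' ≠ a := fun h => ha1 (hH.fixed_eq_one hb.ord hHc ha (mul_inv_eq_iff_eq_mul.1 h))
    have hgen : ∀ w ∈ X, w * a * w⁻¹ = a → w * a' * w⁻¹ = a' → w ∈ C := by
      intro w hw h1 h2
      refine ⟨hw, Subgroup.mem_centralizer_iff.2 fun u hu => ?_⟩
      have h4 := CfsgLib.NoAbEight.four_cases hH4 ha ha1 ha' (fun h => ha1 (conj_eq_one_iff.1 h))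
        haa (fun h => haa (mul_right_cancel (h.trans (hHsq a ha).symm))) hu
      have c1 := mul_inv_eq_iff_eq_mul.1 h1
      have c2 := mul_inv_eq_iff_eq_mul.1 h2
      rcases h4 with rfl | rfl | rfl | rfl
      · simp
      · exact c1.symm
      · exact c2.symm
      · exact ((show Commute w a' from c2).mul_right (show Commute w a from c1)).eq.symm
    -- compare the two characters
    let χ : S → Prop × Prop := fun w => (w * a * w⁻¹ = a, w * a' * w⁻¹ = a')
    have same : ∀ y ∈ X, ∀ w ∈ X, (y * a * y⁻¹ = a ↔ w * a * w⁻¹ = a) →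
        (y * a' * y⁻¹ = a' ↔ w * a' * w⁻¹ = a') → y⁻¹ * w ∈ C := by
      intro y hy w hw e1 e2
      have key : ∀ u ∈ H, (y * u * y⁻¹ = u ↔ w * u * w⁻¹ = u) →
          (y⁻¹ * w) * u * (y⁻¹ * w)⁻¹ = u := by
        intro u hu e
        have heq : w * u * w⁻¹ = y * u * y⁻¹ := by
          rcases hconj y hy u hu with h1 | h1
          · rw [h1, e.1 h1]
          · rcases hconj w hw u hu with h2 | h2
            · rw [h2, e.2 h2]
            · rw [h1, h2]
        calc (y⁻¹ * w) * u * (y⁻¹ * w)⁻¹ = y⁻¹ * (w * u * w⁻¹) * y := by group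
          _ = u := by rw [heq]; group
      exact hgen _ (mul_mem (inv_mem hy) hw) (key a ha e1) (key a' ha' e2)
    -- the four classes `1, r, r', r r'` are distinct
    have d1 : r⁻¹ * r' ∉ C := fun h => hrC (hfpf r hr h)
    have d2 : (r * r') ∉ C := fun h => d1 (by
      have h0 := mul_mem (inv_mem (hsq r hr)) h
      have e : (r * r)⁻¹ * (r * r') = r⁻¹ * r' := by group
      rwa [e] at h0)
    have d3 : r⁻¹ * (r * r') ∉ C := by rwa [inv_mul_cancel_left]
    have d4 : r'⁻¹ * (r * r') ∉ C := fun h => hrC (by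
      have h0 := hCconj r' hr' _ h
      rwa [mul_inv_cancel_left, mul_inv_cancel_right] at h0)
    by_contra hcon
    push Not at hcon
    obtain ⟨n0, n1, n2, n3⟩ := hcon
    let ch : S → Bool × Bool := fun w => by
      classical exact (decide (w * a * w⁻¹ = a), decide (w * a' * w⁻¹ = a'))
    have chs : ∀ y ∈ X, ∀ w ∈ X, ch y = ch w → y⁻¹ * w ∈ C := fun y hy w hw h => by
      simp only [ch, Prod.mk.injEq, decide_eq_decide] at h
      exact same y hy w hw h.1 h.2
    have hone : ∀ y ∈ X, ch 1 = ch y → y ∈ C := fun y hy h => by simpa using chs 1 (one_mem X) y hy h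
    have hrr : r * r' ∈ X := mul_mem hr hr'
    have five : Function.Injective ![ch 1, ch r, ch r', ch (r * r'), ch x] := by
      intro i j hij
      fin_cases i <;> fin_cases j <;> first | rfl | (exfalso; simp at hij; first
        | exact hrC (hone r hr hij) | exact hrC (hone r hr hij.symm)
        | exact hr'C (hone r' hr' hij) | exact hr'C (hone r' hr' hij.symm)
        | exact d2 (hone _ hrr hij) | exact d2 (hone _ hrr hij.symm)
        | exact n0 (hone x hx hij) | exact n0 (hone x hx hij.symm)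
        | exact d1 (chs r hr r' hr' hij) | exact d1 (chs r hr r' hr' hij.symm)
        | exact d3 (chs r hr _ hrr hij) | exact d3 (chs r hr _ hrr hij.symm)
        | exact d4 (chs r' hr' _ hrr hij) | exact d4 (chs r' hr' _ hrr hij.symm)
        | exact n1 (chs r hr x hx hij) | exact n1 (chs r hr x hx hij.symm)
        | exact n2 (chs r' hr' x hx hij) | exact n2 (chs r' hr' x hx hij.symm)
        | exact n3 (chs _ hrr x hx hij) | exact n3 (chs _ hrr x hx hij.symm))
    have h5 := Fintype.card_le_of_injective _ five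
    simp at h5
  -- the commutator of `r` and `r'`
  have hr''eq : (r * r')⁻¹ * r'' ∈ C := by
    rcases hle4 r'' hr'' with h | h | h | h
    · exact absurd (by have h1 := hCinv _ h; rwa [hb3] at h1) hrC
    · exfalso
      have h1 := hCinv _ h
      have e : b * (r⁻¹ * r'') * b⁻¹ = r'⁻¹ * r := by
        calc b * (r⁻¹ * r'') * b⁻¹ = (b * r * b⁻¹)⁻¹ * (b * r'' * b⁻¹) := by group
          _ = r'⁻¹ * r := by rw [hb3]
      rw [e] at h1
      have h2 := inv_mem h1
      rw [mul_inv_rev, inv_inv] at h2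
      exact hrC (hfpf r hr h2)
    · exact absurd (hfpf r' hr' h) hr'C
    · exact h
  set β := ⁅r, r'⁆ with hβ
  have hβX : β ∈ X := by
    rw [hβ, commutatorElement_def]
    exact mul_mem (mul_mem (mul_mem hr hr') (inv_mem hr)) (inv_mem hr')
  have hβC : β ∈ C := by
    have e : β = (r * r') * (r * r') * (r' * (r' * r')⁻¹ * (r * r)⁻¹ * r'⁻¹)⁻¹⁻¹ * 1 := by
      rw [hβ, commutatorElement_def]; group
    rw [e, mul_one, inv_inv]
    refine mul_mem (hsq _ (mul_mem hr hr')) ?_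
    have h1 := hCconj r' hr' _ (mul_mem (inv_mem (hsq r' hr')) (inv_mem (hsq r hr)))
    simpa [mul_assoc] using h1
  have hbβ : ∃ w ∈ Zc X, b * β * b⁻¹ = w * β⁻¹ := by
    obtain ⟨c, hc, hc'⟩ : ∃ c ∈ C, r'' = r * r' * c := ⟨_, hr''eq, by group⟩
    have e0 : b * β * b⁻¹ = ⁅r', r''⁆ := by
      calc b * β * b⁻¹ = ⁅b * r * b⁻¹, b * r' * b⁻¹⁆ := by
            rw [hβ, commutatorElement_def, commutatorElement_def]; group
        _ = ⁅r', r''⁆ := by rw [hr''d]
    rw [e0, hc']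
    refine ⟨(r * r') * ⁅r', c⁆ * (r * r')⁻¹, ?_, ?_⟩
    · exact conj_mem_Zc (Subgroup.le_normalizer (mul_mem hr hr'))
        (by rw [← commutatorElement_inv]; exact inv_mem ((hCZ c hc).2 r' hr'))
    · have hcen := (mem_Zc.1 (conj_mem_Zc (Subgroup.le_normalizer (mul_mem hr hr'))
        (show ⁅r', c⁆ ∈ Zc X by rw [← commutatorElement_inv]; exact inv_mem ((hCZ c hc).2 r' hr')))).2
        β⁻¹ (inv_mem hβX)
      rw [← hcen, hβ]
      simp only [commutatorElement_def]
      group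
  obtain ⟨w, hw, hwβ⟩ := hbβ
  have hβZ : β ∈ Zc X := by
    obtain ⟨h, hh, hhc⟩ := hCmem β hβC
    suffices hh1 : h = 1 by
      rcases hhc with e | e <;> rw [e, hh1]
      · exact one_mem _
      · rw [one_mul]; exact hzZ
    have hhinv : h⁻¹ = h := inv_eq_of_mul_eq_one_left (hHsq h hh)
    have hbh : b * h * b⁻¹ * h ∈ Zc X := by
      rcases hhc with e | e
      · rw [e] at hwβ
        rw [hwβ, mul_assoc]
        nth_rw 2 [← hhinv]
        rw [← mul_inv_rev, hHsq h hh, inv_one, mul_one]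
        exact hw
      · rw [e] at hwβ
        have hbz : b * z * b⁻¹ = z := by rw [hX.center_fixed hb hf hn hzZ, mul_inv_cancel_right]
        rw [← conj_mul, hbz, mul_inv_rev, hhinv] at hwβ
        have h3 : b * h * b⁻¹ = w * (z⁻¹ * h) * z⁻¹ := by rw [← hwβ, mul_inv_cancel_right]
        have h4 : b * h * b⁻¹ = w * (h * z⁻¹) * z⁻¹ := by
          rw [h3, (mem_Zc.1 (inv_mem hzZ)).2 h (hHX hh)]
        have h5 : z⁻¹ * z⁻¹ = 1 := by rw [← mul_inv_rev, hX.center_sq hb hf hn hzZ, inv_one]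
        rw [h4, mul_assoc w, mul_assoc h, h5, mul_one, mul_assoc, hHsq h hh, mul_one]
        exact hw
    have h2 : b * h * b⁻¹ * h = 1 := hHZc _ (mul_mem (hH.inv h hh) hh) hbh
    refine hH.fixed_eq_one hb.ord hHc hh (mul_inv_eq_iff_eq_mul.1 ?_)
    exact mul_right_cancel (h2.trans (hHsq h hh).symm)
  -- conclusion
  let L : S → Subgroup S := fun x =>
    { carrier := {y | y ∈ X ∧ ⁅x, y⁆ ∈ Zc X ∧ x ∈ X}
        ∪ {y | y ∈ X ∧ x ∉ X}
      one_mem' := by
        by_cases hx : x ∈ X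
        · exact Or.inl ⟨one_mem X, by rw [commutatorElement_one_right]; exact one_mem _, hx⟩
        · exact Or.inr ⟨one_mem X, hx⟩
      mul_mem' := by
        rintro y y' (⟨hy, hy2, hx⟩ | ⟨hy, hx⟩) (⟨hy', hy2', hx'⟩ | ⟨hy', hx'⟩)
        · refine Or.inl ⟨mul_mem hy hy', ?_, hx⟩
          have e : ⁅x, y * y'⁆ = ⁅x, y⁆ * (y * ⁅x, y'⁆ * y⁻¹) := by
            simp only [commutatorElement_def]; group
          rw [e]
          exact mul_mem hy2 (conj_mem_Zc (Subgroup.le_normalizer hy) hy2')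
        · exact absurd hx hx'
        · exact absurd hx' hx
        · exact Or.inr ⟨mul_mem hy hy', hx⟩
      inv_mem' := by
        rintro y (⟨hy, hy2, hx⟩ | ⟨hy, hx⟩)
        · refine Or.inl ⟨inv_mem hy, ?_, hx⟩
          have e : ⁅x, y⁻¹⁆ = y⁻¹ * ⁅x, y⁆⁻¹ * y⁻¹⁻¹ := by simp only [commutatorElement_def]; group
          rw [e]
          exact conj_mem_Zc (Subgroup.le_normalizer (inv_mem hy)) (inv_mem hy2)
        · exact Or.inr ⟨inv_mem hy, hx⟩ }
  have hL : ∀ x ∈ X, C ≤ L x := fun x hx c hc => Or.inl ⟨hc.1, by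
    rw [← commutatorElement_inv]; exact inv_mem ((hCZ c hc).2 x hx), hx⟩
  have hall : ∀ x ∈ X, r ∈ L x → r' ∈ L x → X ≤ L x := fun x hx h1 h1' y hy => by
    rcases hle4 y hy with h | h | h | h
    · exact hL x hx h
    · simpa using mul_mem h1 (hL x hx h)
    · simpa using mul_mem h1' (hL x hx h)
    · simpa [mul_assoc] using mul_mem (mul_mem h1 h1') (hL x hx h)
  have hrr : ∀ y ∈ X, ⁅r, y⁆ ∈ Zc X := fun y hy =>
    ((hall r hr (Or.inl ⟨hr, by rw [commutatorElement_self]; exact one_mem _, hr⟩)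
      (Or.inl ⟨hr', hβZ, hr⟩) hy).resolve_right fun h => h.2 hr).2.1
  have hrr' : ∀ y ∈ X, ⁅r', y⁆ ∈ Zc X := fun y hy =>
    ((hall r' hr' (Or.inl ⟨hr, by rw [← commutatorElement_inv]; exact inv_mem hβZ, hr'⟩)
      (Or.inl ⟨hr', by rw [commutatorElement_self]; exact one_mem _, hr'⟩) hy).resolve_right
        fun h => h.2 hr').2.1
  intro x hx y hy
  refine ((hall x hx (Or.inl ⟨hr, ?_, hx⟩) (Or.inl ⟨hr', ?_, hx⟩) hy).resolve_right fun h => h.2 hx).2.1
  · rw [← commutatorElement_inv]; exact inv_mem (hrr x hx)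
  · rw [← commutatorElement_inv]; exact inv_mem (hrr' x hx)

/-- Moved `2`-subgroups have class at most two. -/
theorem classTwo (hb : Cubic ρ b) (hf : Function.Injective ρ) :
    ∀ (n : ℕ) (X : Subgroup S), Nat.card X = n → Moved b X → IsPGroup 2 X → ClassTwo X := by
  haveI : Fact (Nat.Prime 2) := ⟨Nat.prime_two⟩
  intro n
  induction n using Nat.strong_induction_on with
  | _ n ih =>
  intro X hXn hX h2
  by_cases hab : ∀ x ∈ X, ∀ y ∈ X, x * y = y * x
  · exact classTwo_of_abelian hab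
  have hn : NonAb X := by push Not at hab; exact hab
  obtain ⟨z, hzZ, hz1⟩ := center_exists_ne_one h2 (Moved.ne_bot_of_nonAb hn)
  obtain ⟨hH, hHle⟩ := moved_commutator hb.ord (X := Ztwo X)
    (fun x hx => conj_mem_Ztwo hX.normalizer hx)
    (hX.cop.coprime_dvd_left (Subgroup.card_dvd_of_le fun x hx => hx.1))
  set H := ⁅Ztwo X, Subgroup.zpowers b⁆
  have hH0 : H ≠ ⊥ := by
    intro hH0
    obtain ⟨c, hc, hcZ⟩ := exists_Ztwo_not_Zc h2 hn
    refine hcZ (mem_Zc.2 ⟨hc.1, fun x hx => hX.centralize (A := Ztwo X)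
      (fun y hy a ha => conj_mem_Ztwo (Subgroup.le_normalizer hy) ha) (fun a ha => ?_) x hx c hc⟩)
    have h1 : ⁅a, b⁆ ∈ H := Subgroup.commutator_mem_commutator ha (Subgroup.mem_zpowers b)
    rw [hH0, Subgroup.mem_bot, commutatorElement_eq_one_iff_mul_comm] at h1
    exact h1.symm
  by_cases hHab : ∀ x ∈ H, ∀ y ∈ H, x * y = y * x
  · exact classTwo_abelian_case hb hf hX h2 hn hzZ hz1 hH hH0 hHle hHab
  have hHn : NonAb H := by push Not at hHab; exact hHab
  obtain ⟨hneg, hzc⟩ := hX.center_cases hb hf hn hzZ hz1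
  have hHX : H ≤ X := fun a ha => (hHle ha).1
  have hzH : z ∈ H := by
    obtain ⟨x, hx, y, hy, hxy⟩ := hHn
    have h1 : ⁅x, y⁆ ∈ H := by
      rw [commutatorElement_def]
      exact mul_mem (mul_mem (mul_mem hx hy) (inv_mem hx)) (inv_mem hy)
    rcases hzc _ ((hHle hx).2 y (hHX hy)) with e | e
    · exact absurd (commutatorElement_eq_one_iff_mul_comm.1 e) hxy
    · exact e ▸ h1
  have hzHc : z ∈ Zc H := mem_Zc.2 ⟨hzH, fun x hx => (mem_Zc.1 hzZ).2 x (hHX hx)⟩
  obtain ⟨hnegH, hzcH⟩ := hH.center_cases hb hf hHn hzHc hz1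
  set C := X ⊓ Subgroup.centralizer (H : Set S) with hC
  have hCN : H ≤ Subgroup.normalizer (C : Set S) := fun h hh => by
    refine Subgroup.centralizer_le_normalizer _ (Subgroup.mem_centralizer_iff.2 fun c hc => ?_)
    exact (Subgroup.mem_centralizer_iff.1 hc.2 h hh).symm
  have hHC : Zc H = H ⊓ C := by
    rw [hC, Zc, ← inf_assoc, inf_eq_left.2 hHX]
  have hXeq : H ⊔ C = X := by
    refine Subgroup.eq_of_le_of_card_ge (sup_le hHX inf_le_left) ?_
    have h1 := card_pairing hHX hzH (mem_Zc.1 hzZ).2 (hX.center_sq hb hf hn hzZ) hz1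
      fun x hx y hy => by
        have := hzc _ (inv_mem ((hHle hy).2 x hx))
        rwa [commutatorElement_inv] at this
    have h3 : Nat.card (H ⊓ C : Subgroup S) ≤ 2 := by
      rw [← hHC]
      let g : Zc H → Bool := fun c => by classical exact decide ((c : S) = z)
      refine (Nat.card_le_card_of_injective g fun c c' h => ?_).trans_eq (by simp)
      simp only [g, decide_eq_decide] at h
      rcases hzcH _ c.2 with e | e <;> rcases hzcH _ c'.2 with e' | e'
      · exact Subtype.ext (e.trans e'.symm)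
      · exact Subtype.ext ((h.2 e').trans e'.symm)
      · exact Subtype.ext (e.trans (h.1 e).symm)
      · exact Subtype.ext (e.trans e'.symm)
    have h4 : Nat.card H * Nat.card C = Nat.card (H ⊓ C : Subgroup S) * Nat.card (H ⊔ C : Subgroup S) := by
      let g : H × C → (H ⊔ C : Subgroup S) := fun p => ⟨p.1 * p.2, Subgroup.mul_mem_sup p.1.2 p.2.2⟩
      have e1 := Subgroup.card_mul_index ((H ⊓ C).subgroupOf H)
      have e2 := Subgroup.card_mul_index (C.subgroupOf (H ⊔ C))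
      rw [Nat.card_congr (Subgroup.subgroupOfEquivOfLe (inf_le_left : H ⊓ C ≤ H)).toEquiv] at e1
      rw [Nat.card_congr (Subgroup.subgroupOfEquivOfLe (le_sup_right : C ≤ H ⊔ C)).toEquiv] at e2
      have e3 : C.relIndex (H ⊔ C) = (H ⊓ C).relIndex H := by
        haveI : (C.subgroupOf (H ⊔ C)).Normal := by
          rw [Subgroup.normal_subgroupOf_iff_le_normalizer le_sup_right]
          exact sup_le hCN Subgroup.le_normalizer
        have e4 : C.relIndex (H ⊔ C) = C.relIndex H := by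
          have h6 := Subgroup.relIndex_sup_right (H := H.subgroupOf (H ⊔ C))
            (K := C.subgroupOf (H ⊔ C))
          rwa [← Subgroup.subgroupOf_sup le_sup_left le_sup_right,
            Subgroup.relIndex_subgroupOf le_rfl, Subgroup.relIndex_subgroupOf le_sup_left] at h6
        rw [e4, Subgroup.inf_relIndex_left]
      have e3' : (C.subgroupOf (H ⊔ C)).index = ((H ⊓ C).subgroupOf H).index := e3
      rw [← e1, ← e2, e3']
      ring
    have h5 : 2 * Nat.card X ≤ 2 * Nat.card (H ⊔ C : Subgroup S) := by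
      calc 2 * Nat.card X = Nat.card X * 2 := mul_comm _ _
        _ ≤ Nat.card H * Nat.card C := h1
        _ = Nat.card (H ⊓ C : Subgroup S) * Nat.card (H ⊔ C : Subgroup S) := h4
        _ ≤ 2 * Nat.card (H ⊔ C : Subgroup S) := Nat.mul_le_mul_right _ h3
    omega
  have hCinv : ∀ x ∈ C, b * x * b⁻¹ ∈ C := fun c hc => ⟨hX.inv c hc.1,
    Subgroup.mem_centralizer_iff.2 fun a ha => by
      have ha' := mem_of_conj_normalizer hH.normalizer ha
      calc a * (b * c * b⁻¹) = b * ((b⁻¹ * a * b) * c) * b⁻¹ := by group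
        _ = b * (c * (b⁻¹ * a * b)) * b⁻¹ := by rw [Subgroup.mem_centralizer_iff.1 hc.2 _ ha']
        _ = b * c * b⁻¹ * a := by group⟩
  obtain ⟨hC0, hC0le⟩ := moved_commutator hb.ord hCinv
    (hX.cop.coprime_dvd_left (Subgroup.card_dvd_of_le inf_le_left))
  set C0 := ⁅C, Subgroup.zpowers b⁆ with hC0d
  have hC0X : C0 ≤ X := hC0le.trans inf_le_left
  have hC0ne : C0 ≠ X := fun e => by
    obtain ⟨x, hx, y, hy, hxy⟩ := hHn
    have hxC : x ∈ C := hC0le (e.symm ▸ hHX hx)
    exact hxy (Subgroup.mem_centralizer_iff.1 hxC.2 y hy).symm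
  have hC02 : ClassTwo C0 := by
    refine ih _ ?_ C0 rfl hC0 (h2.to_le hC0X)
    rw [← hXn]
    exact lt_of_not_ge fun h => hC0ne (Subgroup.eq_of_le_of_card_ge hC0X h)
  have hCfix : ∀ c ∈ C, b * c = c * b → c ∈ Zc X := by
    intro c hc hcb
    have hcH : ∀ x ∈ H, c * x = x * c := fun x hx => (Subgroup.mem_centralizer_iff.1 hc.2 x hx).symm
    have hCH : Com ρ H = Com ρ X := by
      refine le_antisymm (Com_mono hHX hX.cop) fun v hv => ?_
      have hmem : v ∈ Fix ρ H ⊔ Com ρ H := by rw [Fix_sup_Com ρ hH.cop]; exact Submodule.mem_top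
      obtain ⟨x, hx, y, hy, rfl⟩ := Submodule.mem_sup.1 hmem
      have h4 := hneg _ hv
      rw [map_add, hx z hzH, hnegH y hy, neg_add_rev, add_comm] at h4
      have h5 : x = -x := add_left_cancel h4
      rw [eq_zero_of_eq_neg h5, zero_add]; exact hy
    rcases hb.central hf hH (Moved.ne_bot_of_nonAb hHn)
        (hX.cop.coprime_dvd_left (X.orderOf_dvd_natCard hc.1)) hcH hcb.symm with h1 | h1
    · rw [hCH] at h1
      rw [eq_one_of_fix ρ hf hX.cop (fun v hv => hv c hc.1) h1]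
      exact one_mem _
    · rw [hCH] at h1
      have h6 : c⁻¹ * z = 1 := eq_one_of_fix ρ hf hX.cop
        (fun v hv => hv _ (mul_mem (inv_mem hc.1) hzZ.1)) fun v hv => by
          rw [rho_mul, hneg v hv, ← h1 v hv, rho_inv_self]
      rw [inv_mul_eq_one.1 h6]
      exact hzZ
  have hcop : (Nat.card (Subgroup.zpowers b)).Coprime (Nat.card C) := by
    rw [Nat.card_zpowers, hb.ord]
    exact (hX.cop.coprime_dvd_left (Subgroup.card_dvd_of_le inf_le_left)).symm
  have hsplit : ∀ x ∈ X, ∃ h ∈ H, ∃ k ∈ C0, ∃ c ∈ Zc X, x = h * (k * c) := by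
    intro x hx
    rw [← hXeq, ← SetLike.mem_coe, Subgroup.coe_mul_of_left_le_normalizer_right _ _ hCN] at hx
    obtain ⟨h, hh, k, hk, rfl⟩ := hx
    have e := CfsgLib.Coprime.eq_commutator_sup_centralizer (conj_mem_iff_of_inv C hCinv) hcop
      (Or.inl (CfsgLib.Coprime.isSolvable_zpowers b))
    rw [← hC0d] at e
    have hN : C ⊓ Subgroup.centralizer (Subgroup.zpowers b : Set S) ≤
        Subgroup.normalizer (C0 : Set S) :=
      inf_le_left.trans (Subgroup.normalizer_commutator_ge_left C (Subgroup.zpowers b))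
    rw [← e, Subgroup.coe_mul_of_right_le_normalizer_left _ _ hN] at hk
    obtain ⟨k0, hk0, k1, hk1, rfl⟩ := hk
    exact ⟨h, hh, k0, hk0, k1, hCfix k1 hk1.1
      (Subgroup.mem_centralizer_iff.1 hk1.2 b (Subgroup.mem_zpowers b)), rfl⟩
  have hC0Z2 : ∀ c ∈ C0, c ∈ Ztwo X := by
    intro c hc
    refine ⟨hC0X hc, fun x hx => ?_⟩
    obtain ⟨h, hh, k, hk, c1, hc1, rfl⟩ := hsplit x hx
    have hch : Commute h c := Subgroup.mem_centralizer_iff.1 (hC0le hc).2 h hh
    have hc1c : Commute c c1 := (mem_Zc.1 hc1).2 c (hC0X hc)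
    have hcc : c * h = h * c := hch.eq.symm
    have e1 : ⁅c, h * (k * c1)⁆ = h * ⁅c, k⁆ * h⁻¹ := by
      rw [commutatorElement_def, commutatorElement_def]
      calc c * (h * (k * c1)) * c⁻¹ * (h * (k * c1))⁻¹
          = (c * h) * k * (c1 * c⁻¹) * c1⁻¹ * k⁻¹ * h⁻¹ := by group
        _ = h * c * k * (c⁻¹ * c1) * c1⁻¹ * k⁻¹ * h⁻¹ := by
            rw [hcc, hc1c.inv_left.eq.symm]
        _ = h * (c * k * c⁻¹ * k⁻¹) * h⁻¹ := by group
    rw [e1]
    refine conj_mem_Zc (Subgroup.le_normalizer (hHX hh)) ?_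
    have h7 := hC02 c hc k hk
    refine mem_Zc.2 ⟨hC0X h7.1, fun w hw => ?_⟩
    obtain ⟨h', hh', k', hk', c2, hc2, rfl⟩ := hsplit w hw
    have a1 : Commute h' ⁅c, k⁆ := Subgroup.mem_centralizer_iff.1 (hC0le h7.1).2 h' hh'
    have a2 : Commute k' ⁅c, k⁆ := (mem_Zc.1 h7).2 k' hk'
    have a3 : Commute c2 ⁅c, k⁆ := ((mem_Zc.1 hc2).2 _ (hC0X h7.1)).symm
    exact (a1.mul_left (a2.mul_left a3)).eq
  refine classTwo_of_le fun x hx => ?_
  obtain ⟨h, hh, k, hk, c1, hc1, rfl⟩ := hsplit x hx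
  refine mul_mem (hHle hh) (mul_mem (hC0Z2 k hk) ⟨(mem_Zc.1 hc1).1, fun y hy => ?_⟩)
  rw [commutatorElement_eq_one_iff_mul_comm.2 ((mem_Zc.1 hc1).2 y hy).symm]
  exact one_mem _

end CfsgLib.CubicThree
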