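import Cfsg.Agent.CubicThree.ClassTwo
import Cfsg.Agent.PGroup.Extraspecial
import Cfsg.Prelude.Def_Transfer
import Cfsg.Agent.Eq.Def_Transfer

/-!
Non-abelian moved `2`-subgroups are extraspecial of order `8` or `32`.
-/

set_option autoImplicit false
set_option linter.style.haveILetI false
set_option linter.unusedSectionVars false

namespace CfsgLib.CubicThree

open scoped commutatorElement

variable {S : Type*} [Group S] [Finite S]
variable {E : Type*} [AddCommGroup E] [Module (ZMod 3) E] [Finite E]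
variable {ρ : Representation (ZMod 3) S E} {b : S}

/-- The facts about a non-abelian moved `2`-subgroup. -/
structure ExData (ρ : Representation (ZMod 3) S E) (b : S) (X : Subgroup S) (z : S) : Prop where
  mem : z ∈ Zc X
  ne : z ≠ 1
  sq : z * z = 1
  cases' : ∀ c ∈ Zc X, c = 1 ∨ c = z
  neg : ∀ v ∈ Com ρ X, ρ z v = -v
  two : ClassTwo X
  fixed : ∀ c ∈ X, b * c = c * b → c ∈ Zc X

theorem Moved.exists_exData {X : Subgroup S} (h : Moved b X) (hb : Cubic ρ b)
    (hf : Function.Injective ρ) (h2 : IsPGroup 2 X) (hn : NonAb X) : ∃ z, ExData ρ b X z := by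
  haveI : Fact (Nat.Prime 2) := ⟨Nat.prime_two⟩
  obtain ⟨z, hz, hz1⟩ := center_exists_ne_one h2 (Moved.ne_bot_of_nonAb hn)
  obtain ⟨hneg, hzc⟩ := h.center_cases hb hf hn hz hz1
  have hct := classTwo hb hf _ X rfl h h2
  refine ⟨z, hz, hz1, h.center_sq hb hf hn hz, hzc, hneg, hct, fun c hc hcb =>
    mem_Zc.2 ⟨hc, fun x hx => ?_⟩⟩
  have hle : X ≤ Subgroup.centralizer {c} := by
    refine h.le_of fun x hx y hy => Subgroup.mem_centralizer_iff.2 fun v hv => ?_
    rw [Set.mem_singleton_iff.1 hv]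
    have hyc : Commute y c := by
      obtain ⟨i, rfl⟩ := Subgroup.mem_zpowers_iff.1 hy
      exact (show Commute b c from hcb).zpow_left i
    have hyN : y ∈ Subgroup.normalizer (X : Set S) :=
      conj_mem_iff_of_inv X h.inv hy
    obtain ⟨w, hw⟩ : ∃ w, ⁅c, x⁆ = w := ⟨_, rfl⟩
    have hwZ : w ∈ Zc X := hw ▸ hct c hc x hx
    have hwy : Commute y w := by
      obtain ⟨i, rfl⟩ := Subgroup.mem_zpowers_iff.1 hy
      exact (show Commute b w from h.center_fixed hb hf hn hwZ).zpow_left i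
    have hx' : y * x⁻¹ * y⁻¹ ∈ X := (Subgroup.mem_normalizer_iff.1 hyN x⁻¹).1 (inv_mem hx)
    have e1 : c * x * c⁻¹ = w * x := by rw [← hw, commutatorElement_def, inv_mul_cancel_right]
    have e2 : c * (y * x⁻¹ * y⁻¹) * c⁻¹ = w⁻¹ * (y * x⁻¹ * y⁻¹) := by
      calc c * (y * x⁻¹ * y⁻¹) * c⁻¹ = (c * y) * x⁻¹ * (c * y)⁻¹ := by group
        _ = (y * c) * x⁻¹ * (y * c)⁻¹ := by rw [hyc.eq]
        _ = y * (c * x * c⁻¹)⁻¹ * y⁻¹ := by group
        _ = y * (w⁻¹ * x⁻¹) * y⁻¹ := by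
            rw [e1, mul_inv_rev, (mem_Zc.1 (inv_mem hwZ)).2 x⁻¹ (inv_mem hx)]
        _ = (y * w⁻¹) * x⁻¹ * y⁻¹ := by group
        _ = w⁻¹ * (y * x⁻¹ * y⁻¹) := by rw [hwy.inv_right.eq]; group
    refine (mul_inv_eq_iff_eq_mul.1 ?_)
    calc c * ⁅x, y⁆ * c⁻¹ = (c * x * c⁻¹) * (c * (y * x⁻¹ * y⁻¹) * c⁻¹) := by
          rw [commutatorElement_def]; group
      _ = (w * x) * (w⁻¹ * (y * x⁻¹ * y⁻¹)) := by rw [e1, e2]
      _ = w * (x * w⁻¹) * (y * x⁻¹ * y⁻¹) := by group
      _ = ⁅x, y⁆ := by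
          rw [(mem_Zc.1 (inv_mem hwZ)).2 x hx, commutatorElement_def]; group
  exact (Subgroup.mem_centralizer_iff.1 (hle hx) c rfl).symm

theorem ExData.conj_cases {X : Subgroup S} {z : S} (D : ExData ρ b X z) {r a : S} (hr : r ∈ X)
    (ha : a ∈ X) : r * a * r⁻¹ = a ∨ r * a * r⁻¹ = a * z := by
  rcases D.cases' _ (D.two r hr a ha) with h | h
  · left
    rwa [commutatorElement_def, mul_inv_eq_one] at h
  · right
    rw [commutatorElement_def, mul_inv_eq_iff_eq_mul] at h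
    rw [h, (mem_Zc.1 D.mem).2 a ha]

theorem ExData.exists_swap {X : Subgroup S} {z : S} (D : ExData ρ b X z) {a : S} (ha : a ∈ X)
    (haZ : a ∉ Zc X) : ∃ r ∈ X, r * a * r⁻¹ = a * z := by
  by_contra hcon
  push Not at hcon
  exact haZ (mem_Zc.2 ⟨ha, fun r hr =>
    mul_inv_eq_iff_eq_mul.1 ((D.conj_cases hr ha).resolve_right (hcon r hr))⟩)

theorem ExData.card_center {X : Subgroup S} {z : S} (D : ExData ρ b X z) : Nat.card (Zc X) = 2 := by
  rw [Nat.card_eq_two_iff' (⟨1, one_mem _⟩ : Zc X)]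
  refine ⟨⟨z, D.mem⟩, fun h => D.ne (congrArg Subtype.val h), fun w hw => Subtype.ext ?_⟩
  exact (D.cases' _ w.2).resolve_left fun h => hw (Subtype.ext h)

theorem ExData.sq_mem {X : Subgroup S} {z : S} (D : ExData ρ b X z) {x : S} (hx : x ∈ X) :
    x * x ∈ Zc X := mem_Zc.2 ⟨mul_mem hx hx, fun y hy => by
  refine (Eq.symm ?_)
  refine mul_inv_eq_iff_eq_mul.1 ?_
  have e : x * x * y * (x * x)⁻¹ = x * (x * y * x⁻¹) * x⁻¹ := by group
  rw [e]
  rcases D.conj_cases hx hy with h | h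
  · rw [h, h]
  · rw [h, ← conj_mul, h, (mem_Zc.1 D.mem).2 x hx, mul_inv_cancel_right, mul_assoc, D.sq, mul_one]⟩

/-- Linear independence of coset representatives. -/
theorem ExData.card_le_sq {X : Subgroup S} {z : S} (D : ExData ρ b X z) {N : Submodule (ZMod 3) E}
    (hN : ∀ g ∈ X, ∀ v ∈ N, ρ g v ∈ N) (hneg : ∀ v ∈ N, ρ z v = -v)
    (hd : (Module.finrank (ZMod 3) N : ZMod 3) ≠ 0) :
    Nat.card X ≤ 2 * (Module.finrank (ZMod 3) N * Module.finrank (ZMod 3) N) := by
  classical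
  set Z := (Zc X).subgroupOf X with hZd
  haveI := Fintype.ofFinite (X ⧸ Z)
  let R : X → Module.End (ZMod 3) N := fun g => (ρ (g : S)).restrict (hN g g.2)
  have hRmul : ∀ g g', R (g * g') = R g * R g' := fun g g' =>
    LinearMap.ext fun v => Subtype.ext (rho_mul ρ (g : S) (g' : S) (v : E))
  have hR1 : R 1 = 1 := LinearMap.ext fun v => Subtype.ext (rho_one ρ (v : E))
  have htr : ∀ w : X, w ∉ Z → LinearMap.trace (ZMod 3) N (R w) = 0 := by
    intro w hw
    obtain ⟨r, hr, hrw⟩ := D.exists_swap w.2 (fun h => hw (Subgroup.mem_subgroupOf.2 h))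
    have e : R ⟨r, hr⟩ * R w * R ⟨r, hr⟩⁻¹ = -R w := by
      rw [← hRmul, ← hRmul]
      refine LinearMap.ext fun v => Subtype.ext ?_
      show ρ (r * (w : S) * r⁻¹) (v : E) = -ρ (w : S) (v : E)
      rw [hrw, rho_mul, hneg _ v.2, map_neg]
    have h1 : LinearMap.trace (ZMod 3) N (R ⟨r, hr⟩ * R w * R ⟨r, hr⟩⁻¹) =
        LinearMap.trace (ZMod 3) N (R w) := by
      rw [LinearMap.trace_mul_comm, ← mul_assoc, ← hRmul, inv_mul_cancel, hR1, one_mul]
    rw [e, map_neg] at h1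
    have h3 : ∀ t : ZMod 3, -t = t → t = 0 := by decide
    exact h3 _ h1
  have hli : LinearIndependent (ZMod 3) (fun q : X ⧸ Z => R q.out) := by
    rw [Fintype.linearIndependent_iff]
    intro g hg p
    have h1 := congrArg (fun T => LinearMap.trace (ZMod 3) N (R (p.out)⁻¹ * T)) hg
    simp only [Finset.mul_sum, mul_smul_comm, map_sum, map_smul, mul_zero, map_zero, ← hRmul] at h1
    rw [Finset.sum_eq_single p] at h1
    · rw [inv_mul_cancel, hR1, LinearMap.trace_one, smul_eq_mul, mul_eq_zero] at h1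
      exact h1.resolve_right hd
    · intro q _ hqp
      rw [htr, smul_zero]
      intro hmem
      apply hqp
      rw [← QuotientGroup.out_eq' p, ← QuotientGroup.out_eq' q]
      exact (QuotientGroup.eq.2 hmem).symm
    · intro hp; exact absurd (Finset.mem_univ p) hp
  have h4 := hli.fintype_card_le_finrank
  rw [show Module.finrank (ZMod 3) (Module.End (ZMod 3) N) =
      Module.finrank (ZMod 3) N * Module.finrank (ZMod 3) N from
        Module.finrank_linearMap (ZMod 3) (ZMod 3) N N, ← Nat.card_eq_fintype_card] at h4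
  have h5 := Z.card_mul_index
  rw [Nat.card_congr (Subgroup.subgroupOfEquivOfLe (show Zc X ≤ X from inf_le_left)).toEquiv,
    D.card_center] at h5
  rw [← h5, Subgroup.index]
  omega

theorem ExData.dim {X : Subgroup S} {z : S} (hb : Cubic ρ b) (hf : Function.Injective ρ)
    (h : Moved b X) (h2 : IsPGroup 2 X) (hn : NonAb X) (D : ExData ρ b X z) :
    Module.finrank (ZMod 3) (Com ρ X) = 4 := by
  have hXne := Moved.ne_bot_of_nonAb hn
  -- even
  have heven : Even (Module.finrank (ZMod 3) (Com ρ X)) := by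
    refine even_of_det ?_
    rw [← det_of_scalar (g := ρ z) (κ := -1) (W := Com ρ X) (Q := Fix ρ X)
      (by rw [sup_comm]; exact Fix_sup_Com ρ h.cop)
      (fun v hv => by rw [D.neg v hv, neg_smul, one_smul]) (fun v hv => hv z (mem_Zc.1 D.mem).1)]
    exact h.det_one (mem_Zc.1 D.mem).1
  -- at least three
  have h3 : 2 ≤ Module.finrank (ZMod 3) (Com ρ X) ∧
      Module.finrank (ZMod 3) (Com ρ X) ≠ 2 := by
    have hle : LinearMap.range (du ρ b) ≤ Com ρ X := by
      rintro _ ⟨v, rfl⟩; exact hb.du_mem_Com hf h hXne v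
    have h1 := Submodule.finrank_mono hle
    rw [hb.rank] at h1
    refine ⟨h1, fun h2' => ?_⟩
    have heq : LinearMap.range (du ρ b) = Com ρ X :=
      Submodule.eq_of_le_of_finrank_le hle (by rw [h2', hb.rank])
    obtain ⟨l, hl0, ⟨w, hw⟩, hl⟩ := hb.exists_line
    have hr : ∀ v ∈ Com ρ X, ∃ c : ZMod 3, du ρ b v = c • l := fun v hv => by
      rw [← heq] at hv
      obtain ⟨u, rfl⟩ := hv
      exact hl u
    obtain ⟨c, hc⟩ := hr _ (hb.du_mem_Com hf h hXne w)
    have hu2 : ∀ v, du ρ b v ∈ (ZMod 3) ∙ l := fun v => by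
      have hmem : v ∈ Fix ρ X ⊔ Com ρ X := by rw [Fix_sup_Com ρ h.cop]; exact Submodule.mem_top
      obtain ⟨x, hx, y, hy, rfl⟩ := Submodule.mem_sup.1 hmem
      obtain ⟨c', hc'⟩ := hr y hy
      rw [map_add, (du_eq_zero ρ).2 (hb.fix_trivial hf h hXne x hx), zero_add, hc']
      exact Submodule.smul_mem _ _ (Submodule.mem_span_singleton_self l)
    have h5 := Submodule.finrank_mono (show LinearMap.range (du ρ b) ≤ (ZMod 3) ∙ l by
      rintro _ ⟨v, rfl⟩; exact hu2 v)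
    rw [hb.rank, finrank_span_singleton hl0] at h5
    omega
  -- an element of order four of the form `⁅x, b⁆`
  obtain ⟨x, hx, hxb⟩ : ∃ x ∈ X, ⁅x, b⁆ * ⁅x, b⁆ = z := by
    by_contra hcon
    push Not at hcon
    have hbX : ∀ x ∈ X, ⁅x, b⁆ ∈ X := fun x hx => by
      rw [commutatorElement_def, mul_assoc x b, mul_assoc x]
      exact mul_mem hx (h.inv _ (inv_mem hx))
    have hsq : ∀ x ∈ X, ⁅x, b⁆ * ⁅x, b⁆ = 1 := fun x hx =>
      (D.cases' _ (D.sq_mem (hbX x hx))).resolve_right (hcon x hx)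
    let L : Subgroup S :=
      { carrier := {y | y ∈ X ∧ ∃ x ∈ X, ∃ c ∈ Zc X, y = ⁅x, b⁆ * c}
        one_mem' := ⟨one_mem X, 1, one_mem X, 1, one_mem _, by simp⟩
        mul_mem' := by
          rintro y y' ⟨hy, x, hx, c, hc, rfl⟩ ⟨hy', x', hx', c', hc', rfl⟩
          have hbx' := hbX x' hx'
          refine ⟨mul_mem hy hy', x' * x, mul_mem hx' hx, ?_⟩
          have hw : ⁅x', ⁅x, b⁆⁆ ∈ Zc X := D.two x' hx' _ (hbX x hx)
          refine ⟨⁅x', ⁅x, b⁆⁆⁻¹ * c * c', mul_mem (mul_mem (inv_mem hw) hc) hc', ?_⟩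
          have hc1 : c * ⁅x', b⁆ = ⁅x', b⁆ * c := ((mem_Zc.1 hc).2 _ hbx').symm
          calc ⁅x, b⁆ * c * (⁅x', b⁆ * c') = ⁅x, b⁆ * (c * ⁅x', b⁆) * c' := by group
            _ = ⁅x, b⁆ * ⁅x', b⁆ * c * c' := by rw [hc1]; group
            _ = (⁅x', ⁅x, b⁆⁆⁻¹ * (⁅x', ⁅x, b⁆⁆ * ⁅x, b⁆ * ⁅x', b⁆)) * c * c' := by group
            _ = ⁅x' * x, b⁆ * (⁅x', ⁅x, b⁆⁆⁻¹ * c * c') := by
                rw [show ⁅x', ⁅x, b⁆⁆ * ⁅x, b⁆ * ⁅x', b⁆ = ⁅x' * x, b⁆ by
                  simp only [commutatorElement_def]; group]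
                rw [← (mem_Zc.1 (inv_mem hw)).2 _ (hbX _ (mul_mem hx' hx))]
                group
        inv_mem' := by
          rintro y ⟨hy, x, hx, c, hc, rfl⟩
          refine ⟨inv_mem hy, x, hx, c⁻¹, inv_mem hc, ?_⟩
          rw [mul_inv_rev, inv_eq_of_mul_eq_one_left (hsq x hx),
            ← (mem_Zc.1 (inv_mem hc)).2 _ (hbX x hx)] }
    have hXL : X ≤ L := by
      refine h.le_of fun x hx y hy => ?_
      rcases zpowers_cases hb.ord hy with h' | h' | h' <;> rw [h']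
      · rw [commutatorElement_one_right]; exact one_mem L
      · exact ⟨hbX x hx, x, hx, 1, one_mem _, (mul_one _).symm⟩
      · have e : ⁅x, b * b⁆ = ⁅x, b⁆ * ⁅b * x * b⁻¹, b⁆ := by
          simp only [commutatorElement_def]; group
        rw [e]
        exact mul_mem (show ⁅x, b⁆ ∈ L from ⟨hbX x hx, x, hx, 1, one_mem _, (mul_one _).symm⟩)
          (show ⁅b * x * b⁻¹, b⁆ ∈ L from
            ⟨hbX _ (h.inv x hx), _, h.inv x hx, 1, one_mem _, (mul_one _).symm⟩)
    have hinv : ∀ y ∈ X, y⁻¹ = y := fun y hy => by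
      obtain ⟨-, x, hx, c, hc, rfl⟩ := hXL hy
      refine inv_eq_of_mul_eq_one_left ?_
      have hcc : c * c = 1 := by
        rcases D.cases' c hc with rfl | rfl
        · exact one_mul 1
        · exact D.sq
      calc ⁅x, b⁆ * c * (⁅x, b⁆ * c) = ⁅x, b⁆ * (c * ⁅x, b⁆) * c := by group
        _ = (⁅x, b⁆ * ⁅x, b⁆) * (c * c) := by rw [← (mem_Zc.1 hc).2 _ (hbX x hx)]; group
        _ = 1 := by rw [hsq x hx, hcc, one_mul]
    obtain ⟨x, hx, y, hy, hxy⟩ := hn
    apply hxy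
    calc x * y = (x * y)⁻¹ := (hinv _ (mul_mem hx hy)).symm
      _ = y * x := by rw [mul_inv_rev, hinv x hx, hinv y hy]
  -- the common fixed space is small
  set K := Com ρ X ⊓ LinearMap.ker (du ρ b) with hK
  set K' := K.map (ρ x) with hK'
  have hN : ∀ g ∈ X, ∀ v ∈ Com ρ X, ρ g v ∈ Com ρ X := fun g hg v hv =>
    rho_mem_Com ρ (Subgroup.le_normalizer hg) hv
  have hKK : K ⊓ K' = ⊥ := by
    rw [eq_bot_iff]
    rintro v ⟨⟨hvC, hvb⟩, w, ⟨hwC, hwb⟩, hwv⟩
    have hvb' : ρ b v = v := (du_eq_zero ρ).1 hvb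
    have hwb' : ρ b w = w := (du_eq_zero ρ).1 hwb
    have hy : ρ ⁅x, b⁆ v = v := by
      rw [commutatorElement_def, rho_mul, rho_mul, rho_mul, rho_inv_fix ρ hvb', ← hwv, rho_inv_self,
        hwb']
    have h4 : ρ z v = v := by rw [← hxb, rho_mul, hy, hy]
    exact (Submodule.mem_bot _).2 (eq_zero_of_eq_neg (h4.symm.trans (D.neg v hvC)))
  have hK'le : K' ≤ Com ρ X := by rintro _ ⟨w, hw, rfl⟩; exact hN x hx w hw.1
  have hKd : Module.finrank (ZMod 3) (Com ρ X) ≤ Module.finrank (ZMod 3) K + 2 := by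
    have h5 := LinearMap.finrank_range_add_finrank_ker ((du ρ b).domRestrict (Com ρ X))
    have h6 : Module.finrank (ZMod 3) (LinearMap.range ((du ρ b).domRestrict (Com ρ X))) ≤ 2 := by
      rw [← hb.rank]
      refine Submodule.finrank_mono ?_
      rintro _ ⟨v, rfl⟩
      exact ⟨v, rfl⟩
    have h7 : Module.finrank (ZMod 3) (LinearMap.ker ((du ρ b).domRestrict (Com ρ X))) =
        Module.finrank (ZMod 3) K := by
      have e : (LinearMap.ker ((du ρ b).domRestrict (Com ρ X))).map (Com ρ X).subtype = K := by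
        refine le_antisymm ?_ fun v hv => ⟨⟨v, hv.1⟩, hv.2, rfl⟩
        rintro _ ⟨v, hv, rfl⟩
        exact ⟨v.2, hv⟩
      rw [← Submodule.finrank_map_subtype_eq, e]
    omega
  have hsum := Submodule.finrank_sup_add_finrank_inf_eq K K'
  have h8 : Module.finrank (ZMod 3) K' = Module.finrank (ZMod 3) K :=
    (Submodule.equivMapOfInjective (ρ x) (rho_injective ρ x) _).symm.finrank_eq
  have h9 := Submodule.finrank_mono (show K ⊔ K' ≤ Com ρ X from sup_le inf_le_left hK'le)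
  rw [hKK, finrank_bot] at hsum
  obtain ⟨k, hk⟩ := heven
  simp only [← hK, ← hK'] at *
  omega

theorem ExData.card {X : Subgroup S} {z : S} (hb : Cubic ρ b) (hf : Function.Injective ρ)
    (h : Moved b X) (h2 : IsPGroup 2 X) (hn : NonAb X) (D : ExData ρ b X z) :
    Nat.card X = 8 ∨ Nat.card X = 32 := by
  have hd := D.dim hb hf h h2 hn
  have hle := D.card_le_sq (fun g hg v hv => rho_mem_Com ρ (Subgroup.le_normalizer hg) hv) D.neg
    (by rw [hd]; decide)
  rw [hd] at hle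
  let φ : Subgroup.zpowers b →* MulAut X :=
    X.normalizerMonoidHom.comp (Subgroup.inclusion (conj_mem_iff_of_inv X h.inv))
  letI : MulAction (Subgroup.zpowers b) X := MulAction.compHom _ φ
  haveI : Fact (Nat.Prime 3) := ⟨Nat.prime_three⟩
  have hp : IsPGroup 3 (Subgroup.zpowers b) :=
    IsPGroup.of_card (n := 1) (by rw [Nat.card_zpowers, hb.ord, pow_one])
  have h1 := hp.card_modEq_card_fixedPoints X
  have hfix : Nat.card (MulAction.fixedPoints (Subgroup.zpowers b) X) = 2 := by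
    rw [← D.card_center]
    refine Nat.card_congr
      { toFun := fun u => ⟨((u : X) : S), D.fixed _ (u : X).2 ?_⟩
        invFun := fun c => ⟨⟨c, c.2.1⟩, fun y => Subtype.ext ?_⟩
        left_inv := fun u => rfl
        right_inv := fun c => rfl }
    · exact mul_inv_eq_iff_eq_mul.1
        (congrArg Subtype.val (u.2 ⟨b, Subgroup.mem_zpowers b⟩) : b * ((u : X) : S) * b⁻¹ = _)
    · show (y : S) * c * (y : S)⁻¹ = c
      obtain ⟨i, hi⟩ := Subgroup.mem_zpowers_iff.1 y.2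
      rw [← hi, ((show Commute b (c : S) from h.center_fixed hb hf hn c.2).zpow_left i).eq,
        mul_inv_cancel_right]
  rw [hfix] at h1
  obtain ⟨k, hk⟩ := IsPGroup.iff_card.1 h2
  rw [hk] at h1 hle ⊢
  have hk6 : k < 6 := by
    by_contra h6
    have := Nat.pow_le_pow_right two_pos (not_lt.1 h6)
    omega
  interval_cases k
  · exfalso; exact absurd h1 (by decide)
  · exfalso
    obtain ⟨x, hx, y, hy, hxy⟩ := hn
    haveI : IsCyclic X := isCyclic_of_prime_card (p := 2) (by rw [hk, pow_one])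
    exact hxy (congrArg Subtype.val ((IsCyclic.isMulCommutative (α := X)).is_comm.comm ⟨x, hx⟩ ⟨y, hy⟩))
  · exfalso; exact absurd h1 (by decide)
  · left; norm_num
  · exfalso; exact absurd h1 (by decide)
  · right; norm_num

theorem ExData.extraspecial {X : Subgroup S} {z : S} (h2 : IsPGroup 2 X) (hn : NonAb X)
    (D : ExData ρ b X z) : Cfsg.IsExtraspecial 2 X := by
  haveI : Fact (Nat.Prime 2) := ⟨Nat.prime_two⟩
  have hcen : ∀ w : X, w ∈ Subgroup.center X ↔ (w : S) ∈ Zc X := fun w => by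
    rw [mem_Zc, Subgroup.mem_center_iff]
    exact ⟨fun h => ⟨w.2, fun x hx => congrArg Subtype.val (h ⟨x, hx⟩)⟩,
      fun h y => Subtype.ext (h.2 y y.2)⟩
  refine CfsgLib.PGroup.isExtraspecial_of h2 ?_ ?_ (fun a c => (hcen _).2 (D.two a a.2 c c.2))
    fun a => (hcen _).2 (by rw [Subgroup.coe_pow, pow_two]; exact D.sq_mem a.2)
  · rw [← D.card_center]
    exact Nat.card_congr
      { toFun := fun u => ⟨((u : X) : S), (hcen _).1 u.2⟩
        invFun := fun c => ⟨⟨c, c.2.1⟩, (hcen _).2 c.2⟩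
        left_inv := fun u => rfl
        right_inv := fun c => rfl }
  · obtain ⟨x, hx, y, hy, hxy⟩ := hn
    exact ⟨⟨x, hx⟩, ⟨y, hy⟩, fun h => hxy (congrArg Subtype.val h)⟩

theorem ExData.irreducible {X : Subgroup S} {z : S} (hb : Cubic ρ b) (hf : Function.Injective ρ)
    (h : Moved b X) (h2 : IsPGroup 2 X) (hn : NonAb X) (D : ExData ρ b X z)
    (h32 : Nat.card X = 32) {a : S} (ha : a ∈ X) (haZ : a ∉ Zc X) (ha2 : a * a = 1)
    {N : Submodule (ZMod 3) E} (hN : N ≤ Com ρ X) (hinv : ∀ g ∈ X, ∀ v ∈ N, ρ g v ∈ N) :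
    N = ⊥ ∨ N = Com ρ X := by
  by_cases h0 : N = ⊥
  · exact Or.inl h0
  right
  have hneg : ∀ v ∈ N, ρ z v = -v := fun v hv => D.neg v (hN hv)
  obtain ⟨r, hr, hra⟩ := D.exists_swap ha haZ
  have heven := involution_swap (ρ := ρ) ha2 (hinv a ha) (hinv r hr) (hinv _ (inv_mem hr)) hra hneg
  have hd := D.dim hb hf h h2 hn
  have hle := Submodule.finrank_mono hN
  have hpos : Module.finrank (ZMod 3) N ≠ 0 := fun e => h0 (Submodule.finrank_eq_zero.1 e)
  refine Submodule.eq_of_le_of_finrank_le hN ?_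
  by_contra hlt
  have hn2 : Module.finrank (ZMod 3) N = 2 := by omega
  have h3 := D.card_le_sq hinv hneg (by rw [hn2]; decide)
  rw [h32, hn2] at h3
  omega

end CfsgLib.CubicThree
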