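import Cfsg.Agent.CubicThree.Thirteen
import Cfsg.Agent.Constrained.Fitting
import Cfsg.Agent.Constrained.HallHigman
import Cfsg.Agent.Coprime44.InvariantSylow
import Cfsg.Agent.Eq.Def_Solvable

/-!
The commutator of the `3'`-core with an element of order three with a single cubic block.
-/

set_option autoImplicit false
set_option linter.style.haveILetI false
set_option linter.unusedSectionVars false

namespace CfsgLib.CubicThree

open scoped commutatorElement

variable {S : Type*} [Group S] [Finite S]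
variable {E : Type*} [AddCommGroup E] [Module (ZMod 3) E] [Finite E]
variable {ρ : Representation (ZMod 3) S E} {b : S}

theorem cubic_of_block (hb3 : orderOf b = 3) (E₀ E₁ : Submodule (ZMod 3) E)
    (hs : E₀ ⊔ E₁ = ⊤) (hE1 : ∀ v ∈ E₁, ρ b v = v) (hinv : ∀ v ∈ E₀, ρ b v ∈ E₀)
    (hE0 : Nat.card E₀ = 27) (hind : ∃ v ∈ E₀, ρ b (ρ b v - v) - (ρ b v - v) ≠ 0) :
    Cubic ρ b := by
  set u := du ρ b with hu
  have hcube : ∀ v, u (u (u v)) = 0 := fun v => by
    rw [hu, du_sq, du_apply]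
    simp only [map_sub, ← rho_mul, mul_assoc]
    have h3 : b * (b * b) = 1 := by
      have h := pow_orderOf_eq_one b
      rwa [hb3, pow_succ, pow_two, mul_assoc] at h
    rw [h3, rho_one]
    abel
  obtain ⟨w, hw, hw2⟩ := hind
  have h2 : u (u w) ≠ 0 := hw2
  have hd : Module.finrank (ZMod 3) E₀ = 3 := by
    have h := Module.natCard_eq_pow_finrank (K := ZMod 3) (V := E₀)
    rw [hE0, Nat.card_zmod] at h
    exact Nat.pow_right_injective (show 2 ≤ 3 by norm_num) (h.symm.trans (show (27 : ℕ) = 3 ^ 3 by norm_num))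
  have hrange : LinearMap.range u = E₀.map u := by
    rw [← Submodule.map_top, ← hs, Submodule.map_sup]
    refine sup_eq_left.2 ?_
    rintro _ ⟨v, hv, rfl⟩
    rw [hu, (du_eq_zero ρ).2 (hE1 v hv)]
    exact Submodule.zero_mem _
  have hrange2 : LinearMap.range (u ∘ₗ u) = (E₀.map u).map u := by
    rw [LinearMap.range_comp, hrange]
  have hm1 : E₀.map u ≤ E₀ := Submodule.map_le_iff_le_comap.2 fun v hv => du_mem ρ hinv hv
  have hm2 : (E₀.map u).map u ≤ E₀.map u := Submodule.map_mono hm1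
  have hlt1 : E₀.map u < E₀ := lt_of_le_of_ne hm1 fun h => by
    have h3 : ((E₀.map u).map u).map u = E₀ := by rw [h, h, h]
    obtain ⟨_, ⟨_, ⟨x, -, rfl⟩, rfl⟩, hx⟩ :=
      (show w ∈ ((E₀.map u).map u).map u by rw [h3]; exact hw)
    rw [hcube] at hx
    exact h2 (by rw [← hx, map_zero, map_zero])
  have hlt2 : (E₀.map u).map u < E₀.map u := lt_of_le_of_ne hm2 fun h => by
    have h3 : ((E₀.map u).map u).map u = E₀.map u := by rw [h, h]
    obtain ⟨_, ⟨_, ⟨x, -, rfl⟩, rfl⟩, hx⟩ :=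
      (show u w ∈ ((E₀.map u).map u).map u by rw [h3]; exact ⟨w, hw, rfl⟩)
    rw [hcube] at hx
    exact h2 (by rw [← hx, map_zero])
  have h0 : Module.finrank (ZMod 3) ((E₀.map u).map u) ≠ 0 := fun h => h2 (by
    have h4 : u (u w) ∈ (E₀.map u).map u := ⟨u w, ⟨w, hw, rfl⟩, rfl⟩
    rwa [Submodule.finrank_eq_zero.1 h, Submodule.mem_bot] at h4)
  have f1 := Submodule.finrank_lt_finrank_of_lt hlt1
  have f2 := Submodule.finrank_lt_finrank_of_lt hlt2
  exact ⟨hb3, hcube, ⟨w, h2⟩, by rw [hrange]; omega, by rw [hrange2]; omega⟩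

/-- Commutators of maps into an abelian group of automorphisms. -/
theorem centralize_cyclic {C Q : Subgroup S} (hC : IsCyclic C) (hQ : Moved b Q)
    (hbC : b ∈ Subgroup.normalizer (C : Set S)) (hQC : Q ≤ Subgroup.normalizer (C : Set S)) :
    ∀ r ∈ Q, ∀ c ∈ C, r * c = c * r := by
  haveI := hC
  let ψ : Subgroup.normalizer (C : Set S) →* MulAut C := C.normalizerMonoidHom
  have hcomm : ∀ f g : MulAut C, f * g = g * f := fun f g => by
    obtain ⟨e⟩ : Nonempty (MulAut C ≃* (ZMod (Nat.card C))ˣ) := ⟨IsCyclic.mulAutMulEquiv C⟩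
    exact e.injective (by rw [map_mul, map_mul, mul_comm])
  have hle : Q ≤ ψ.ker.map (Subgroup.normalizer (C : Set S)).subtype := by
    refine hQ.le_of fun x hx y hy => ?_
    refine ⟨⁅(⟨x, hQC hx⟩ : Subgroup.normalizer (C : Set S)),
      ⟨y, Subgroup.zpowers_le.2 hbC hy⟩⁆, ?_, rfl⟩
    rw [SetLike.mem_coe, MonoidHom.mem_ker, map_commutatorElement, commutatorElement_eq_one_iff_mul_comm]
    exact hcomm _ _
  intro r hr c hc
  obtain ⟨x, hx, hxr⟩ := hle hr
  have h1 : ((ψ x ⟨c, hc⟩ : C) : S) = c := by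
    rw [MonoidHom.mem_ker.1 hx]
    rfl
  have h2 : (x : S) * c * (x : S)⁻¹ = c := h1
  rw [show (x : S) = r from hxr] at h2
  exact mul_inv_eq_iff_eq_mul.1 h2

variable [Group.IsSolvable S]

theorem isPGroup_map_subtype {q : ℕ} {K : Subgroup S} {T : Subgroup K} (h : IsPGroup q T) :
    IsPGroup q (T.map K.subtype) := h.map K.subtype

/-- The main conclusion. -/
theorem main (hb : Cubic ρ b) (hf : Function.Injective ρ) (hO3 : Cfsg.pCore 3 S = ⊥)
    {Q : Subgroup S} (hQc : IsMulCommutative Q) (hQ2 : ∀ a ∈ Q, a * a = 1) (hQ4 : Nat.card Q = 4)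
    (hbQ : ∀ x ∈ Q, b * x * b⁻¹ ∈ Q) (hbQ' : ∃ x ∈ Q, b * x ≠ x * b)
    (P : Sylow 3 S) (hbP : b ∈ (P : Subgroup S)) (hPb : ∀ x ∈ (P : Subgroup S), x * b = b * x) :
    ∃ U : Subgroup S, ⁅Cfsg.pPrimeCore 3 S, Subgroup.zpowers b⁆ = U ∧ Moved b U ∧ U ≠ ⊥ ∧
      IsPGroup 2 U ∧ Q ≤ U ∧ Moved b Q ∧ Q ≠ ⊥ := by
  haveI : Fact (Nat.Prime 2) := ⟨Nat.prime_two⟩
  haveI : Fact (Nat.Prime 3) := ⟨Nat.prime_three⟩
  set K := Cfsg.pPrimeCore 3 S with hKd
  haveI hKn : K.Normal := Subgroup.sSup_normal _ fun _ h => h.1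
  have hKc : (Nat.card K).Coprime 3 := CfsgLib.Constrained.pPrimeCore_coprime
  have hB3 : IsPGroup 3 (Subgroup.zpowers b) :=
    IsPGroup.of_card (n := 1) (by rw [Nat.card_zpowers, hb.ord, pow_one])
  -- the four-group
  have hQ2' : IsPGroup 2 Q := IsPGroup.of_card (n := 2) (by rw [hQ4]; norm_num)
  obtain ⟨hQm0, hQle⟩ := moved_commutator hb.ord hbQ (by rw [hQ4]; norm_num)
  set Q0 := ⁅Q, Subgroup.zpowers b⁆ with hQ0d
  have hQ0ne : Q0 ≠ ⊥ := fun h => by
    obtain ⟨x, hx, hxb⟩ := hbQ'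
    have h1 : ⁅x, b⁆ ∈ Q0 := Subgroup.commutator_mem_commutator hx (Subgroup.mem_zpowers b)
    rw [h, Subgroup.mem_bot, commutatorElement_eq_one_iff_mul_comm] at h1
    exact hxb h1.symm
  have hQeq : Q0 = Q := by
    obtain ⟨l, d⟩ := hb.exists_abData hf hQm0 hQ0ne
      (fun x hx y hy => congrArg Subtype.val (hQc.is_comm.comm ⟨x, hQle hx⟩ ⟨y, hQle hy⟩))
    rcases d.card hb hf hQm0 hQ0ne
        (fun x hx y hy => congrArg Subtype.val (hQc.is_comm.comm ⟨x, hQle hx⟩ ⟨y, hQle hy⟩))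
        (hQ2'.to_le hQle) with ⟨h4, -, -⟩ | ⟨-, h13⟩
    · exact Subgroup.eq_of_le_of_card_ge hQle (by rw [h4, hQ4])
    · exact absurd h13 (by norm_num)
  have hQm : Moved b Q := hQeq ▸ hQm0
  have hQne : Q ≠ ⊥ := hQeq ▸ hQ0ne
  -- `b` is in the second core, so `Q ≤ K`
  have hQK : Q ≤ K := by
    set f := QuotientGroup.mk' K with hfd
    set O := Cfsg.pCore 3 (S ⧸ K) with hOd
    haveI hOn : O.Normal := Subgroup.sSup_normal _ fun _ h => h.1
    have hO : IsPGroup 3 O := CfsgLib.Constrained.isPGroup_pCore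
    let P' := P.mapSurjective (f := f) (QuotientGroup.mk'_surjective K)
    have hOP : O ≤ (P : Subgroup S).map f := IsPGroup.le_sylow_of_normal hO P'
    have hbO : f b ∈ O := by
      refine CfsgLib.Constrained.centralizer_pCore_quotient_le
        (CfsgLib.Constrained.isPSolvable_of_isSolvable (G := S) (p := 3)) ?_
      refine Subgroup.mem_centralizer_iff.2 fun o ho => ?_
      obtain ⟨x, hx, rfl⟩ := hOP ho
      rw [← map_mul, ← map_mul, hPb x hx]
    have hle : Q ≤ O.comap f := hQm.le_of fun x hx y hy => by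
      have h1 : f y ∈ O := by
        obtain ⟨i, rfl⟩ := Subgroup.mem_zpowers_iff.1 hy
        rw [map_zpow]
        exact Subgroup.zpow_mem _ hbO i
      show f ⁅x, y⁆ ∈ O
      rw [map_commutatorElement, commutatorElement_def]
      exact mul_mem (hOn.conj_mem _ h1 _) (inv_mem h1)
    intro q hq
    have h1 : f q ∈ O := hle hq
    have h2 : orderOf (f q) = 1 := by
      obtain ⟨n, hn⟩ := IsPGroup.iff_card.1 hO
      exact Nat.eq_one_of_dvd_coprimes (Nat.Coprime.pow 2 n (by norm_num : Nat.Coprime 2 3))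
        (by
          rw [show 2 ^ 2 = Nat.card Q by rw [hQ4]; norm_num]
          exact (orderOf_map_dvd f q).trans (Q.orderOf_dvd_natCard hq))
        (hn ▸ O.orderOf_dvd_natCard h1)
    exact (QuotientGroup.eq_one_iff q).1 (orderOf_eq_one_iff.1 h2)
  -- invariant Sylow subgroups of `K`
  have hsyl : ∀ q : ℕ, q.Prime → ∃ T : Subgroup S, T ≤ K ∧ IsPGroup q T ∧
      (∀ x ∈ T, b * x * b⁻¹ ∈ T) ∧ ¬ q ∣ T.relIndex K := by
    intro q hq
    haveI : Fact q.Prime := ⟨hq⟩
    obtain ⟨T, hT⟩ := CfsgLib.Coprime44.exists_invariant_sylow hB3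
      ((Nat.prime_three.coprime_iff_not_dvd).1 hKc.symm)
      (fun g _ => Subgroup.mem_normalizer_iff.2 fun n => ⟨fun h => hKn.conj_mem n h g, fun h => by
        have h1 := hKn.conj_mem _ h g⁻¹
        simpa [mul_assoc] using h1⟩) q
    refine ⟨(T : Subgroup K).map K.subtype, Subgroup.map_subtype_le _, isPGroup_map_subtype T.2,
      fun x hx => (Subgroup.mem_normalizer_iff.1 (hT (Subgroup.mem_zpowers b)) x).1 hx, ?_⟩
    rw [Subgroup.relIndex, Subgroup.subgroupOf, Subgroup.comap_map_eq_self_of_injective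
      K.subtype_injective]
    exact T.not_dvd_index
  -- the pieces in the cores
  have hcore : ∀ q : ℕ, q.Prime → q ≠ 3 → Cfsg.pCore q S ≤ K := fun q hq hq3 => by
    haveI : Fact q.Prime := ⟨hq⟩
    refine CfsgLib.Constrained.le_pPrimeCore (Subgroup.sSup_normal _ fun _ h => h.1) ?_
    obtain ⟨n, hn⟩ := IsPGroup.iff_card.1 (CfsgLib.Constrained.isPGroup_pCore (p := q) (G := S))
    rw [hn]
    exact ((Nat.coprime_primes hq Nat.prime_three).2 hq3).pow_left n
  have hmv : ∀ T : Subgroup S, T ≤ K → (∀ x ∈ T, b * x * b⁻¹ ∈ T) →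
      Moved b ⁅T, Subgroup.zpowers b⁆ ∧ ⁅T, Subgroup.zpowers b⁆ ≤ T := fun T hTK hT =>
    moved_commutator hb.ord hT (hKc.coprime_dvd_left (Subgroup.card_dvd_of_le hTK))
  have hpc : ∀ q : ℕ, ∀ x ∈ Cfsg.pCore q S, b * x * b⁻¹ ∈ Cfsg.pCore q S := fun q x hx =>
    (Subgroup.sSup_normal {N : Subgroup S | N.Normal ∧ IsPGroup q N} fun _ h => h.1).conj_mem x hx b
  set T2 := Cfsg.pCore 2 S with hT2d
  haveI hT2n : T2.Normal := Subgroup.sSup_normal _ fun _ h => h.1
  have hT2p : IsPGroup 2 T2 := CfsgLib.Constrained.isPGroup_pCore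
  obtain ⟨hU0, hU0le⟩ := hmv T2 (hcore 2 Nat.prime_two (by norm_num)) (hpc 2)
  set U0 := ⁅T2, Subgroup.zpowers b⁆ with hU0d
  have hU0p : IsPGroup 2 U0 := hT2p.to_le hU0le
  haveI : Fact (Nat.Prime 13) := ⟨by norm_num⟩
  -- a moved four-group or a non-abelian one has moved space of dimension at most four
  have hdim : ∀ X : Subgroup S, Moved b X → X ≠ ⊥ → IsPGroup 2 X →
      Module.finrank (ZMod 3) (Com ρ X) ≤ 4 := by
    intro X hX hX0 hXp
    by_cases hab : ∀ x ∈ X, ∀ y ∈ X, x * y = y * x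
    · obtain ⟨l, d⟩ := hb.exists_abData hf hX hX0 hab
      rw [d.finrank hb hf hX hX0 hab]
      norm_num
    · have hn : NonAb X := by push Not at hab; exact hab
      obtain ⟨z, D⟩ := hX.exists_exData hb hf hXp hn
      rw [D.dim hb hf hX hXp hn]
  have hd13 : ∀ C : Subgroup S, Moved b C → Nat.card C = 13 →
      C ≠ ⊥ ∧ IsCyclic C ∧ Module.finrank (ZMod 3) (Com ρ C) = 3 := by
    intro C hC hC13
    have hne : C ≠ ⊥ := fun e => by rw [e, Subgroup.card_bot] at hC13; omega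
    haveI : IsCyclic C := isCyclic_of_prime_card (p := 13) hC13
    have hCc : ∀ x ∈ C, ∀ y ∈ C, x * y = y * x := fun x hx y hy =>
      congrArg Subtype.val ((IsCyclic.isMulCommutative (α := C)).is_comm.comm ⟨x, hx⟩ ⟨y, hy⟩)
    obtain ⟨l, d⟩ := hb.exists_abData hf hC hne hCc
    exact ⟨hne, inferInstance, d.finrank hb hf hC hne hCc⟩
  -- the `2`-core is moved
  have hU0ne : U0 ≠ ⊥ := by
    intro hU00
    obtain ⟨q, hq, hne⟩ : ∃ q : ℕ, q.Prime ∧
        ⁅Cfsg.pCore q S, Subgroup.zpowers b⁆ ≠ ⊥ := by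
      by_contra hcon
      push Not at hcon
      have hcen : b ∈ Subgroup.centralizer (Cfsg.fittingSubgroup S : Set S) := by
        have hle : Cfsg.fittingSubgroup S ≤ Subgroup.centralizer (Subgroup.zpowers b : Set S) := by
          rw [CfsgLib.Constrained.fitting_eq_iSup_pCore]
          exact iSup₂_le fun q hq => Subgroup.commutator_eq_bot_iff_le_centralizer.1 (hcon q hq)
        exact Subgroup.mem_centralizer_iff.2 fun x hx =>
          (Subgroup.mem_centralizer_iff.1 (hle hx) b (Subgroup.mem_zpowers b)).symm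
      have hbF := CfsgLib.Constrained.centralizer_fitting_le hcen
      have hFK : Cfsg.fittingSubgroup S ≤ K := by
        rw [CfsgLib.Constrained.fitting_eq_iSup_pCore]
        refine iSup₂_le fun q hq => ?_
        by_cases hq3 : q = 3
        · rw [hq3, hO3]; exact bot_le
        · exact hcore q hq hq3
      have h1 := K.orderOf_dvd_natCard (hFK hbF)
      rw [hb.ord] at h1
      exact absurd (Nat.eq_one_of_dvd_coprimes hKc h1 dvd_rfl) (by norm_num)
    haveI : Fact q.Prime := ⟨hq⟩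
    have hq3 : q ≠ 3 := fun e => hne (by rw [e, hO3, Subgroup.commutator_bot_left])
    have hq2 : q ≠ 2 := fun e => hne (by rw [e]; exact hU00)
    obtain ⟨hC, hCle⟩ := hmv _ (hcore q hq hq3) (hpc q)
    set C := ⁅Cfsg.pCore q S, Subgroup.zpowers b⁆ with hCd
    obtain ⟨-, hC13, rfl⟩ := hC.odd_case hb hf hne
      ((CfsgLib.Constrained.isPGroup_pCore (p := q) (G := S)).to_le hCle) hq2
    obtain ⟨hCne, hCcyc, hC3⟩ := hd13 C hC hC13
    -- the subgroup generated by the conjugates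
    set M := Subgroup.closure {x : S | ∃ r ∈ Q, ∃ c ∈ C, x = r * c * r⁻¹} with hMd
    have hMO : M ≤ Cfsg.pCore 13 S := (Subgroup.closure_le _).2 (by
      rintro _ ⟨r, -, c, hc, rfl⟩
      exact (Subgroup.sSup_normal {N : Subgroup S | N.Normal ∧ IsPGroup 13 N}
        fun _ h => h.1).conj_mem c (hCle hc) r)
    have hCM : C ≤ M := fun c hc =>
      Subgroup.subset_closure ⟨1, one_mem Q, c, hc, by simp⟩
    have hYM : ∀ m ∈ M, ∀ v ∈ Fix ρ Q ⊓ Fix ρ C, ρ m v = v := by
      let L : Subgroup S :=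
        { carrier := {g | ∀ v ∈ Fix ρ Q ⊓ Fix ρ C, ρ g v = v}
          one_mem' := fun v _ => rho_one ρ v
          mul_mem' := fun {g g'} hg hg' v hv => by rw [rho_mul, hg' v hv, hg v hv]
          inv_mem' := fun {g} hg v hv => rho_inv_fix ρ (hg v hv) }
      have hML : M ≤ L := (Subgroup.closure_le _).2 (by
        rintro _ ⟨r, hr, c, hc, rfl⟩ v ⟨hv1, hv2⟩
        rw [rho_mul, rho_mul, rho_inv_fix ρ (hv1 r hr), hv2 c hc, hv1 r hr])
      exact fun m hm => hML hm
    obtain ⟨a, ha⟩ := IsPGroup.iff_card.1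
      ((CfsgLib.Constrained.isPGroup_pCore (p := 13) (G := S)).to_le hMO)
    have hMc : (Nat.card M).Coprime 3 := by
      rw [ha]; exact Nat.Coprime.pow_left a (by norm_num)
    have hQ3 : Module.finrank (ZMod 3) (Com ρ Q) = 3 := by
      obtain ⟨l, d⟩ := hb.exists_abData hf hQm hQne
        (fun x hx y hy => congrArg Subtype.val (hQc.is_comm.comm ⟨x, hx⟩ ⟨y, hy⟩))
      exact d.finrank hb hf hQm hQne
        (fun x hx y hy => congrArg Subtype.val (hQc.is_comm.comm ⟨x, hx⟩ ⟨y, hy⟩))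
    have hpair := hb.finrank_pair hf hQm hQne hC hCne
    have hdvd := card_dvd_of_quotient hf hMc hYM
    rw [ha] at hdvd
    have ha1 := thirteen_pow_bound (by omega) hdvd
    have hMC : M = C := (Subgroup.eq_of_le_of_card_ge hCM (by
      rw [hC13, ha]
      exact (Nat.pow_le_pow_right (by norm_num) ha1).trans (by norm_num))).symm
    have hQN : Q ≤ Subgroup.normalizer (C : Set S) := by
      intro r hr
      rw [Subgroup.mem_normalizer_iff]
      intro c
      refine ⟨fun hc => hMC ▸ Subgroup.subset_closure ⟨r, hr, c, hc, rfl⟩, fun hc => ?_⟩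
      have h1 : r⁻¹ * (r * c * r⁻¹) * r⁻¹⁻¹ ∈ M :=
        Subgroup.subset_closure ⟨r⁻¹, inv_mem hr, _, hc, rfl⟩
      rw [hMC] at h1
      simpa [mul_assoc] using h1
    exact hQne (kill_thirteen hb hf hC hC13 hQm hQ2' (centralize_cyclic hCcyc hQm hC.normalizer hQN))
  -- no odd moved subgroups
  have hno : ∀ (q : ℕ) (C : Subgroup S), q.Prime → q ≠ 2 → Moved b C → IsPGroup q C → C = ⊥ := by
    intro q C hq hq2 hC hCq
    by_contra hCne
    haveI : Fact q.Prime := ⟨hq⟩
    obtain ⟨-, hC13, rfl⟩ := hC.odd_case hb hf hCne hCq hq2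
    obtain ⟨-, hCcyc, hC3⟩ := hd13 C hC hC13
    set M := Subgroup.closure {x : S | ∃ c ∈ C, ∃ r ∈ U0, x = c * r * c⁻¹} with hMd
    have hMT : M ≤ T2 := (Subgroup.closure_le _).2 (by
      rintro _ ⟨c, -, r, hr, rfl⟩
      exact hT2n.conj_mem r (hU0le hr) c)
    have hUM : U0 ≤ M := fun r hr => Subgroup.subset_closure ⟨1, one_mem C, r, hr, by simp⟩
    have hYM : ∀ m ∈ M, ∀ v ∈ Fix ρ U0 ⊓ Fix ρ C, ρ m v = v := by
      let L : Subgroup S :=
        { carrier := {g | ∀ v ∈ Fix ρ U0 ⊓ Fix ρ C, ρ g v = v}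
          one_mem' := fun v _ => rho_one ρ v
          mul_mem' := fun {g g'} hg hg' v hv => by rw [rho_mul, hg' v hv, hg v hv]
          inv_mem' := fun {g} hg v hv => rho_inv_fix ρ (hg v hv) }
      have hML : M ≤ L := (Subgroup.closure_le _).2 (by
        rintro _ ⟨c, hc, r, hr, rfl⟩ v ⟨hv1, hv2⟩
        rw [rho_mul, rho_mul, rho_inv_fix ρ (hv2 c hc), hv1 r hr, hv2 c hc])
      exact fun m hm => hML hm
    obtain ⟨a, ha⟩ := IsPGroup.iff_card.1 (hT2p.to_le hMT)
    have hMc : (Nat.card M).Coprime 3 := by rw [ha]; exact Nat.Coprime.pow_left a (by norm_num)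
    have hpair := hb.finrank_pair hf hU0 hU0ne hC hCne
    have hd4 := hdim U0 hU0 hU0ne hU0p
    have hdvd := card_dvd_of_quotient hf hMc hYM
    rw [ha] at hdvd
    have ha10 := two_pow_bound (by omega) hdvd
    have hCN : C ≤ Subgroup.normalizer (M : Set S) := by
      intro c hc
      have key : ∀ d ∈ C, ∀ m ∈ M, d * m * d⁻¹ ∈ M := by
        intro d hd m hm
        have hle : M ≤ M.comap (MulAut.conj d).toMonoidHom := (Subgroup.closure_le _).2 (by
          rintro _ ⟨c', hc', r, hr, rfl⟩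
          refine Subgroup.subset_closure ⟨d * c', mul_mem hd hc', r, hr, ?_⟩
          show d * (c' * r * c'⁻¹) * d⁻¹ = _
          group)
        exact hle hm
      rw [Subgroup.mem_normalizer_iff]
      refine fun m => ⟨key c hc m, fun hm => ?_⟩
      have h1 := key c⁻¹ (inv_mem hc) _ hm
      simpa [mul_assoc] using h1
    exact hU0ne (kill_thirteen hb hf hC hC13 hU0 hU0p
      fun r hr c hc => centralize_small hC13 hCN ha ha10 r (hUM hr) c hc)
  -- the Sylow `2`-subgroup carries everything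
  obtain ⟨T, hTK, hTp, hTb, hTidx⟩ := hsyl 2 Nat.prime_two
  obtain ⟨hU, hUle⟩ := hmv T hTK hTb
  set U := ⁅T, Subgroup.zpowers b⁆ with hUd
  set CK := K ⊓ Subgroup.centralizer (Subgroup.zpowers b : Set S) with hCKd
  have hodd : ∀ q : ℕ, q.Prime → q ≠ 2 → ¬ q ∣ CK.relIndex K := by
    intro q hq hq2 hdiv
    haveI : Fact q.Prime := ⟨hq⟩
    obtain ⟨Tq, hTqK, hTqp, hTqb, hTqidx⟩ := hsyl q hq
    obtain ⟨hC, hCle⟩ := hmv Tq hTqK hTqb
    have h0 := hno q _ hq hq2 hC (hTqp.to_le hCle)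
    have hle : Tq ≤ CK := le_inf hTqK (Subgroup.commutator_eq_bot_iff_le_centralizer.1 h0)
    exact hTqidx (hdiv.trans (Subgroup.relIndex_dvd_of_le_left K hle))
  obtain ⟨j, hj⟩ : ∃ j, CK.relIndex K = 2 ^ j := by
    obtain ⟨j, m, hm, hjm⟩ := Nat.exists_eq_pow_mul_and_not_dvd
      (show CK.relIndex K ≠ 0 from (CK.subgroupOf K).index_ne_zero_of_finite) 2 (by norm_num)
    have hm1 : m = 1 := by
      by_contra hm1
      obtain ⟨p, hp, hpm⟩ := Nat.exists_prime_and_dvd hm1
      exact hodd p hp (fun e => hm (e ▸ hpm)) (hjm ▸ dvd_mul_of_dvd_right hpm _)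
    exact ⟨j, by rw [hjm, hm1, mul_one]⟩
  have hprod : ∀ k ∈ K, ∃ t ∈ T, ∃ c ∈ CK, k = t * c := by
    haveI := Fintype.ofFinite T
    let X := K ⧸ CK.subgroupOf K
    let g : T ⧸ CK.subgroupOf T → X := Quotient.map' (fun t => ⟨(t : S), hTK t.2⟩) (by
      intro t t' h
      rw [QuotientGroup.leftRel_apply] at h ⊢
      exact h)
    have hginj : Function.Injective g := by
      intro x y h
      induction x using QuotientGroup.induction_on with
      | H t =>
        induction y using QuotientGroup.induction_on with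
        | H t' =>
          have h1 := QuotientGroup.eq.1 (show ((⟨(t : S), hTK t.2⟩ : K) : X) =
            ((⟨(t' : S), hTK t'.2⟩ : K) : X) from h)
          exact QuotientGroup.eq.2 h1
    have hcard : Nat.card X ≤ Nat.card (T ⧸ CK.subgroupOf T) := by
      show CK.relIndex K ≤ CK.relIndex T
      obtain ⟨a, ha⟩ := IsPGroup.iff_card.1 hTp
      have e1 := (T.subgroupOf K).card_mul_index
      rw [Nat.card_congr (Subgroup.subgroupOfEquivOfLe hTK).toEquiv, ha] at e1
      have e2 := (CK.subgroupOf K).card_mul_index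
      rw [Nat.card_congr (Subgroup.subgroupOfEquivOfLe (inf_le_left : CK ≤ K)).toEquiv,
        show (CK.subgroupOf K).index = 2 ^ j from hj] at e2
      have e3 := (CK.subgroupOf T).card_mul_index
      obtain ⟨i, hia, hi⟩ := (Nat.dvd_prime_pow Nat.prime_two).1
        (ha ▸ (CK.subgroupOf T).card_subgroup_dvd_card)
      rw [hi, ha] at e3
      have h4 : Nat.card (CK.subgroupOf T) ∣ Nat.card CK := by
        rw [← Subgroup.card_subtype T]
        refine Subgroup.card_dvd_of_le ?_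
        rintro _ ⟨x, hx, rfl⟩
        exact hx
      rw [hi] at h4
      have h5 : 2 ^ (i + j) ∣ 2 ^ a := by
        have h6 : 2 ^ (i + j) ∣ Nat.card K := by
          rw [pow_add, ← e2]; exact Nat.mul_dvd_mul h4 dvd_rfl
        rw [← e1] at h6
        exact (Nat.Coprime.pow_left _ ((Nat.Prime.coprime_iff_not_dvd Nat.prime_two).2
          (show ¬ 2 ∣ (T.subgroupOf K).index from hTidx))).dvd_of_dvd_mul_right h6
      have h7 : 2 ^ (i + j) ≤ 2 ^ i * CK.relIndex T := by
        show 2 ^ (i + j) ≤ 2 ^ i * (CK.subgroupOf T).index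
        rw [e3]
        exact Nat.le_of_dvd (by positivity) h5
      rw [pow_add] at h7
      rw [hj]
      exact Nat.le_of_mul_le_mul_left h7 (by positivity)
    have hbij : Function.Bijective g := hginj.bijective_of_nat_card_le hcard
    intro k hk
    obtain ⟨x, hx⟩ := hbij.2 ((⟨k, hk⟩ : K) : X)
    induction x using QuotientGroup.induction_on with
    | H t =>
      have h1 := QuotientGroup.eq.1 (show ((⟨(t : S), hTK t.2⟩ : K) : X) = ((⟨k, hk⟩ : K) : X) from hx)
      exact ⟨t, t.2, (t : S)⁻¹ * k, Subgroup.mem_subgroupOf.1 h1, by group⟩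
  have hR : ⁅K, Subgroup.zpowers b⁆ = U := by
    refine le_antisymm (Subgroup.commutator_le.2 fun k hk y hy => ?_)
      (Subgroup.commutator_mono hTK le_rfl)
    obtain ⟨t, ht, c, hc, rfl⟩ := hprod k hk
    have hcy : y * c = c * y := Subgroup.mem_centralizer_iff.1 hc.2 y hy
    have e : ⁅t * c, y⁆ = ⁅t, y⁆ := by
      calc ⁅t * c, y⁆ = t * (c * y) * c⁻¹ * t⁻¹ * y⁻¹ := by rw [commutatorElement_def]; group
        _ = ⁅t, y⁆ := by rw [← hcy, commutatorElement_def]; group
    rw [e]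
    exact Subgroup.commutator_mem_commutator ht hy
  have hQU : Q ≤ U := hQm.gen.trans (hR ▸ Subgroup.commutator_mono hQK le_rfl)
  exact ⟨U, hR, hU, fun e => hQne (eq_bot_iff.2 (e ▸ hQU)), hTp.to_le hUle, hQU, hQm, hQne⟩

end CfsgLib.CubicThree
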