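import Cfsg.Agent.CubicThree.Extra
import Mathlib.LinearAlgebra.Matrix.GeneralLinearGroup.Card

/-!
Excluding moved subgroups of order thirteen: small quotient spaces and commutants.
-/

set_option autoImplicit false
set_option linter.style.haveILetI false
set_option linter.unusedSectionVars false

namespace CfsgLib.CubicThree

open scoped commutatorElement

variable {S : Type*} [Group S] [Finite S]
variable {E : Type*} [AddCommGroup E] [Module (ZMod 3) E] [Finite E]
variable {ρ : Representation (ZMod 3) S E} {b : S}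

/-- A moved group centralising a moved group of order thirteen is trivial. -/
theorem kill_thirteen (hb : Cubic ρ b) (hf : Function.Injective ρ) {C U : Subgroup S}
    (hC : Moved b C) (hC13 : Nat.card C = 13) (hU : Moved b U) (h2 : IsPGroup 2 U)
    (hUC : ∀ r ∈ U, ∀ c ∈ C, r * c = c * r) : U = ⊥ := by
  by_contra hU0
  haveI : Fact (Nat.Prime 13) := ⟨by norm_num⟩
  have hCne : C ≠ ⊥ := fun e => by rw [e, Subgroup.card_bot] at hC13; omega
  haveI : IsCyclic C := isCyclic_of_prime_card (p := 13) hC13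
  have hCc : ∀ x ∈ C, ∀ y ∈ C, x * y = y * x := fun x hx y hy =>
    congrArg Subtype.val ((IsCyclic.isMulCommutative (α := C)).is_comm.comm ⟨x, hx⟩ ⟨y, hy⟩)
  obtain ⟨l, d⟩ := hb.exists_abData hf hC hCne hCc
  have hd3 := d.finrank hb hf hC hCne hCc
  set W := Com ρ C with hW
  have hUN : ∀ r ∈ U, r ∈ Subgroup.normalizer (C : Set S) := fun r hr =>
    Subgroup.centralizer_le_normalizer _
      (Subgroup.mem_centralizer_iff.2 fun c hc => (hUC r hr c hc).symm)
  have hCW : ∀ c ∈ C, ∀ v ∈ W, ρ c v ∈ W := fun c hc v hv =>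
    rho_mem_Com ρ (Subgroup.le_normalizer hc) hv
  -- `C` is irreducible on its moved space
  have hirr : ∀ N : Submodule (ZMod 3) E, N ≤ W → (∀ c ∈ C, ∀ v ∈ N, ρ c v ∈ N) →
      Module.finrank (ZMod 3) N = 0 ∨ Module.finrank (ZMod 3) N = 3 := by
    intro N hNW hN
    letI : MulAction C N :=
      { smul := fun c v => ⟨ρ (c : S) v, hN c c.2 v v.2⟩
        one_smul := fun v => Subtype.ext (rho_one ρ (v : E))
        mul_smul := fun c c' v => Subtype.ext (rho_mul ρ (c : S) c' v) }
    have h1 := (IsPGroup.of_card (n := 1) (by rw [hC13, pow_one]) : IsPGroup 13 C).card_modEq_card_fixedPoints N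
    have h2 : Nat.card (MulAction.fixedPoints C N) = 1 := by
      rw [Nat.card_eq_one_iff_unique]
      refine ⟨⟨fun v w => ?_⟩, ⟨⟨0, fun c => Subtype.ext (map_zero (ρ (c : S)))⟩⟩⟩
      have key : ∀ u : MulAction.fixedPoints C N, ((u : N) : E) = 0 := fun u => by
        have h3 : ((u : N) : E) ∈ Fix ρ C ⊓ Com ρ C :=
          ⟨fun c hc => congrArg Subtype.val (u.2 ⟨c, hc⟩), hNW (u : N).2⟩
        rwa [Fix_inf_Com ρ hC.cop, Submodule.mem_bot] at h3
      exact Subtype.ext (Subtype.ext ((key v).trans (key w).symm))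
    rw [h2, Module.natCard_eq_pow_finrank (K := ZMod 3), Nat.card_zmod] at h1
    have h4 : Module.finrank (ZMod 3) N ≤ 3 := (Submodule.finrank_mono hNW).trans hd3.le
    revert h1
    generalize Module.finrank (ZMod 3) N = n at h4 ⊢
    intro h1
    interval_cases n
    · exact Or.inl rfl
    · exact absurd h1 (by decide)
    · exact absurd h1 (by decide)
    · exact Or.inr rfl
  have hscal : ∀ (k : ℕ) (r : S), r ∈ U → r ^ 2 ^ k = 1 →
      (∀ v ∈ W, ρ r v = v) ∨ ∀ v ∈ W, ρ r v = -v := by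
    intro k
    induction k with
    | zero =>
      intro r _ h
      rw [pow_zero, pow_one] at h
      exact Or.inl fun v _ => by rw [h, rho_one]
    | succ k ih =>
      intro r hr h
      have hr2 := ih (r * r) (mul_mem hr hr) (by rw [← pow_two, ← pow_mul, ← pow_succ']; exact h)
      have hrW : ∀ v ∈ W, ρ r v ∈ W := fun v hv => rho_mem_Com ρ (hUN r hr) hv
      rcases hr2 with h1 | h1
      · -- the eigenspaces are invariant
        have hP : ∀ c ∈ C, ∀ v ∈ eigP ρ W r, ρ c v ∈ eigP ρ W r := fun c hc v hv => by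
          obtain ⟨h3, h4⟩ := mem_eigP.1 hv
          exact mem_eigP.2 ⟨hCW c hc v h3, by rw [← rho_mul, hUC r hr c hc, rho_mul, h4]⟩
        rcases hirr (eigP ρ W r) inf_le_left hP with h5 | h5
        · right
          intro v hv
          have h6 : v + ρ r v ∈ eigP ρ W r := mem_eigP.2 ⟨Submodule.add_mem _ hv (hrW v hv), by
            rw [map_add, ← rho_mul, h1 v hv, add_comm]⟩
          rw [Submodule.finrank_eq_zero.1 h5, Submodule.mem_bot] at h6
          exact eq_neg_of_add_eq_zero_right h6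
        · left
          intro v hv
          have e : eigP ρ W r = W := Submodule.eq_of_le_of_finrank_le inf_le_left (by rw [h5, hd3])
          exact (mem_eigP.1 (e.symm ▸ hv)).2
      · exfalso
        let R : Module.End (ZMod 3) W := (ρ r).restrict hrW
        have hR : R * R = (-1 : ZMod 3) • (1 : Module.End (ZMod 3) W) :=
          LinearMap.ext fun v => Subtype.ext (by
            show ρ r (ρ r (v : E)) = (-1 : ZMod 3) • (v : E)
            rw [← rho_mul, h1 v v.2, neg_smul, one_smul])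
        have h3 := congrArg LinearMap.det hR
        rw [map_mul, LinearMap.det_smul, map_one, hd3, mul_one] at h3
        have h4 : ∀ t : ZMod 3, t * t ≠ (-1) ^ 3 := by decide
        exact h4 _ h3
  have hbW : ∀ v ∈ W, ρ b v ∈ W := fun v hv => rho_mem_Com ρ hC.normalizer hv
  let L : Subgroup S :=
    { carrier := {g | ∀ v ∈ W, ρ g v = v}
      one_mem' := fun v _ => rho_one ρ v
      mul_mem' := fun {g g'} hg hg' v hv => by rw [rho_mul, hg' v hv, hg v hv]
      inv_mem' := fun {g} hg v hv => rho_inv_fix ρ (hg v hv) }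
  have hUL : U ≤ L := by
    refine hU.le_of fun x hx y hy v hv => ?_
    obtain ⟨n, hn⟩ := h2 ⟨x, hx⟩
    have hn' : x ^ 2 ^ n = 1 := congrArg Subtype.val hn
    have hyW : ∀ w ∈ W, ρ y w ∈ W := fun w hw =>
      rho_mem_Com ρ (conj_mem_iff_of_inv C hC.inv hy) hw
    have hyW' : ρ y⁻¹ v ∈ W := rho_mem_Com ρ (conj_mem_iff_of_inv C hC.inv (inv_mem hy)) hv
    rw [commutatorElement_def, rho_mul, rho_mul, rho_mul]
    rcases hscal n x hx hn' with h1 | h1
    · rw [rho_inv_fix ρ (h1 _ hyW'), rho_self_inv, h1 v hv]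
    · have h4 : ρ x⁻¹ (ρ y⁻¹ v) = -ρ y⁻¹ v := by
        refine rho_injective ρ x ?_
        rw [rho_self_inv, map_neg, h1 _ hyW', neg_neg]
      rw [h4, map_neg, rho_self_inv, map_neg, h1 v hv, neg_neg]
  have hl2 : l ∈ Com ρ U := by
    obtain ⟨w, -, hw⟩ := d.image
    exact hw ▸ hb.du_mem_Com hf hU hU0 _
  have h5 : l ∈ Fix ρ U ⊓ Com ρ U := ⟨fun r hr => hUL hr l d.mem, hl2⟩
  rw [Fix_inf_Com ρ hU.cop, Submodule.mem_bot] at h5
  exact d.ne h5

/-- The order of a subgroup acting trivially on a subspace and its quotient-faithfully. -/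
theorem card_dvd_of_quotient (hf : Function.Injective ρ) {M : Subgroup S}
    (hM : (Nat.card M).Coprime 3) {Y : Submodule (ZMod 3) E} (hY : ∀ m ∈ M, ∀ v ∈ Y, ρ m v = v) :
    Nat.card M ∣ ∏ i : Fin (Module.finrank (ZMod 3) (E ⧸ Y)),
      (3 ^ Module.finrank (ZMod 3) (E ⧸ Y) - 3 ^ (i : ℕ)) := by
  have hY' : ∀ m ∈ M, Y ≤ Y.comap (ρ m) := fun m hm v hv => by
    show ρ m v ∈ Y
    rw [hY m hm v hv]; exact hv
  let f : M →* Module.End (ZMod 3) (E ⧸ Y) :=
    { toFun := fun m => Y.mapQ Y (ρ (m : S)) (hY' m m.2)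
      map_one' := Submodule.linearMap_qext _ (LinearMap.ext fun v => by
        simp only [LinearMap.comp_apply, Submodule.mkQ_apply, Submodule.mapQ_apply,
          OneMemClass.coe_one, rho_one, Module.End.one_apply])
      map_mul' := fun m m' => Submodule.linearMap_qext _ (LinearMap.ext fun v => by
        simp only [LinearMap.comp_apply, Submodule.mkQ_apply, Submodule.mapQ_apply,
          Subgroup.coe_mul, rho_mul, Module.End.mul_apply]) }
  let g := f.toHomUnits
  have hg : Function.Injective g := by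
    rw [injective_iff_map_eq_one]
    intro m hm
    have h1 : f m = 1 := congrArg Units.val hm
    have hcop : (Nat.card (Subgroup.zpowers (m : S))).Coprime 3 :=
      hM.coprime_dvd_left (Subgroup.card_dvd_of_le (Subgroup.zpowers_le.2 m.2))
    refine Subtype.ext (eq_one_of_fix ρ hf hcop (fun v hv => hv _ (Subgroup.mem_zpowers _))
      fun v hv => ?_)
    have h3 : ρ (m : S) v - v ∈ Y :=
      (Submodule.Quotient.eq Y).1 (LinearMap.congr_fun h1 (Submodule.Quotient.mk v))
    have h4 : ρ (m : S) v - v ∈ Fix ρ (Subgroup.zpowers (m : S)) ⊓ Com ρ (Subgroup.zpowers (m : S)) :=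
      ⟨fun x hx => hY x (Subgroup.zpowers_le.2 m.2 hx) _ h3,
        Submodule.sub_mem _ (rho_mem_Com ρ (Subgroup.le_normalizer (Subgroup.mem_zpowers _)) hv) hv⟩
    rw [Fix_inf_Com ρ hcop, Submodule.mem_bot, sub_eq_zero] at h4
    exact h4
  let bs := Module.finBasis (ZMod 3) (E ⧸ Y)
  let e := Units.mapEquiv (LinearMap.toMatrixAlgEquiv bs).toRingEquiv.toMulEquiv
  have h2 := Subgroup.card_dvd_of_injective (e.toMonoidHom.comp g) (e.injective.comp hg)
  have h5 := Matrix.card_GL_field (𝔽 := ZMod 3) (Module.finrank (ZMod 3) (E ⧸ Y))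
  rw [ZMod.card] at h5
  rwa [← h5]

theorem finrank_quotient_le {P Q K0 : Submodule (ZMod 3) E} (hP : P ≤ K0) (hQ : Q ≤ K0) :
    Module.finrank (ZMod 3) (E ⧸ (P ⊓ Q)) + Module.finrank (ZMod 3) P +
      Module.finrank (ZMod 3) Q ≤ Module.finrank (ZMod 3) E + Module.finrank (ZMod 3) K0 := by
  have h1 := Submodule.finrank_sup_add_finrank_inf_eq P Q
  have h2 := Submodule.finrank_mono (sup_le hP hQ)
  have h3 := Submodule.finrank_quotient_add_finrank (P ⊓ Q)
  omega

theorem finrank_Fix {X : Subgroup S} (hX : (Nat.card X).Coprime 3) :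
    Module.finrank (ZMod 3) (Fix ρ X) + Module.finrank (ZMod 3) (Com ρ X) =
      Module.finrank (ZMod 3) E := by
  have h1 := Submodule.finrank_sup_add_finrank_inf_eq (Fix ρ X) (Com ρ X)
  rw [Fix_sup_Com ρ hX, Fix_inf_Com ρ hX, finrank_bot, finrank_top] at h1
  omega

/-- Two moved subgroups live on a small quotient. -/
theorem Cubic.finrank_pair (hb : Cubic ρ b) (hf : Function.Injective ρ) {X Y : Subgroup S}
    (hX : Moved b X) (hX0 : X ≠ ⊥) (hY : Moved b Y) (hY0 : Y ≠ ⊥) :
    Module.finrank (ZMod 3) (E ⧸ (Fix ρ X ⊓ Fix ρ Y)) + 2 ≤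
      Module.finrank (ZMod 3) (Com ρ X) + Module.finrank (ZMod 3) (Com ρ Y) := by
  have h1 := finrank_quotient_le (P := Fix ρ X) (Q := Fix ρ Y) (K0 := LinearMap.ker (du ρ b))
    (fun v hv => (du_eq_zero ρ).2 (hb.fix_trivial hf hX hX0 v hv))
    (fun v hv => (du_eq_zero ρ).2 (hb.fix_trivial hf hY hY0 v hv))
  have h2 := LinearMap.finrank_range_add_finrank_ker (du ρ b)
  rw [hb.rank] at h2
  have h3 := finrank_Fix (ρ := ρ) hX.cop
  have h4 := finrank_Fix (ρ := ρ) hY.cop
  omega

theorem two_pow_bound {n a : ℕ} (hn : n ≤ 5)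
    (h : 2 ^ a ∣ ∏ i : Fin n, (3 ^ n - 3 ^ (i : ℕ))) : a ≤ 10 := by
  by_contra ha
  have h1 := (pow_dvd_pow 2 (show 11 ≤ a by omega)).trans h
  interval_cases n <;> simp [Fin.prod_univ_succ] at h1

theorem thirteen_pow_bound {n a : ℕ} (hn : n ≤ 4)
    (h : 13 ^ a ∣ ∏ i : Fin n, (3 ^ n - 3 ^ (i : ℕ))) : a ≤ 1 := by
  by_contra ha
  have h1 := (pow_dvd_pow 13 (show 2 ≤ a by omega)).trans h
  interval_cases n <;> simp [Fin.prod_univ_succ] at h1

theorem two_pow_mod_thirteen : ∀ a < 11, ∀ c < 11, 2 ^ a % 13 = 2 ^ c % 13 → a = c := by decide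

/-- A group of order thirteen centralises a small `2`-group it normalises. -/
theorem centralize_small {C M : Subgroup S} (hC : Nat.card C = 13)
    (hn : C ≤ Subgroup.normalizer (M : Set S)) {a : ℕ} (hM : Nat.card M = 2 ^ a) (ha : a ≤ 10) :
    ∀ m ∈ M, ∀ c ∈ C, m * c = c * m := by
  haveI : Fact (Nat.Prime 13) := ⟨by norm_num⟩
  let φ : C →* MulAut M := M.normalizerMonoidHom.comp (Subgroup.inclusion hn)
  letI : MulAction C M := MulAction.compHom _ φ
  have h1 := (IsPGroup.of_card (n := 1) (by rw [hC, pow_one]) : IsPGroup 13 C).card_modEq_card_fixedPoints M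
  let F : Subgroup S := M ⊓ Subgroup.centralizer (C : Set S)
  have h2 : Nat.card (MulAction.fixedPoints C M) = Nat.card F := by
    refine Nat.card_congr
      { toFun := fun u => ⟨((u : M) : S), (u : M).2, Subgroup.mem_centralizer_iff.2 fun c hc => ?_⟩
        invFun := fun m => ⟨⟨m, m.2.1⟩, fun c => Subtype.ext ?_⟩
        left_inv := fun u => rfl
        right_inv := fun m => rfl }
    · exact mul_inv_eq_iff_eq_mul.1
        (congrArg Subtype.val (u.2 ⟨c, hc⟩) : c * ((u : M) : S) * c⁻¹ = _)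
    · show (c : S) * m * (c : S)⁻¹ = m
      rw [Subgroup.mem_centralizer_iff.1 m.2.2 c c.2, mul_inv_cancel_right]
  rw [h2, hM] at h1
  obtain ⟨c, hc, hc'⟩ := (Nat.dvd_prime_pow Nat.prime_two).1
    (hM ▸ Subgroup.card_dvd_of_le (inf_le_left : F ≤ M))
  rw [hc'] at h1
  have hac := two_pow_mod_thirteen a (by omega) c (by omega) h1
  have hF : F = M := Subgroup.eq_of_le_of_card_ge inf_le_left (by rw [hc', hM, hac])
  intro m hm k hk
  rw [← hF] at hm
  exact (Subgroup.mem_centralizer_iff.1 hm.2 k hk).symm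

end CfsgLib.CubicThree
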